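import Mathlib
import Cfsg.Agent.Fus.Group
import Cfsg.Agent.Fus.EssSL2b

/-!
# Fusion systems on a Sylow 3-subgroup of `Co₁`: definitions

`V = S²(F₃³)` with basis `e₁², e₁e₂, e₂², e₁e₃, e₂e₃, e₃²` (coordinates `0, …, 5`), `AG = V ⋊ GL(V)`,
`U = UT₃(3)` acting on `V`, `S0 = V ⋊ U` (order `3⁹`).
-/

set_option autoImplicit false

namespace Cfsg.Agent.C3

open Cfsg Cfsg.FusionSystem Cfsg.Agent.Fus Subgroup

abbrev K := ZMod 3
abbrev V := Fin 6 → ZMod 3
abbrev GL6 := V ≃ₗ[ZMod 3] V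

instance : Fact (Nat.Prime 3) := Nat.fact_prime_three

instance : Finite GL6 := Finite.of_injective (fun g : GL6 => (g : V → V)) DFunLike.coe_injective

/-- An additive bijection of `V` given by formulas. -/
def mkL (f g : V → V) (hf : ∀ v w, f (v + w) = f v + f w) (h1 : ∀ v, g (f v) = v)
    (h2 : ∀ v, f (g v) = v) : GL6 :=
  { (AddMonoidHom.mk' f hf).toZModLinearMap 3 with invFun := g, left_inv := h1, right_inv := h2 }

@[simp] theorem mkL_apply (f g : V → V) (hf h1 h2) (v : V) : mkL f g hf h1 h2 v = f v := rfl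

theorem mkL_inv_apply (f g : V → V) (hf h1 h2) (v : V) : (mkL f g hf h1 h2)⁻¹ v = g v := rfl

theorem three : (3 : K) = 0 := rfl

/-- Basis vectors. -/
def e (i : Fin 6) : V := Pi.single i 1

/-- `e₂ ↦ e₂ + a e₁`, `e₃ ↦ e₃ + b e₂ + c e₁`. -/
def uf (a b c : K) (v : V) : V :=
  ![v 0 + a * v 1 + a * a * v 2 + c * v 3 + a * c * v 4 + c * c * v 5,
    v 1 + 2 * a * v 2 + b * v 3 + (c + a * b) * v 4 + 2 * b * c * v 5,
    v 2 + b * v 4 + b * b * v 5, v 3 + a * v 4 + 2 * c * v 5, v 4 + 2 * b * v 5, v 5]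

theorem uf_uf (a b c a' b' c' : K) (v : V) :
    uf a b c (uf a' b' c' v) = uf (a + a') (b + b') (c + c' + a * b') v := by
  funext i; fin_cases i <;> simp [uf] <;> ring

theorem uf_zero (v : V) : uf 0 0 0 v = v := by funext i; fin_cases i <;> simp [uf]

def u (a b c : K) : GL6 :=
  mkL (uf a b c) (uf (-a) (-b) (a * b - c))
    (fun v w => by funext i; fin_cases i <;> simp [uf] <;> ring)
    (fun v => by rw [uf_uf]; convert uf_zero v using 2 <;> ring)
    (fun v => by rw [uf_uf]; convert uf_zero v using 2 <;> ring)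

theorem u_apply (a b c : K) (v : V) : u a b c v = uf a b c v := rfl

theorem u_mul (a b c a' b' c' : K) :
    u a b c * u a' b' c' = u (a + a') (b + b') (c + c' + a * b') :=
  LinearEquiv.ext fun v => uf_uf a b c a' b' c' v

theorem u_zero : u 0 0 0 = 1 := LinearEquiv.ext uf_zero

theorem u_inv (a b c : K) : (u a b c)⁻¹ = u (-a) (-b) (a * b - c) := LinearEquiv.ext fun _ => rfl

/-- Diagonal maps; `p, r, s` are meant to be `±1`. -/
def tf (p r s : K) (v : V) : V :=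
  ![s * v 0, s * p * v 1, s * v 2, s * p * r * v 3, s * r * v 4, s * v 5]

theorem tf_tf (p r s p' r' s' : K) (v : V) :
    tf p r s (tf p' r' s' v) = tf (p * p') (r * r') (s * s') v := by
  funext i; fin_cases i <;> simp [tf] <;> ring

theorem tf_one (v : V) : tf 1 1 1 v = v := by funext i; fin_cases i <;> simp [tf]

theorem unit_sq : ∀ p : Kˣ, (p : K) * p = 1 := by decide

def tor (p r s : Kˣ) : GL6 :=
  mkL (tf p r s) (tf p r s) (fun v w => by funext i; fin_cases i <;> simp [tf] <;> ring)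
    (fun v => by rw [tf_tf, unit_sq, unit_sq, unit_sq, tf_one])
    (fun v => by rw [tf_tf, unit_sq, unit_sq, unit_sq, tf_one])

theorem tor_apply (p r s : Kˣ) (v : V) : tor p r s v = tf p r s v := rfl

/-- `e₁ ↦ -e₁`. -/
def d1 : GL6 := tor (-1) 1 1
/-- `e₃ ↦ -e₃`. -/
def d3 : GL6 := tor 1 (-1) 1
/-- `-1`. -/
def sg : GL6 := tor 1 1 (-1)

/-- `e₃² ↦ e₃² + l e₁²`. -/
def pf (l : K) (v : V) : V := ![v 0 + l * v 5, v 1, v 2, v 3, v 4, v 5]

def ph (l : K) : GL6 :=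
  mkL (pf l) (pf (-l)) (fun v w => by funext i; fin_cases i <;> simp [pf]; ring)
    (fun v => by funext i; fin_cases i <;> simp [pf]) (fun v => by funext i; fin_cases i <;> simp [pf])

theorem ph_apply (l : K) (v : V) : ph l v = pf l v := rfl

/-- `e₁ ↦ -e₂`, `e₂ ↦ e₁`, conjugated by `ph l`. -/
def waf (l : K) (v : V) : V := ![v 2 + l * v 5, -v 1, v 0 - l * v 5, v 4, -v 3, v 5]

def wa (l : K) : GL6 :=
  mkL (waf l) (fun v => ![v 2 + l * v 5, -v 1, v 0 - l * v 5, -v 4, v 3, v 5])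
    (fun v w => by funext i; fin_cases i <;> simp [waf] <;> ring)
    (fun v => by funext i; fin_cases i <;> simp [waf]) (fun v => by funext i; fin_cases i <;> simp [waf])

theorem wa_apply (l : K) (v : V) : wa l v = waf l v := rfl

/-- `e₂ ↦ -e₃`, `e₃ ↦ e₂`, conjugated by `ph m`. -/
def wbf (m : K) (v : V) : V := ![v 0 + m * (v 2 - v 5), v 3, v 5, -v 1, -v 4, v 2]

def wb (m : K) : GL6 :=
  mkL (wbf m) (fun v => ![v 0 + m * (v 2 - v 5), -v 3, v 5, v 1, -v 4, v 2])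
    (fun v w => by funext i; fin_cases i <;> simp [wbf] <;> ring)
    (fun v => by funext i; fin_cases i <;> simp [wbf]; ring)
    (fun v => by funext i; fin_cases i <;> simp [wbf]; ring)

theorem wb_apply (m : K) (v : V) : wb m v = wbf m v := rfl

/-! ### Subgroups of `GL6` -/

def U : Subgroup GL6 where
  carrier := {g | ∃ a b c, g = u a b c}
  one_mem' := ⟨0, 0, 0, u_zero.symm⟩
  mul_mem' := by rintro _ _ ⟨a, b, c, rfl⟩ ⟨a', b', c', rfl⟩; exact ⟨_, _, _, u_mul ..⟩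
  inv_mem' := by rintro _ ⟨a, b, c, rfl⟩; exact ⟨_, _, _, u_inv ..⟩

theorem mem_U {g : GL6} : g ∈ U ↔ ∃ a b c, g = u a b c := Iff.rfl

theorem u_mem (a b c : K) : u a b c ∈ U := ⟨a, b, c, rfl⟩

/-- The maximal subgroup `p a + q b = 0` of `U`. -/
def Bl (p q : K) : Subgroup GL6 where
  carrier := {g | ∃ a b c, p * a + q * b = 0 ∧ g = u a b c}
  one_mem' := ⟨0, 0, 0, by simp, u_zero.symm⟩
  mul_mem' := by
    rintro _ _ ⟨a, b, c, h, rfl⟩ ⟨a', b', c', h', rfl⟩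
    exact ⟨_, _, _, by linear_combination h + h', u_mul ..⟩
  inv_mem' := by rintro _ ⟨a, b, c, h, rfl⟩; exact ⟨_, _, _, by linear_combination -h, u_inv ..⟩

theorem mem_Bl {p q : K} {g : GL6} : g ∈ Bl p q ↔ ∃ a b c, p * a + q * b = 0 ∧ g = u a b c := Iff.rfl

/-- `{u a 0 c}`. -/
abbrev Ba : Subgroup GL6 := Bl 0 1
/-- `{u 0 b c}`. -/
abbrev Bb : Subgroup GL6 := Bl 1 0

/-- `⟨U, wb 0, wa l⟩`: `SL₃(3)` for `l = 0`, `2 M₁₂` for `l = 1`. -/
def X1 (l : K) : Subgroup GL6 := closure {u 1 0 0, u 0 1 0, wb 0, wa l}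

/-- The three automizers of `J`. -/
def Xs : Fin 3 → Subgroup GL6 := ![X1 0, X1 0 ⊔ zpowers sg, X1 1]

/-- `U` is a Sylow 3-subgroup of `X`. -/
structure Syl (X : Subgroup GL6) : Prop where
  le : U ≤ X
  idx : ¬ 3 ∣ U.relIndex X

/-- `N_X(U) ≤ U T` with `T` the diagonal group. -/
def Tor (X : Subgroup GL6) : Prop :=
  ∀ g ∈ X, g ∈ normalizer (U : Set GL6) → ∃ a b c p r s, g = u a b c * tor p r s

/-- The conjugate `g X g⁻¹`. -/
abbrev cjX (g : GL6) (X : Subgroup GL6) : Subgroup GL6 := X.map (MulAut.conj g).toMonoidHom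

/-- The orbit of `± e 0`. -/
def orb (X : Subgroup GL6) : Set V := {v | ∃ g ∈ X, v = g (e 0) ∨ v = -g (e 0)}

/-- `W = ⟨e₁², e₁e₂, e₂²⟩`. -/
def InW (v : V) : Prop := v 3 = 0 ∧ v 4 = 0 ∧ v 5 = 0
/-- `I = ⟨e₁², e₁e₂, e₁e₃⟩`. -/
def InI (v : V) : Prop := v 2 = 0 ∧ v 4 = 0 ∧ v 5 = 0
/-- `± e₁²`. -/
def Pz (v : V) : Prop := v = e 0 ∨ v = -e 0
/-- `±` squares in `W`. -/
def Conic (v : V) : Prop := InW v ∧ v ≠ 0 ∧ v 1 * v 1 = v 0 * v 2

instance : DecidablePred InW := fun v => by unfold InW; infer_instance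
instance : DecidablePred InI := fun v => by unfold InI; infer_instance
instance : DecidablePred Pz := fun v => by unfold Pz; infer_instance
instance : DecidablePred Conic := fun v => by unfold Conic; infer_instance

/-! ### The affine group -/

@[ext] structure AG where
  v : V
  g : GL6

instance : Mul AG := ⟨fun x y => ⟨x.v + x.g y.v, x.g * y.g⟩⟩
instance : One AG := ⟨⟨0, 1⟩⟩
instance : Inv AG := ⟨fun x => ⟨-(x.g⁻¹ x.v), x.g⁻¹⟩⟩

@[simp] theorem mul_v (x y : AG) : (x * y).v = x.v + x.g y.v := rfl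
@[simp] theorem mul_g (x y : AG) : (x * y).g = x.g * y.g := rfl
@[simp] theorem one_v : (1 : AG).v = 0 := rfl
@[simp] theorem one_g : (1 : AG).g = 1 := rfl
@[simp] theorem inv_v (x : AG) : x⁻¹.v = -(x.g⁻¹ x.v) := rfl
@[simp] theorem inv_g (x : AG) : x⁻¹.g = x.g⁻¹ := rfl

theorem gl_mul_apply (g h : GL6) (v : V) : (g * h) v = g (h v) := rfl
theorem gl_one_apply (v : V) : (1 : GL6) v = v := rfl
theorem gl_inv_apply (g : GL6) (v : V) : g⁻¹ (g v) = v := g.symm_apply_apply v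
theorem gl_apply_inv (g : GL6) (v : V) : g (g⁻¹ v) = v := g.apply_symm_apply v

instance : Group AG := Group.ofLeftAxioms
  (fun x y z => by ext1 <;> simp [add_assoc, mul_assoc])
  (fun x => by ext1 <;> simp) (fun x => by ext1 <;> simp)

instance : Finite AG :=
  Finite.of_injective (fun x : AG => (x.v, x.g)) fun _ _ h =>
    AG.ext (congrArg Prod.fst h) (congrArg Prod.snd h)

def jv (v : V) : AG := ⟨v, 1⟩
def gl (g : GL6) : AG := ⟨0, g⟩
def el (v : V) (a b c : K) : AG := ⟨v, u a b c⟩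

@[simp] theorem jv_v (v : V) : (jv v).v = v := rfl
@[simp] theorem jv_g (v : V) : (jv v).g = 1 := rfl
@[simp] theorem gl_v (g : GL6) : (gl g).v = 0 := rfl
@[simp] theorem gl_g (g : GL6) : (gl g).g = g := rfl
@[simp] theorem el_v (v : V) (a b c : K) : (el v a b c).v = v := rfl
@[simp] theorem el_g (v : V) (a b c : K) : (el v a b c).g = u a b c := rfl

def proj : AG →* GL6 := MonoidHom.mk' AG.g fun _ _ => rfl

@[simp] theorem proj_apply (x : AG) : proj x = x.g := rfl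

/-- `V ⋊ X`. -/
def aff (X : Subgroup GL6) : Subgroup AG := X.comap proj

theorem mem_aff {X : Subgroup GL6} {x : AG} : x ∈ aff X ↔ x.g ∈ X := Iff.rfl

def S0 : Subgroup AG := aff U
def J : Subgroup AG := aff ⊥

theorem mem_S0 {x : AG} : x ∈ S0 ↔ x.g ∈ U := Iff.rfl
theorem mem_J {x : AG} : x ∈ J ↔ x.g = 1 := mem_bot

/-- The elements of `V ⋊ B` (`B ≤ U`) with last coordinate zero. -/
def hy (B : Subgroup GL6) : Subgroup AG where
  carrier := {x | x.g ∈ B ⊓ U ∧ x.v 5 = 0}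
  one_mem' := ⟨one_mem _, rfl⟩
  mul_mem' := by
    rintro x y ⟨h1, h2⟩ ⟨h3, h4⟩
    refine ⟨mul_mem h1 h3, ?_⟩
    obtain ⟨a, b, c, h⟩ := h1.2
    simp [h, h2, h4, u_apply, uf]
  inv_mem' := by
    rintro x ⟨h1, h2⟩
    refine ⟨inv_mem h1, ?_⟩
    obtain ⟨a, b, c, h⟩ := h1.2
    simp [h, h2, u_inv, u_apply, uf]

theorem mem_hy {B : Subgroup GL6} {x : AG} : x ∈ hy B ↔ (x.g ∈ B ∧ x.g ∈ U) ∧ x.v 5 = 0 := Iff.rfl

/-- The essential subgroup not containing `J` (order `3⁸`). -/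
abbrev Ec : Subgroup AG := hy U
/-- Order `3⁷`. -/
abbrev R : Subgroup AG := hy Bb
/-- Order `3⁵`. -/
abbrev J5 : Subgroup AG := hy ⊥

/-! ### Fusion systems on `S0` -/

abbrev FS := FusionSystem S0

/-- On overgroups of `J` the system is that of `V ⋊ X`. -/
def Real (F : FS) (X : Subgroup GL6) : Prop :=
  ∀ P f, J ≤ P → (F.Mor P f ↔ P ≤ S0 ∧ (∀ x ∈ P, f x ∈ S0) ∧ ∃ g ∈ aff X, ∀ x ∈ P, f x = g * x * g⁻¹)

/-- The values of the Weyl element of the long simple root on `Ec`. -/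
structure IsWc (f : AG → AG) : Prop where
  fix : ∀ v a, InW v → f (el v a 0 0) = el v a 0 0
  xb : f (el 0 0 1 0) = jv (e 4)
  e4 : f (jv (e 4)) = el 0 0 (-1) 0

def Wc (F : FS) : Prop := ∃ f, F.Mor Ec f ∧ IsWc f

/-- The automizer of `J` as a set of linear maps. -/
def XF (F : FS) : Set GL6 := {M | F.Mor J fun x => jv (M x.v)}

/-- Realizability by a subgroup of a finite group. -/
def Rz (F : FS) : Prop := ∃ (G : Type) (_ : Group G) (_ : Finite G) (j : AG → G),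
  F.Realizes j ⊤ ∧ ¬ 3 ∣ (img j S0).index

/-- `j` embeds `S0` as a Sylow subgroup of `G`, with enough fusion to force `O₃ = 1`. -/
structure Emb {G : Type} [Group G] (j : AG → G) : Prop where
  mulOn : MulOn S0 j
  inj : ∀ x ∈ S0, ∀ y ∈ S0, j x = j y → x = y
  idx : ¬ 3 ∣ (img j S0).index
  zy : ∃ g v, v 5 ≠ 0 ∧ g * j (jv (e 0)) * g⁻¹ = j (jv v)
  out : ∃ g v x, x ∈ S0 ∧ x ∉ J ∧ g * j (jv v) * g⁻¹ = j x

/-- `M` is induced on `J` by an element of `G`. -/
def Ind {G : Type} [Group G] (j : AG → G) (M : GL6) : Prop :=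
  ∃ g, ∀ v, g * j (jv v) * g⁻¹ = j (jv (M v))

/-- `A` is the image of `E ⊓ J` under an automorphism of the essential subgroup `E` outside the
strongly embedded subgroup. -/
structure Pair (E A : Subgroup AG) : Prop where
  leS : E ≤ S0
  le : A ≤ E
  norm : E ≤ normalizer (A : Set AG)
  ea : IsElementaryAbelian 3 A
  card : Nat.card A = Nat.card (E ⊓ J : Subgroup AG)
  nle : ¬ A ≤ J
  nj : ∀ n ∈ J, n ∈ normalizer (A : Set AG) ↔ n ∈ E
  cent : (∀ x ∈ E, (∀ y ∈ E ⊓ J, x * y = y * x) → x ∈ J) →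
    ∀ x ∈ E, (∀ a ∈ A, x * a = a * x) → x ∈ A

/-- `E ⊓ J` is described by `p`, `A ⊓ J` by `q` and `A J / J = B`. -/
structure Ty (E A : Subgroup AG) (p q : V → Prop) (B : Subgroup GL6) : Prop where
  hE : ∀ v, jv v ∈ E ↔ p v
  hA : ∀ v, jv v ∈ A ↔ q v
  hB : A.map proj = B

/-- `⟨e₁²⟩`. -/
def InZ (v : V) : Prop := v 1 = 0 ∧ v 2 = 0 ∧ v 3 = 0 ∧ v 4 = 0 ∧ v 5 = 0
/-- `⟨e₁², e₁e₂, e₁e₃ + t e₂²⟩`; `t = 0` gives `I`. -/
def In3 (t : K) (v : V) : Prop := v 2 = t * v 3 ∧ v 4 = 0 ∧ v 5 = 0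

instance : DecidablePred InZ := fun v => by unfold InZ; infer_instance
instance (t : K) : DecidablePred (In3 t) := fun v => by unfold In3; infer_instance

end Cfsg.Agent.C3
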