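import Mathlib
import Cfsg.Agent.C3.Defs

set_option autoImplicit false
set_option linter.unusedVariables false

namespace Cfsg.Agent.C3

open Cfsg Cfsg.FusionSystem Cfsg.Agent.Fus Subgroup

theorem forall_V {p : V → Prop} : (∀ v, p v) ↔ ∀ a b c d f g : K, p ![a, b, c, d, f, g] :=
  ⟨fun h _ _ _ _ _ _ => h _, fun h v => by
    have := h (v 0) (v 1) (v 2) (v 3) (v 4) (v 5)
    rwa [show ![v 0, v 1, v 2, v 3, v 4, v 5] = v by funext i; fin_cases i <;> rfl] at this⟩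

theorem gl_ext {g h : GL6} (H : ∀ i, g (e i) = h (e i)) : g = h := by
  apply LinearEquiv.toLinearMap_injective
  exact (Pi.basisFun (ZMod 3) (Fin 6)).ext fun i => by simpa [e] using H i

theorem u_inj {a b c a' b' c' : K} : u a b c = u a' b' c' ↔ a = a' ∧ b = b' ∧ c = c' := by
  refine ⟨fun h => ?_, fun ⟨h1, h2, h3⟩ => by rw [h1, h2, h3]⟩
  have h1 := congrArg (fun g : GL6 => g (e 1) 0) h
  have h2 := congrArg (fun g : GL6 => g (e 3) 1) h
  have h3 := congrArg (fun g : GL6 => g (e 3) 0) h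
  simp [u_apply, uf, e] at h1 h2 h3
  exact ⟨h1, h2, h3⟩

theorem u_eq_one {a b c : K} : u a b c = 1 ↔ a = 0 ∧ b = 0 ∧ c = 0 := by rw [← u_zero, u_inj]

theorem u_mem_Bl {p q a b c : K} : u a b c ∈ Bl p q ↔ p * a + q * b = 0 :=
  ⟨fun ⟨_, _, _, h, e⟩ => by obtain ⟨rfl, rfl, rfl⟩ := u_inj.1 e; exact h, fun h => ⟨a, b, c, h, rfl⟩⟩

theorem Bl_le (p q : K) : Bl p q ≤ U := fun _ ⟨a, b, c, _, h⟩ => ⟨a, b, c, h⟩

theorem u_cube (a b c : K) : u a b c ^ 3 = 1 := by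
  rw [pow_three, u_mul, u_mul, u_eq_one]
  refine ⟨?_, ?_, ?_⟩ <;> revert a b c <;> decide

theorem tor_mul (p r s p' r' s' : Kˣ) : tor p r s * tor p' r' s' = tor (p * p') (r * r') (s * s') :=
  LinearEquiv.ext fun v => by
    simpa [gl_mul_apply, tor_apply] using tf_tf p r s p' r' s' v

theorem tor_one : tor 1 1 1 = 1 := LinearEquiv.ext tf_one

theorem tor_inv (p r s : Kˣ) : (tor p r s)⁻¹ = tor p r s := LinearEquiv.ext fun _ => rfl

theorem tor_u (p r s : Kˣ) (a b c : K) :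
    tor p r s * u a b c * (tor p r s)⁻¹ = u (p * a) (r * b) (p * r * c) := by
  rw [tor_inv]
  refine gl_ext fun i => ?_
  revert p r s a b c i
  decide +kernel

theorem sg_apply (v : V) : sg v = -v := by funext i; fin_cases i <;> simp [sg, tor_apply, tf]

theorem ph_mul (l m : K) : ph l * ph m = ph (l + m) :=
  LinearEquiv.ext fun v => by
    funext i; fin_cases i <;> simp [ph_apply, pf]; ring

theorem ph_inv (l : K) : (ph l)⁻¹ = ph (-l) := LinearEquiv.ext fun _ => rfl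

theorem ph_u (l a b c : K) : ph l * u a b c * (ph l)⁻¹ = u a b c := by
  rw [ph_inv]
  refine gl_ext fun i => ?_
  revert l a b c i
  decide +kernel

theorem ph_tor (l : K) (p r s : Kˣ) : ph l * tor p r s * (ph l)⁻¹ = tor p r s := by
  rw [ph_inv]
  refine gl_ext fun i => ?_
  revert l p r s i
  decide +kernel

theorem ph_wa (l m : K) : ph l * wa m * (ph l)⁻¹ = wa (l + m) := by
  rw [ph_inv]
  refine gl_ext fun i => ?_
  revert l m i
  decide +kernel

theorem ph_wb (l m : K) : ph l * wb m * (ph l)⁻¹ = wb (l + m) := by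
  rw [ph_inv]
  refine gl_ext fun i => ?_
  revert l m i
  decide +kernel

theorem wa_sq (l : K) : wa l * wa l = d3 := by
  refine gl_ext fun i => ?_
  revert l i
  decide +kernel

theorem wb_sq (m : K) : wb m * wb m = d1 := by
  refine gl_ext fun i => ?_
  revert m i
  decide +kernel

theorem wa_u (l b c : K) : wa l * u 0 b c * (wa l)⁻¹ = u 0 (-c) b := by
  rw [mul_inv_eq_iff_eq_mul]
  refine gl_ext fun i => ?_
  revert l b c i
  decide +kernel

theorem wb_u (m a c : K) : wb m * u a 0 c * (wb m)⁻¹ = u c 0 (-a) := by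
  rw [mul_inv_eq_iff_eq_mul]
  refine gl_ext fun i => ?_
  revert m a c i
  decide +kernel

theorem ph_mem_norm (l : K) : ph l ∈ normalizer (U : Set GL6) :=
  mem_normalizer_fintype (by rintro _ ⟨a, b, c, rfl⟩; exact ⟨_, _, _, ph_u ..⟩)

theorem tor_mem_norm (p r s : Kˣ) : tor p r s ∈ normalizer (U : Set GL6) :=
  mem_normalizer_fintype (by rintro _ ⟨a, b, c, rfl⟩; exact ⟨_, _, _, tor_u ..⟩)

theorem U_le_of {X : Subgroup GL6} (ha : u 1 0 0 ∈ X) (hb : u 0 1 0 ∈ X) : U ≤ X := by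
  have hc : u 0 0 1 ∈ X := by
    have := mul_mem (mul_mem (inv_mem ha) (inv_mem hb)) (mul_mem ha hb)
    rwa [u_inv, u_inv, u_mul, u_mul, u_mul, show u _ _ _ = u 0 0 1 from u_inj.2 (by decide)] at this
  have h3 : ∀ a : K, a = 0 ∨ a = 1 ∨ a = 1 + 1 := by decide
  have h1 : ∀ a, u a 0 0 ∈ X := fun a => by
    rcases h3 a with rfl | rfl | rfl
    exacts [u_zero ▸ one_mem _, ha, by simpa [u_mul] using mul_mem ha ha]
  have h2 : ∀ a, u 0 a 0 ∈ X := fun a => by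
    rcases h3 a with rfl | rfl | rfl
    exacts [u_zero ▸ one_mem _, hb, by simpa [u_mul] using mul_mem hb hb]
  have h4 : ∀ a, u 0 0 a ∈ X := fun a => by
    rcases h3 a with rfl | rfl | rfl
    exacts [u_zero ▸ one_mem _, hc, by simpa [u_mul] using mul_mem hc hc]
  rintro _ ⟨a, b, c, rfl⟩
  simpa [u_mul] using mul_mem (mul_mem (h2 b) (h1 a)) (h4 c)

theorem U_le_X1 (l : K) : U ≤ X1 l := by
  have ha : u 1 0 0 ∈ X1 l := subset_closure (by simp)
  have hb : u 0 1 0 ∈ X1 l := subset_closure (by simp)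
  exact U_le_of ha hb

theorem card_U : Nat.card U = 27 := by
  have : Function.Bijective fun x : K × K × K => (⟨u x.1 x.2.1 x.2.2, u_mem ..⟩ : U) :=
    ⟨fun x y h => by
      obtain ⟨h1, h2, h3⟩ := u_inj.1 (congrArg Subtype.val h)
      exact Prod.ext h1 (Prod.ext h2 h3),
    fun ⟨_, a, b, c, h⟩ => ⟨(a, b, c), Subtype.ext h.symm⟩⟩
  rw [← Nat.card_eq_of_bijective _ this]; simp

theorem card_Bl {p q : K} (h : p ≠ 0 ∨ q ≠ 0) : Nat.card (Bl p q) = 9 := by
  have : Function.Bijective fun x : {x : K × K × K // p * x.1 + q * x.2.1 = 0} =>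
      (⟨u x.1.1 x.1.2.1 x.1.2.2, u_mem_Bl.2 x.2⟩ : Bl p q) :=
    ⟨fun x y h => by
      obtain ⟨h1, h2, h3⟩ := u_inj.1 (congrArg Subtype.val h)
      exact Subtype.ext (Prod.ext h1 (Prod.ext h2 h3)),
    fun ⟨_, a, b, c, h, h'⟩ => ⟨⟨(a, b, c), h⟩, Subtype.ext h'.symm⟩⟩
  rw [← Nat.card_eq_of_bijective _ this, Nat.card_eq_fintype_card]
  clear this
  revert p q; decide +kernel

theorem isPGroup_U : IsPGroup 3 U := IsPGroup.of_card (n := 3) card_U

theorem card_aff (X : Subgroup GL6) : Nat.card (aff X) = 729 * Nat.card X := by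
  have : Function.Bijective fun x : V × X => (⟨⟨x.1, x.2⟩, x.2.2⟩ : aff X) :=
    ⟨fun x y h => Prod.ext (congrArg (fun z : aff X => z.1.v) h)
      (Subtype.ext (congrArg (fun z : aff X => z.1.g) h)), fun x => ⟨(x.1.v, ⟨x.1.g, x.2⟩), rfl⟩⟩
  rw [← Nat.card_eq_of_bijective _ this, Nat.card_prod]; simp

theorem card_S0 : Nat.card S0 = 3 ^ 9 := by rw [S0, card_aff, card_U]; rfl

theorem card_J : Nat.card J = 3 ^ 6 := by rw [J, card_aff]; simp

theorem isPGroup_S0 : IsPGroup 3 S0 := IsPGroup.of_card card_S0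

/-- A 3-subgroup of `Y ≤ X` is conjugate into `U` inside `Y`. -/
theorem Syl.conj_le {X Y P : Subgroup GL6} (h : Syl X) (hY : Y ≤ X) (hU : U ≤ Y) (hP : P ≤ Y)
    (hp : IsPGroup 3 P) : ∃ y ∈ Y, ∀ x ∈ P, y * x * y⁻¹ ∈ U := by
  have hi : ¬ 3 ∣ (U.subgroupOf Y).index := fun h' =>
    h.idx (h'.trans (Dvd.intro _ (relIndex_mul_relIndex U Y X hU hY)))
  let T : Sylow 3 Y := (isPGroup_U.comap_of_injective Y.subtype Y.subtype_injective).toSylow hi
  obtain ⟨Q, hQ⟩ := (hp.comap_of_injective Y.subtype Y.subtype_injective).exists_le_sylow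
  obtain ⟨y, hy⟩ := MulAction.exists_smul_eq Y Q T
  refine ⟨y, y.2, fun x hx => ?_⟩
  have : (y * ⟨x, hP hx⟩ * y⁻¹ : Y) ∈ (T : Subgroup Y) := by
    rw [← hy, Sylow.coe_subgroup_smul]
    exact smul_mem_pointwise_smul _ (MulAut.conj y) _ (hQ (show (⟨x, hP hx⟩ : Y) ∈ P.comap Y.subtype from hx))
  exact this

/-- A 3-subgroup of `X` normalized by `U` lies in `U`. -/
theorem Syl.le_of_norm {X P : Subgroup GL6} (h : Syl X) (hP : P ≤ X) (hp : IsPGroup 3 P)
    (hn : U ≤ normalizer (P : Set GL6)) : P ≤ U := by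
  have hY : U ⊔ P ≤ X := sup_le h.le hP
  have hq : IsPGroup 3 (U ⊔ P : Subgroup GL6) := IsPGroup.to_sup_of_normal_right' isPGroup_U hp hn
  obtain ⟨y, hy, h1⟩ := h.conj_le hY le_sup_left le_rfl hq
  have h2 : Nat.card (U ⊔ P : Subgroup GL6) ≤ Nat.card U :=
    Nat.card_le_card_of_injective (fun x => (⟨y * x * y⁻¹, h1 x x.2⟩ : U)) fun x z e =>
      Subtype.ext (by simpa using congrArg Subtype.val e)
  exact le_sup_right.trans (eq_of_le_of_card_ge le_sup_left h2).ge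

theorem Syl.cjX {X : Subgroup GL6} (h : Syl X) {g : GL6} (hg : g ∈ normalizer (U : Set GL6)) :
    Syl (cjX g X) := by
  have e : C3.cjX g U = U := by
    ext x
    rw [mem_map_equiv]
    simpa using ((mem_normalizer_iff.1 (inv_mem hg) x).symm)
  refine ⟨e ▸ map_mono h.le, ?_⟩
  rw [← e, relIndex_map_map_of_injective _ _ (MulAut.conj g).injective]
  exact h.idx

theorem mem_cjX {g x : GL6} {X : Subgroup GL6} : x ∈ cjX g X ↔ g⁻¹ * x * g ∈ X := by
  rw [mem_map_equiv]; simp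

/-- The stabilizer of a flag of subspaces is a 3-group. -/
theorem isPGroup_of_flag {P : Subgroup GL6} (C : ℕ → V → Prop) (n : ℕ) (h0 : ∀ v, C 0 v)
    (hn : ∀ v, C n v → v = 0) (h : ∀ g ∈ P, ∀ i < n, ∀ v, C i v → C (i + 1) (g v - v)) :
    IsPGroup 3 P := by
  rintro ⟨g, hg⟩
  refine ⟨n, Subtype.ext (LinearEquiv.toLinearMap_injective ?_)⟩
  let f : Module.End K V := g.toLinearMap
  have h1 : ∀ i ≤ n, ∀ v, C i (((f - 1) ^ i) v) := by
    intro i hi v
    induction i with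
    | zero => exact h0 _
    | succ i ih =>
      rw [pow_succ', Module.End.mul_apply]
      exact h g hg i hi _ (ih (by omega))
  have h2 : (f - 1) ^ n = 0 := LinearMap.ext fun v => hn _ (h1 n le_rfl v)
  have h3 : (f - 1) ^ 3 ^ n = 0 := pow_eq_zero_of_le (Nat.lt_pow_self (by norm_num)).le h2
  have : CharP (Module.End K V) 3 := charP_of_injective_algebraMap' K 3
  rw [sub_pow_char_pow_of_commute 3 n (Commute.one_right f), one_pow, sub_eq_zero] at h3
  refine LinearMap.ext fun v => ?_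
  have := LinearMap.congr_fun h3 v
  simpa [f, Module.End.pow_apply, LinearEquiv.pow_apply] using this

theorem e0_mem_orb (X : Subgroup GL6) : e 0 ∈ orb X := ⟨1, one_mem _, Or.inl rfl⟩

theorem orb_neg {X : Subgroup GL6} {v : V} (hv : v ∈ orb X) : -v ∈ orb X := by
  obtain ⟨g, hg, h | h⟩ := hv
  · exact ⟨g, hg, Or.inr (by rw [h])⟩
  · exact ⟨g, hg, Or.inl (by rw [h, neg_neg])⟩

theorem orb_apply {X : Subgroup GL6} {v : V} (hv : v ∈ orb X) {g : GL6} (hg : g ∈ X) :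
    g v ∈ orb X := by
  obtain ⟨k, hk, h | h⟩ := hv
  · exact ⟨g * k, mul_mem hg hk, Or.inl (by rw [h]; rfl)⟩
  · exact ⟨g * k, mul_mem hg hk, Or.inr (by rw [h, map_neg]; rfl)⟩

theorem orb_ne_zero {X : Subgroup GL6} {v : V} (hv : v ∈ orb X) : v ≠ 0 := by
  have h0 : e 0 ≠ 0 := by decide
  obtain ⟨g, -, h | h⟩ := hv <;> simpa [h] using h0

theorem orb_exists {X : Subgroup GL6} {v : V} (hv : v ∈ orb X) :
    ∃ t : GL6, v = t (e 0) ∧ ∀ q, t q ∈ orb X ↔ q ∈ orb X := by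
  obtain ⟨g, hg, h⟩ := hv
  have h1 : ∀ q, g q ∈ orb X ↔ q ∈ orb X := fun q =>
    ⟨fun h => gl_inv_apply g q ▸ orb_apply h (inv_mem hg), fun h => orb_apply h hg⟩
  rcases h with h | h
  · exact ⟨g, h, h1⟩
  · refine ⟨sg * g, by rw [h, gl_mul_apply, sg_apply], fun q => ?_⟩
    rw [gl_mul_apply, sg_apply, ← h1 q]
    exact ⟨fun h => neg_neg (g q) ▸ orb_neg h, orb_neg⟩

/-- Counting invariants are constant on the orbit. -/
theorem orb_n3 {X : Subgroup GL6} {v : V} (hv : v ∈ orb X) :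
    {q | q ∈ orb X ∧ v + q ∈ orb X}.ncard = {q | q ∈ orb X ∧ e 0 + q ∈ orb X}.ncard := by
  obtain ⟨t, rfl, ht⟩ := orb_exists hv
  symm
  refine Set.ncard_congr (fun q _ => t q) (fun q h => ⟨(ht _).2 h.1, ?_⟩) (fun _ _ _ _ h => t.injective h)
    fun q h => ⟨t⁻¹ q, ⟨(ht _).1 (by rw [gl_apply_inv]; exact h.1), (ht _).1 ?_⟩, gl_apply_inv ..⟩
  · rw [← map_add]; exact (ht _).2 h.2
  · rw [map_add, gl_apply_inv]; exact h.2

theorem orb_n4 {X : Subgroup GL6} {v : V} (hv : v ∈ orb X) :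
    {q : V × V | q.1 ∈ orb X ∧ q.2 ∈ orb X ∧ v + q.1 + q.2 ∈ orb X}.ncard =
      {q : V × V | q.1 ∈ orb X ∧ q.2 ∈ orb X ∧ e 0 + q.1 + q.2 ∈ orb X}.ncard := by
  obtain ⟨t, rfl, ht⟩ := orb_exists hv
  symm
  refine Set.ncard_congr (fun q _ => (t q.1, t q.2)) (fun q h => ⟨(ht _).2 h.1, (ht _).2 h.2.1, ?_⟩)
    (fun _ _ _ _ h => Prod.ext (t.injective (congrArg Prod.fst h)) (t.injective (congrArg Prod.snd h)))
    fun q h => ⟨(t⁻¹ q.1, t⁻¹ q.2), ⟨(ht _).1 (by rw [gl_apply_inv]; exact h.1),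
      (ht _).1 (by rw [gl_apply_inv]; exact h.2.1), (ht _).1 ?_⟩,
      Prod.ext (gl_apply_inv ..) (gl_apply_inv ..)⟩
  · rw [← map_add, ← map_add]; exact (ht _).2 h.2.2
  · rw [map_add, map_add, gl_apply_inv, gl_apply_inv]; exact h.2.2

instance normal_J : J.Normal := inferInstanceAs (Subgroup.comap proj ⊥).Normal

theorem jv_mem (v : V) : jv v ∈ J := mem_J.2 rfl

theorem J_le (X : Subgroup GL6) : J ≤ aff X := comap_mono bot_le

theorem J_le_S0 : J ≤ S0 := J_le U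

theorem exists_jv {x : AG} (hx : x ∈ J) : ∃ v, x = jv v := ⟨x.v, AG.ext rfl (mem_J.1 hx)⟩

theorem exists_el {x : AG} (hx : x ∈ S0) : ∃ v a b c, x = el v a b c := let ⟨a, b, c, h⟩ := hx; ⟨x.v, a, b, c, AG.ext rfl h⟩

theorem el_mem (v : V) (a b c : K) : el v a b c ∈ S0 := u_mem a b c

theorem el_zero (v : V) : el v 0 0 0 = jv v := AG.ext rfl u_zero

theorem el_inj {v v' : V} {a b c a' b' c' : K} :
    el v a b c = el v' a' b' c' ↔ v = v' ∧ a = a' ∧ b = b' ∧ c = c' := by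
  rw [AG.ext_iff, el_v, el_v, el_g, el_g, u_inj]

theorem el_mul (v v' : V) (a b c a' b' c' : K) : el v a b c * el v' a' b' c' =
    el (v + uf a b c v') (a + a') (b + b') (c + c' + a * b') := AG.ext rfl (u_mul ..)

theorem el_inv (v : V) (a b c : K) :
    (el v a b c)⁻¹ = el (-uf (-a) (-b) (a * b - c) v) (-a) (-b) (a * b - c) := AG.ext rfl (u_inv ..)

theorem jv_mul (v w : V) : jv v * jv w = jv (v + w) := AG.ext rfl (mul_one _)

theorem jv_inv (v : V) : (jv v)⁻¹ = jv (-v) := AG.ext rfl inv_one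

theorem jv_zero : jv 0 = 1 := rfl

theorem jv_inj {v w : V} : jv v = jv w ↔ v = w := ⟨congrArg AG.v, congrArg jv⟩

theorem conj_jv (x : AG) (v : V) : x * jv v * x⁻¹ = jv (x.g v) := by
  ext1 <;> simp

theorem jv_conj (x : AG) (v : V) : jv v * x * (jv v)⁻¹ = jv (v - x.g v) * x := by
  ext1 <;> simp [gl_one_apply]
  abel

theorem ea_J : IsElementaryAbelian 3 J := by
  refine ⟨⟨⟨fun x y => Subtype.ext ?_⟩⟩, fun x hx => ?_⟩
  · obtain ⟨v, hv⟩ := exists_jv x.2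
    obtain ⟨w, hw⟩ := exists_jv y.2
    rw [coe_mul, coe_mul, hv, hw, jv_mul, jv_mul, add_comm]
  · obtain ⟨v, rfl⟩ := exists_jv hx
    rw [pow_three, jv_mul, jv_mul, ← jv_zero, jv_inj]
    funext i
    have : ∀ a : K, a + (a + a) = 0 := by decide
    exact this _

theorem mem_J_of_comm {x : AG} (h : ∀ v, x * jv v = jv v * x) : x ∈ J :=
  mem_J.2 (LinearEquiv.ext fun v => by
    have := conj_jv x v
    rw [h, mul_inv_cancel_right, jv_inj] at this
    exact this.symm)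

/-- The position of the last nonzero coordinate. -/
def ht (v : V) : ℕ :=
  if v 5 ≠ 0 then 5 else if v 4 ≠ 0 then 4 else if v 3 ≠ 0 ∨ v 2 ≠ 0 then 3 else if v 1 ≠ 0 then 1 else 0

/-- A nontrivial normal subgroup of `S0` contains the centre. -/
theorem e0_mem_of_normal {N : Subgroup AG} (hN : N ≤ S0) (hn : S0 ≤ normalizer (N : Set AG))
    (hne : N ≠ ⊥) : jv (e 0) ∈ N := by
  have hc : ∀ x ∈ N, ∀ s ∈ S0, s * x * s⁻¹ * x⁻¹ ∈ N := fun x hx s hs =>
    mul_mem ((mem_normalizer_iff.1 (hn hs) x).1 hx) (inv_mem hx)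
  have hj : ∀ v, jv v ∈ N → ∀ a b c, jv (uf a b c v - v) ∈ N := fun v hv a b c => by
    have := hc _ hv _ (el_mem 0 a b c)
    rwa [conj_jv, jv_inv, jv_mul, ← sub_eq_add_neg] at this
  have h0 : ∀ v, jv v ∈ N → v ≠ 0 → jv (e 0) ∈ N := by
    have key : ∀ v : V, v ≠ 0 → v = e 0 ∨ -v = e 0 ∨ (uf 1 0 0 v - v ≠ 0 ∧ ht (uf 1 0 0 v - v) < ht v) ∨
        (uf 0 1 0 v - v ≠ 0 ∧ ht (uf 0 1 0 v - v) < ht v) := by
      rw [forall_V]; decide +kernel
    intro v
    induction hk : ht v using Nat.strong_induction_on generalizing v with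
    | _ k ih =>
      intro hv h0
      rcases key v h0 with h | h | h | h
      · exact h ▸ hv
      · rw [← h, ← jv_inv]; exact inv_mem hv
      · exact ih _ (hk ▸ h.2) _ rfl (hj v hv ..) h.1
      · exact ih _ (hk ▸ h.2) _ rfl (hj v hv ..) h.1
  obtain ⟨⟨x, hx⟩, h1⟩ := ne_bot_iff_exists_ne_one.1 hne
  by_cases hJ : x ∈ J
  · obtain ⟨v, rfl⟩ := exists_jv hJ
    exact h0 v hx fun e => h1 (Subtype.ext (congrArg jv e))
  · obtain ⟨v, hv⟩ := not_forall.1 fun h => hJ (mem_J_of_comm h)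
    have := hc x hx _ (J_le_S0 (jv_mem v))
    rw [jv_conj, mul_inv_cancel_right] at this
    refine h0 _ this fun e => hv ?_
    rw [← mul_inv_eq_iff_eq_mul, conj_jv, ← sub_eq_zero.1 e]

/-- `|A| = |A ⊓ J| |A J / J|`. -/
theorem card_eq_mul (A : Subgroup AG) :
    Nat.card A = Nat.card (A ⊓ J : Subgroup AG) * Nat.card (A.map proj) := by
  have h1 := card_mul_index (proj.comp A.subtype).ker
  rw [index_ker, MonoidHom.range_comp, range_subtype] at h1
  rw [← h1]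
  congr 1
  refine Nat.card_congr ⟨fun x => ⟨x.1.1, x.1.2, mem_J.2 x.2⟩, fun x => ⟨⟨x.1, x.2.1⟩, mem_J.1 x.2.2⟩,
    fun _ => rfl, fun _ => rfl⟩

theorem card_fix {a b c : K} (h : u a b c ≠ 1) : Nat.card {v : V // u a b c v = v} ≤ 27 := by
  rw [Ne, u_eq_one] at h
  have key : ∀ a b c : K, ¬ (a = 0 ∧ b = 0 ∧ c = 0) → ∀ x y z : K,
      (a = 0 → uf a b c ![0, 0, 0, x, y, z] = ![0, 0, 0, x, y, z] → x = 0 ∧ y = 0 ∧ z = 0) ∧
      (a ≠ 0 → uf a b c ![0, x, y, 0, z, 0] = ![0, x, y, 0, z, 0] → x = 0 ∧ y = 0 ∧ z = 0) := by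
    decide +kernel
  have gen : ∀ i j k : Fin 6, (∀ v : V, u a b c v = v → v i = 0 → v j = 0 → v k = 0 → v = 0) →
      Nat.card {v : V // u a b c v = v} ≤ 27 := fun i j k H => by
    refine (Nat.card_le_card_of_injective (fun v => ((v.1 i, v.1 j, v.1 k) : K × K × K))
      fun v w e => Subtype.ext (sub_eq_zero.1 (H _ (by rw [map_sub, v.2, w.2]) ?_ ?_ ?_))).trans (by simp)
    · exact sub_eq_zero.2 (congrArg Prod.fst e)
    · exact sub_eq_zero.2 (congrArg (fun x => x.2.1) e)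
    · exact sub_eq_zero.2 (congrArg (fun x => x.2.2) e)
  by_cases ha : a = 0
  · refine gen 0 1 2 (forall_V.2 fun _ _ _ x y z hv h1 h2 h3 => ?_)
    obtain rfl : _ = (0 : K) := h1
    obtain rfl : _ = (0 : K) := h2
    obtain rfl : _ = (0 : K) := h3
    obtain ⟨rfl, rfl, rfl⟩ := (key a b c h x y z).1 ha hv
    decide
  · refine gen 0 3 5 (forall_V.2 fun _ x y _ z _ hv h1 h2 h3 => ?_)
    obtain rfl : _ = (0 : K) := h1
    obtain rfl : _ = (0 : K) := h2
    obtain rfl : _ = (0 : K) := h3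
    obtain ⟨rfl, rfl, rfl⟩ := (key a b c h x y z).2 ha hv
    decide

/-- `J` is the only elementary abelian subgroup of order `3⁶`. -/
theorem eq_J {A : Subgroup AG} (hA : A ≤ S0) (ha : IsElementaryAbelian 3 A)
    (hc : Nat.card A = 3 ^ 6) : A = J := by
  by_contra hne
  have hAJ : ¬ A ≤ J := fun h => hne (eq_of_le_of_card_ge h (by rw [hc, card_J]))
  obtain ⟨x, hx, hxJ⟩ := SetLike.not_le_iff_exists.1 hAJ
  obtain ⟨v, a, b, c, rfl⟩ := exists_el (hA hx)
  have h1 : Nat.card (A ⊓ J : Subgroup AG) ≤ 27 := by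
    refine le_trans (Nat.card_le_card_of_injective (fun y => (⟨y.1.v, ?_⟩ : {w : V // u a b c w = w}))
      fun y z e => Subtype.ext (AG.ext (congrArg Subtype.val e)
        ((mem_J.1 y.2.2).trans (mem_J.1 z.2.2).symm))) (card_fix fun h => hxJ (mem_J.2 h))
    obtain ⟨w, hw⟩ := exists_jv y.2.2
    have h2 := congrArg Subtype.val (ha.1.is_comm.comm ⟨_, hx⟩ ⟨_, y.2.1⟩)
    simp only [coe_mul] at h2
    rw [← mul_inv_eq_iff_eq_mul, hw, conj_jv, jv_inj] at h2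
    rw [hw]; exact h2
  have h2 : A.map proj ≤ U := map_le_iff_le_comap.2 hA
  have h3 : A.map proj ≠ U := fun h => by
    obtain ⟨p, hp, e1⟩ := h.ge (u_mem 1 0 0)
    obtain ⟨q, hq, e2⟩ := h.ge (u_mem 0 1 0)
    have h4 := congrArg (fun z : A => proj z) (ha.1.is_comm.comm ⟨_, hp⟩ ⟨_, hq⟩)
    simp only [coe_mul, map_mul, e1, e2, u_mul, u_inj] at h4
    exact absurd h4 (by decide)
  have h4 : Nat.card (A.map proj) < 27 := card_U ▸ lt_of_le_of_ne (card_le_of_le h2) fun e =>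
    h3 (eq_of_le_of_card_ge h2 e.ge)
  have h5 := card_eq_mul A
  rw [hc] at h5
  have := Nat.mul_lt_mul_of_le_of_lt h1 h4 (by norm_num)
  omega

theorem mor_J {F : FS} {P : Subgroup AG} {f : AG → AG} (hf : F.Mor P f) (hP : J ≤ P) {x : AG}
    (hx : x ∈ J) : f x ∈ J := by
  have h1 := hf.mono hP
  have h2 : img f J = J := by
    refine eq_J (img_le_iff.2 fun y hy => h1.mem hy) ?_ (by rw [hf.card_img hP, card_J])
    rw [img_eq_range h1.mulOn.hom fun _ => rfl]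
    refine ⟨⟨⟨?_⟩⟩, ?_⟩
    · rintro ⟨_, a, rfl⟩ ⟨_, b, rfl⟩
      exact Subtype.ext (by simp only [coe_mul, ← map_mul, ea_J.1.is_comm.comm a b])
    · rintro _ ⟨a, rfl⟩
      rw [← map_pow, show a ^ 3 = 1 from Subtype.ext (ea_J.2 _ a.2), map_one]
  exact h2 ▸ mem_img_of_mem hx

theorem Real.xf {F : FS} {X : Subgroup GL6} (h : Real F X) {M : GL6} : M ∈ XF F ↔ M ∈ X := by
  refine (h J (fun x => jv (M x.v)) le_rfl).trans ⟨fun H => ?_, fun hM => ⟨J_le_S0,
    fun _ _ => J_le_S0 (jv_mem _), gl M, hM, fun x hx => ?_⟩⟩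
  · obtain ⟨-, -, g, hg, e⟩ := H
    have : M = g.g := LinearEquiv.ext fun v => by
      have := e _ (jv_mem v)
      rwa [conj_jv, jv_inj] at this
    exact this ▸ hg
  · obtain ⟨v, rfl⟩ := exists_jv hx
    rw [conj_jv]; rfl

end Cfsg.Agent.C3
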