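import Mathlib
import Cfsg.Agent.C3.Basic
import Cfsg.Agent.C3.Off

/-! Two types of candidates for an essential subgroup are impossible. -/

set_option autoImplicit false
set_option linter.unusedVariables false

namespace Cfsg.Agent.C3

open Cfsg Cfsg.FusionSystem Cfsg.Agent.Fus Subgroup
open scoped commutatorElement

namespace CaA

variable {F : FS} {E A : Subgroup AG}

theorem mem_J5 {x : AG} : x ∈ J5 ↔ x ∈ J ∧ x.v 5 = 0 := by
  rw [mem_hy, mem_J, mem_bot]
  exact ⟨fun h => ⟨h.1.1, h.2⟩, fun h => ⟨⟨h.1, h.1 ▸ one_mem _⟩, h.2⟩⟩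

theorem card_J5 : 243 ≤ Nat.card J5 := by
  refine le_trans (by simp) (Nat.card_le_card_of_injective (fun x : K × K × K × K × K =>
    (⟨jv ![x.1, x.2.1, x.2.2.1, x.2.2.2.1, x.2.2.2.2, 0], mem_J5.2 ⟨jv_mem _, rfl⟩⟩ : J5)) ?_)
  rintro ⟨a, b, c, d, f⟩ ⟨a', b', c', d', f'⟩ h
  have h' := jv_inj.1 (congrArg Subtype.val h)
  have h0 : a = a' := congrFun h' 0
  have h1 : b = b' := congrFun h' 1
  have h2 : c = c' := congrFun h' 2
  have h3 : d = d' := congrFun h' 3
  have h4 : f = f' := congrFun h' 4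
  rw [h0, h1, h2, h3, h4]

theorem jv_norm {v : V} (h : ∀ z ∈ E, jv (v - z.g v) ∈ E) : jv v ∈ normalizer (E : Set AG) :=
  mem_normalizer_fintype fun z hz => by
    rw [jv_conj]; exact mul_mem (h z hz) hz

theorem comm_mem {x : AG} {v : V} (hx : x ∈ E) (hv : jv v ∈ E) : jv (x.g v - v) ∈ ⁅E, E⁆ := by
  have := commutator_mem_commutator hx hv
  rwa [commutatorElement_def, conj_jv, jv_inv, jv_mul, ← sub_eq_add_neg] at this

theorem smul_mem {C : Subgroup AG} {v : V} (h : jv v ∈ C) (k : K) : jv (k • v) ∈ C := by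
  have h3 : ∀ a : K, a = 0 ∨ a = 1 ∨ a = -1 := by decide
  rcases h3 k with rfl | rfl | rfl
  · rw [zero_smul, jv_zero]; exact one_mem _
  · rwa [one_smul]
  · rw [neg_smul, one_smul, ← jv_inv]; exact inv_mem h

/-- `⟨e 0, e 1⟩`. -/
def In2 (v : V) : Prop := v 2 = 0 ∧ v 3 = 0 ∧ v 4 = 0 ∧ v 5 = 0

theorem in2_mem {C : Subgroup AG} {v w x : V} (hv : jv v ∈ C) (v0 : v 0 ≠ 0) (v1 : v 1 = 0)
    (v2 : In2 v) (hw : jv w ∈ C) (w1 : w 1 ≠ 0) (w2 : In2 w) (hx : In2 x) : jv x ∈ C := by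
  have := mul_mem (smul_mem hv ((x 0 - x 1 * w 0 / w 1) / v 0)) (smul_mem hw (x 1 / w 1))
  rw [jv_mul] at this
  convert this using 2
  obtain ⟨a2, a3, a4, a5⟩ := v2
  obtain ⟨b2, b3, b4, b5⟩ := w2
  obtain ⟨c2, c3, c4, c5⟩ := hx
  funext i
  fin_cases i <;> simp [*]
  field_simp
  ring

theorem in2_u {v : V} (h : In2 v) (a b c : K) : In2 (u a b c v) := by
  obtain ⟨a2, a3, a4, a5⟩ := h
  simp [In2, u_apply, uf, *]

/-- The case where `E` covers `U`. -/
theorem frat (hE : F.IsEssential 3 E) {n : V} (h2 : ∀ x, In2 x → jv x ∈ ⁅E, E⁆)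
    (hn : ∀ a b c, In2 (n - u a b c n)) : jv n ∈ E := by
  have hle : ⁅E, E⁆ ≤ E := commutator_le.2 fun a ha b hb =>
    mul_mem (mul_mem (mul_mem ha hb) (inv_mem ha)) (inv_mem hb)
  have key : ∀ z ∈ E, In2 (n - z.g n) := fun z hz => by
    obtain ⟨a, b, c, e⟩ := mem_S0.1 (hE.le hz)
    rw [e]; exact hn a b c
  refine (hE.isRadical isPGroup_S0).mem_of_frattini isPGroup_S0 hE.isCentric
    ⟨J_le_S0 (jv_mem _), jv_norm fun z hz => hle (h2 _ (key z hz))⟩ fun z hz => ?_
  refine mem_sup_left ?_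
  have e := conj_jv z⁻¹ (n - z.g n)
  rw [inv_inv] at e
  rw [jv_conj, ← mul_assoc, e]
  obtain ⟨a, b, c, e'⟩ := mem_S0.1 (hE.le (inv_mem hz))
  rw [e']
  exact h2 _ (in2_u (key z hz) a b c)

/-- The case where `J5` is an offender. -/
theorem off (hF : F.IsSaturated 3) (hE : F.IsEssential 3 E) (k : Fin 6)
    (hk : ∀ v, jv v ∈ E → v 0 = 0 → v 1 = 0 → v k = 0 → v = 0) (h4 : jv (e 4) ∉ E)
    {p q : K} (hpq : p ≠ 0 ∨ q ≠ 0) (hB : ∀ z ∈ E, z.g ∈ Bl p q)
    (hn : ∀ v : V, v 5 = 0 → ∀ z ∈ E, jv (v - z.g v) ∈ E) {s : AG} (hs : s ∈ S0)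
    (hs' : s ∈ normalizer (E : Set AG)) : ∃ v : V, v 5 = 0 ∧ ∃ x ∈ E, s = jv v * x := by
  have hJ : J5 ≤ J := fun x hx => (mem_J5.1 hx).1
  have cm : ∀ a ∈ J, ∀ y ∈ J, a * y = y * a := fun a ha y hy => by
    obtain ⟨v, rfl⟩ := exists_jv ha
    obtain ⟨w, rfl⟩ := exists_jv hy
    rw [jv_mul, jv_mul, add_comm]
  have hi1 : (E ⊓ J).relIndex E ≤ 9 := by
    have : J = proj.ker := MonoidHom.comap_bot _
    rw [inf_relIndex_left, this, relIndex_ker, ← card_Bl hpq]
    exact card_le_of_le (by rintro _ ⟨z, hz, rfl⟩; exact hB z hz)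
  have hi2 : 9 ≤ E.relIndex J5 := by
    have h1 : Nat.card (E.subgroupOf J5) * E.relIndex J5 = Nat.card J5 := card_mul_index _
    have h2 : Nat.card (E.subgroupOf J5) ≤ 27 := by
      refine (Nat.card_le_card_of_injective
        (fun x => ((x.1.1.v 0, x.1.1.v 1, x.1.1.v k) : K × K × K)) fun x y h => ?_).trans (by simp)
      obtain ⟨v, hv⟩ := exists_jv (hJ x.1.2)
      obtain ⟨w, hw⟩ := exists_jv (hJ y.1.2)
      have hx : jv v ∈ E := hv ▸ x.2
      have hy : jv w ∈ E := hw ▸ y.2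
      simp only [hv, hw, jv_v, Prod.mk.injEq] at h
      have hm := mul_mem hx (inv_mem hy)
      rw [jv_inv, jv_mul, ← sub_eq_add_neg] at hm
      have := hk _ hm (sub_eq_zero.2 h.1) (sub_eq_zero.2 h.2.1) (sub_eq_zero.2 h.2.2)
      exact Subtype.ext (Subtype.ext (by rw [hv, hw, sub_eq_zero.1 this]))
    have h3 := card_J5
    by_contra hlt
    have : Nat.card (E.subgroupOf J5) * E.relIndex J5 ≤ 27 * 8 := Nat.mul_le_mul h2 (by omega)
    omega
  obtain ⟨a, ha, x, hx, e⟩ := ess_off (A := J5) (Y := E ⊓ J) hF isPGroup_S0 hE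
    (fun a ha => ⟨J_le_S0 (hJ ha), by
      obtain ⟨v, rfl⟩ := exists_jv (hJ ha)
      exact jv_norm (hn v (mem_J5.1 ha).2)⟩)
    ⟨⟨⟨fun x y => Subtype.ext (cm _ (hJ x.2) _ (hJ y.2))⟩⟩, fun a ha => ea_J.2 a (hJ ha)⟩
    (fun h => h4 (h (mem_J5.2 ⟨jv_mem _, rfl⟩))) inf_le_left
    (fun a ha y hy => cm a (hJ ha) y hy.2) (hi1.trans hi2) s ⟨hs, hs'⟩
  obtain ⟨v, rfl⟩ := exists_jv (hJ ha)
  exact ⟨v, (mem_J5.1 ha).2, x, hx, e⟩

theorem norm_of_gen {s x y : AG} (h0 : ∀ v, jv v ∈ E → jv (s.g v) ∈ E) (hx : x ∈ E) (hy : y ∈ E)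
    (sx : s * x * s⁻¹ ∈ E) (sy : s * y * s⁻¹ ∈ E)
    (hB : ∀ z ∈ E, ∀ X : Subgroup GL6, x.g ∈ X → y.g ∈ X → z.g ∈ X) :
    s ∈ normalizer (E : Set AG) := by
  refine mem_normalizer_fintype fun z hz => ?_
  let N : Subgroup AG := E ⊓ E.comap (MulAut.conj s).toMonoidHom
  obtain ⟨n, hn, e⟩ := hB z hz (N.map proj) ⟨x, ⟨hx, sx⟩, rfl⟩ ⟨y, ⟨hy, sy⟩, rfl⟩
  have h1 : z * n⁻¹ ∈ J := mem_J.2 (by
    rw [mul_g, inv_g, ← e, proj_apply, mul_inv_cancel])
  obtain ⟨v, hv⟩ := exists_jv h1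
  have h2 : jv v ∈ E := hv ▸ mul_mem hz (inv_mem hn.1)
  have h3 : s * n * s⁻¹ ∈ E := hn.2
  have h4 := mul_mem (h0 v h2) h3
  rw [← conj_jv, ← hv] at h4
  rwa [show s * (z * n⁻¹) * s⁻¹ * (s * n * s⁻¹) = s * z * s⁻¹ by group] at h4

theorem u_pow_mem {X : Subgroup GL6} {a b : K} (h : u a b 0 ∈ X) (hc : u 0 0 1 ∈ X) (k c : K) :
    u (k * a) (k * b) c ∈ X := by
  have h3 : ∀ a : K, a = 0 ∨ a = 1 ∨ a = 1 + 1 := by decide
  have h4 : ∀ c, u 0 0 c ∈ X := fun c => by
    rcases h3 c with rfl | rfl | rfl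
    exacts [u_zero ▸ one_mem _, hc, by simpa [u_mul] using mul_mem hc hc]
  have h5 : ∀ a b c c', u a b c ∈ X → u a b c' ∈ X := fun a b c c' h => by
    simpa [u_mul] using mul_mem h (h4 (c' - c))
  rcases h3 k with rfl | rfl | rfl
  · simpa using h4 c
  · simpa using h5 _ _ _ c h
  · have := mul_mem h h
    rw [u_mul] at this
    simpa [add_mul] using h5 _ _ _ c this

theorem lift {B : Subgroup GL6} (hB : A.map proj = B) {a b c : K} (h : u a b c ∈ B) :
    ∃ v, el v a b c ∈ A := by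
  rw [← hB] at h
  obtain ⟨x, hx, e⟩ := h
  exact ⟨x.v, by rwa [show el x.v a b c = x from AG.ext rfl e.symm]⟩

theorem comm_el (h : Pair E A) {v w : V} {a b c a' b' c' : K} (hx : el v a b c ∈ A)
    (hy : el w a' b' c' ∈ A) : v + uf a b c w = w + uf a' b' c' v := by
  have : el v a b c * el w a' b' c' = el w a' b' c' * el v a b c :=
    congrArg Subtype.val (h.ea.1.is_comm.comm (⟨_, hx⟩ : A) ⟨_, hy⟩)
  rw [el_mul, el_mul, el_inj] at this
  exact this.1

theorem mem_of_diff {v w : V} {a b c : K} (h : el w a b c ∈ E) (hd : jv (v - w) ∈ E) :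
    el v a b c ∈ E := by
  have := mul_mem hd h
  rwa [show jv (v - w) * el w a b c = el v a b c from AG.ext (by simp [gl_one_apply]) (by simp)]
    at this

end CaA

open CaA

theorem not_ty3 {F : FS} (hF : F.IsSaturated 3) {E A : Subgroup AG} (hE : F.IsEssential 3 E)
    (h : Pair E A) {t : K} (ht : Ty E A (In3 t) InZ (Bl t (-1))) : False := by
  obtain ⟨v, hx⟩ := lift ht.hB (a := 1) (b := t) (c := 0) (u_mem_Bl.2 (by ring))
  obtain ⟨w, hy⟩ := lift ht.hB (a := 0) (b := 0) (c := -1) (u_mem_Bl.2 (by ring))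
  by_cases hB : ∀ z ∈ E, z.g ∈ Bl t (-1)
  swap
  · push Not at hB
    obtain ⟨z, hz, hz'⟩ := hB
    obtain ⟨a, b, c, ez⟩ := mem_S0.1 (h.leS hz)
    rw [ez, u_mem_Bl] at hz'
    have c1 := comm_mem (h.le hx) ((ht.hE (e 1)).2 (by simp [In3, e]))
    have c2 := comm_mem hz ((ht.hE (e 3 + t • e 2)).2 (by simp [In3, e]))
    have := frat hE (n := e 2) (fun x hx => in2_mem c1 (by simp [u_apply, uf, e])
      (by simp [u_apply, uf, e]) (by simp [In2, u_apply, uf, e]) c2 ?_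
      (by simp [ez, In2, u_apply, uf, e]) hx) (by simp [In2, u_apply, uf, e])
    · simpa [In3, e] using (ht.hE _).1 this
    · simp only [ez, u_apply, uf, e]
      simp
      intro h0
      exact hz' (by linear_combination (-1 : K) * h0 + a * t * three)
  have hoff := fun s => off hF hE 3 (fun v hv h0 h1 h3 => by
      obtain ⟨h2, h4, h5⟩ := (ht.hE v).1 hv
      rw [h3, mul_zero] at h2
      funext i; fin_cases i <;> assumption)
    (fun h4 => by simpa [In3, e] using (ht.hE _).1 h4) (p := t) (q := -1) (Or.inr (by decide)) hB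
    (fun v hv z hz => (ht.hE _).2 (by
      obtain ⟨a, b, c, hab, ez⟩ := hB z hz
      have : b = t * a := by linear_combination -hab
      simp [ez, In3, u_apply, uf, hv, this]
      ring)) (s := s)
  by_cases t0 : t = 0
  · subst t0
    obtain ⟨v', hv', x, hx', ex⟩ := hoff (jv (e 5)) (J_le_S0 (jv_mem _))
      (jv_norm fun z hz => (ht.hE _).2 (by
        obtain ⟨a, b, c, hab, ez⟩ := hB z hz
        have : b = 0 := by linear_combination -hab
        simp [ez, In3, u_apply, uf, this, e]))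
    have e1 : x = jv (e 5 - v') := by
      rw [sub_eq_neg_add, ← jv_mul, ← jv_inv, ex, inv_mul_cancel_left]
    have := ((ht.hE _).1 (e1 ▸ hx')).2.2
    simp [e, hv'] at this
  · have hc := comm_el h hx hy
    have c1 := congrFun hc 1
    have c2 := congrFun hc 2
    have c3 := congrFun hc 3
    have c4 := congrFun hc 4
    simp [uf] at c1 c2 c3 c4
    have w5 : w 5 = 0 := (mul_eq_zero.1 (show t * w 5 = 0 by
      linear_combination -c4 + t * w 5 * three)).resolve_left t0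
    have w4 : w 4 = 0 := (mul_eq_zero.1 (show t * w 4 = 0 by
      rw [w5] at c2; linear_combination c2)).resolve_left t0
    have v5 : v 5 = 0 := by
      rw [w4] at c3; linear_combination -c3 + v 5 * three
    have v4 : v 4 = -(2 * w 2 + t * w 3) := by
      rw [w4] at c1; linear_combination c1
    suffices hn : el 0 0 1 0 ∈ normalizer (E : Set AG) by
      obtain ⟨v', hv', x, hx', ex⟩ := hoff (el 0 0 1 0) (el_mem ..) hn
      have := hB x hx'
      rw [show x.g = u 0 1 0 by simpa using (congrArg AG.g ex).symm, u_mem_Bl] at this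
      simp at this
    refine norm_of_gen (fun v hv => (ht.hE _).2 (by
        obtain ⟨h2, h4, h5⟩ := (ht.hE v).1 hv
        simp [In3, u_apply, uf, h2, h4, h5])) (h.le hx) (h.le hy) ?_ ?_ ?_
    · have := mul_mem (h.le hx) (h.le hy)
      rw [el_mul] at this
      rw [el_inv, el_mul, el_mul]
      refine mem_of_diff (by simpa using this) ((ht.hE _).2 ?_)
      simp only [In3, Pi.sub_apply, Pi.add_apply]
      simp [uf, w4, w5, v4, v5]
      linear_combination (-w 2) * three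
    · rw [el_inv, el_mul, el_mul]
      refine mem_of_diff (by simpa using h.le hy) ((ht.hE _).2 ?_)
      simp [In3, uf, w4, w5]
    · intro z hz X h1 h2
      obtain ⟨a, b, c, hab, ez⟩ := hB z hz
      have : b = a * t := by linear_combination -hab
      have h3 := inv_mem h2
      rw [el_g, u_inv] at h3
      simpa [ez, this] using u_pow_mem h1 (by simpa using h3) a c

theorem not_tyW {F : FS} (hF : F.IsSaturated 3) {E A : Subgroup AG} (hE : F.IsEssential 3 E)
    (h : Pair E A) {q : V → Prop} (ht : Ty E A InW q Bb) : False := by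
  obtain ⟨v, hx⟩ := lift ht.hB (a := 0) (b := 1) (c := 0) (u_mem_Bl.2 (by ring))
  obtain ⟨w, hy⟩ := lift ht.hB (a := 0) (b := 0) (c := 1) (u_mem_Bl.2 (by ring))
  by_cases hB : ∀ z ∈ E, z.g ∈ Bb
  swap
  · push Not at hB
    obtain ⟨z, hz, hz'⟩ := hB
    obtain ⟨a, b, c, ez⟩ := mem_S0.1 (h.leS hz)
    rw [ez, u_mem_Bl] at hz'
    have a0 : a ≠ 0 := by simpa using hz'
    have c1 := comm_mem hz ((ht.hE (e 1)).2 (by simp [InW, e]))
    have c2 := comm_mem hz ((ht.hE (e 2)).2 (by simp [InW, e]))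
    have := frat hE (n := e 3) (fun x hx => in2_mem c1 (by simp [ez, u_apply, uf, e, a0])
      (by simp [ez, u_apply, uf, e]) (by simp [ez, In2, u_apply, uf, e]) c2
      (by simp [ez, u_apply, uf, e, a0, show (2 : K) ≠ 0 by decide])
      (by simp [ez, In2, u_apply, uf, e]) hx) (by simp [In2, u_apply, uf, e])
    simpa [InW, e] using (ht.hE _).1 this
  have hoff := fun s => off hF hE 2 (fun v hv h0 h1 h2 => by
      obtain ⟨h3, h4, h5⟩ := (ht.hE v).1 hv
      funext i; fin_cases i <;> assumption)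
    (fun h4 => by simpa [InW, e] using (ht.hE _).1 h4) (p := 1) (q := 0) (Or.inl (by decide)) hB
    (fun v hv z hz => (ht.hE _).2 (by
      obtain ⟨a, b, c, hab, ez⟩ := hB z hz
      have : a = 0 := by linear_combination hab
      simp [ez, InW, u_apply, uf, hv, this])) (s := s)
  have hc := comm_el h hx hy
  have c0 := congrFun hc 0
  have c1 := congrFun hc 1
  have c2 := congrFun hc 2
  have c3 := congrFun hc 3
  have c4 := congrFun hc 4
  simp [uf] at c0 c1 c2 c3 c4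
  have w5 : w 5 = 0 := by linear_combination -c4 + w 5 * three
  have w4 : w 4 = 0 := by rw [w5] at c2; linear_combination c2
  have v5 : v 5 = 0 := by
    have : 2 * v 5 = 0 := by linear_combination -c3
    simpa [show (2 : K) ≠ 0 by decide] using this
  have v4 : v 4 = w 3 := by linear_combination -c1
  suffices hn : el 0 1 0 0 ∈ normalizer (E : Set AG) by
    obtain ⟨v', hv', x, hx', ex⟩ := hoff (el 0 1 0 0) (el_mem ..) hn
    have := hB x hx'
    rw [show x.g = u 1 0 0 by simpa using (congrArg AG.g ex).symm, u_mem_Bl] at this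
    simp at this
  refine norm_of_gen (fun v hv => (ht.hE _).2 (by
      obtain ⟨h3, h4, h5⟩ := (ht.hE v).1 hv
      simp [InW, u_apply, uf, h3, h4, h5])) (h.le hx) (h.le hy) ?_ ?_ ?_
  · have := mul_mem (h.le hx) (h.le hy)
    rw [el_mul] at this
    rw [el_inv, el_mul, el_mul]
    refine mem_of_diff (by simpa using this) ((ht.hE _).2 ?_)
    simp only [InW, Pi.sub_apply, Pi.add_apply]
    simp [uf, w4, w5, v4, v5]
  · rw [el_inv, el_mul, el_mul]
    refine mem_of_diff (by simpa using h.le hy) ((ht.hE _).2 ?_)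
    simp [InW, uf, w4, w5]
  · intro z hz X h1 h2
    obtain ⟨a, b, c, hab, ez⟩ := hB z hz
    have : a = 0 := by linear_combination hab
    simpa [ez, this] using u_pow_mem h1 h2 b c

end Cfsg.Agent.C3
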