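import Mathlib
import Cfsg.Agent.C3.Basic

/-! The possible types of a pair `(E, A)`. -/

set_option autoImplicit false
set_option linter.unusedVariables false

namespace Cfsg.Agent.C3

open Cfsg Cfsg.FusionSystem Cfsg.Agent.Fus Subgroup Module

namespace Cl

variable {E A : Subgroup AG} {v n : V} {g : GL6}

/-- The subspace `X ⊓ J` of `V`. -/
def sm (X : Subgroup AG) : Submodule K V := AddSubgroup.toZModSubmodule 3
  { carrier := {v | jv v ∈ X}
    zero_mem' := one_mem X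
    add_mem' := fun h k => by rw [Set.mem_ofPred_eq, ← jv_mul]; exact mul_mem h k
    neg_mem' := fun h => by rw [Set.mem_ofPred_eq, ← jv_inv]; exact inv_mem h }

theorem card_sm (X : Subgroup AG) : Nat.card (X ⊓ J : Subgroup AG) = 3 ^ finrank K (sm X) := by
  have e : ∀ x : (X ⊓ J : Subgroup AG), jv x.1.v = x := fun x => AG.ext rfl (mem_J.1 x.2.2).symm
  rw [Nat.card_congr (⟨fun x => ⟨x.1.v, show jv _ ∈ X from (e x).symm ▸ x.2.1⟩, fun v => ⟨jv v, v.2, jv_mem _⟩,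
    fun x => Subtype.ext (e x), fun _ => rfl⟩ : (X ⊓ J : Subgroup AG) ≃ sm X), natCard_eq_pow_finrank (K := K),
    Nat.card_zmod]

theorem fr (T : V →ₗ[K] V) {D : Submodule K V} (h : D ≤ LinearMap.ker T) {x y : V} (hx : T (T x) = 0)
    (hy : T (T y) = 0) (hi : ∀ p q : K, p • T x + q • T y = 0 → p = 0 ∧ q = 0) :
    finrank K D + 2 ≤ finrank K (D.comap T) := by
  have h1 := (T.domRestrict (D.comap T)).finrank_range_add_finrank_ker
  rw [LinearMap.range_domRestrict, Submodule.map_comap_eq, LinearMap.ker_domRestrict,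
    (Submodule.comapSubtypeEquivOfLe fun v hv => by simp [LinearMap.mem_ker.1 hv]).finrank_eq] at h1
  have h2 := Submodule.finrank_sup_add_finrank_inf_eq (LinearMap.range T ⊓ LinearMap.ker T) D
  have h3 := Submodule.finrank_mono (sup_le (inf_le_right : LinearMap.range T ⊓ _ ≤ _) h)
  have h4 := Submodule.finrank_mono (inf_le_inf_right D (inf_le_left : LinearMap.range T ⊓ LinearMap.ker T ≤ _))
  have h5 := (LinearIndependent.pair_iff (x := (⟨T x, ⟨x, rfl⟩, hx⟩ : (LinearMap.range T ⊓ LinearMap.ker T :)))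
    (y := ⟨T y, ⟨y, rfl⟩, hy⟩)).2 fun p q e => hi p q (congrArg Subtype.val e)
  have h6 := h5.fintype_card_le_finrank
  rw [Fintype.card_fin] at h6
  omega

theorem mem_iff (h : Pair E A) : jv n ∈ E ↔ ∀ g ∈ A.map proj, jv (n - g n) ∈ A := by
  rw [← h.nj _ (jv_mem n)]
  refine ⟨?_, fun k => mem_normalizer_fintype fun x hx => ?_⟩
  · rintro k _ ⟨x, hx, rfl⟩
    have := (mem_normalizer_iff.1 k x).1 hx
    rwa [jv_conj, mul_mem_cancel_right hx] at this
  · rw [jv_conj]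
    exact mul_mem (k _ ⟨x, hx, rfl⟩) hx

theorem comm (h : Pair E A) {x y : AG} (hx : x ∈ A) (hy : y ∈ A) : x * y = y * x :=
  congrArg Subtype.val (h.ea.1.is_comm.comm ⟨x, hx⟩ ⟨y, hy⟩)

theorem comm_jv {x : AG} : x * jv v = jv v * x ↔ x.g v = v := by
  rw [← mul_inv_eq_iff_eq_mul, conj_jv, jv_inj]

theorem fix (h : Pair E A) (hv : jv v ∈ A) (hg : g ∈ A.map proj) : g v = v := by
  obtain ⟨x, hx, rfl⟩ := hg
  exact comm_jv.1 (comm h hx hv)

theorem ord {a b c : K} (h : u a b c ≠ 1) : Nat.card (zpowers (u a b c)) = 3 := by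
  rw [Nat.card_zpowers, orderOf_eq_prime (u_cube a b c) h]

theorem not_cyc (h : Pair E A) {a b c : K} (h1 : u a b c ≠ 1) : A.map proj ≠ zpowers (u a b c) := fun e => by
  have key : ∀ a b c : K, ¬ (a = 0 ∧ b = 0 ∧ c = 0) → ∃ k l : K,
      let T := fun v => v - uf a b c v
      let x := C3.e (if a = 0 then 3 else 1)
      T (T x) = 0 ∧ T (T ![0, 0, 0, k, 1, l]) = 0 ∧
        ∀ p q : K, p • T x + q • T ![0, 0, 0, k, 1, l] = 0 → p = 0 ∧ q = 0 := by
    decide +kernel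
  obtain ⟨k, l, k1, k2, k3⟩ := key a b c (mt u_eq_one.2 h1)
  have hx : u a b c ∈ A.map proj := e.ge (mem_zpowers _)
  have h2 := fr (LinearMap.id - (u a b c).toLinearMap) (D := sm A)
    (fun v hv => LinearMap.mem_ker.2 (sub_eq_zero.2 (fix h hv hx).symm)) k1 k2 k3
  have h3 : (sm A).comap (LinearMap.id - (u a b c).toLinearMap) ≤ sm E := fun n hn => (mem_iff h).2 fun g hg => by
    have hn : n - u a b c n ∈ sm A := hn
    obtain ⟨m, rfl⟩ := mem_powers_iff_mem_zpowers.2 (e.le hg)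
    change n - (u a b c ^ m) n ∈ sm A
    clear hg
    induction m with
    | zero => simp
    | succ m ih =>
      have := add_mem ih hn
      rwa [← fix h hn (pow_mem hx m), map_sub, sub_add_sub_cancel, ← gl_mul_apply, ← pow_succ] at this
  have h4 := Submodule.finrank_mono h3
  have h5 := h.card.symm.trans (card_eq_mul A)
  rw [e, ord h1, card_sm, card_sm, ← pow_succ, Nat.pow_right_inj (by norm_num)] at h5
  omega

theorem cls (h : Pair E A) : (∃ t, A.map proj = Bl t (-1)) ∨ A.map proj = Bb := by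
  have hU : A.map proj ≤ U := map_le_iff_le_comap.2 (h.le.trans h.leS)
  obtain ⟨x, hx, x1⟩ := SetLike.not_le_iff_exists.1 h.nle
  obtain ⟨v, a, b, c, rfl⟩ := exists_el (h.leS (h.le hx))
  have h1 : u a b c ≠ 1 := fun e => x1 (mem_J.2 e)
  have hx : u a b c ∈ A.map proj := ⟨_, hx, rfl⟩
  have lt := lt_of_le_of_ne (zpowers_le.2 hx) (not_cyc h h1).symm
  have h9 : 9 ≤ Nat.card (A.map proj) := by
    obtain ⟨m, hm⟩ := IsPGroup.iff_card.1 (isPGroup_U.to_le hU)
    have := lt_of_le_of_ne (card_le_of_le lt.le) fun e => lt.ne (eq_of_le_of_card_ge lt.le e.ge)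
    rw [ord h1, hm] at this
    exact hm ▸ Nat.pow_le_pow_right (n := 3) (by norm_num)
      ((Nat.pow_lt_pow_iff_right (a := 3) (n := 1) (by norm_num)).1 this)
  obtain ⟨a, b, c, hx, h2⟩ : ∃ a b c, u a b c ∈ A.map proj ∧ (b ≠ 0 ∨ -a ≠ 0) := by
    by_contra! k
    obtain ⟨y, hy, y1⟩ := SetLike.exists_of_lt lt
    obtain ⟨a', b', c', rfl⟩ := hU hy
    obtain ⟨rfl, h3⟩ := k _ _ _ hx
    obtain ⟨rfl, h4⟩ := k _ _ _ hy
    obtain rfl := neg_eq_zero.1 h3
    obtain rfl := neg_eq_zero.1 h4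
    have k : ∀ c c' : K, c ≠ 0 → c' = 0 ∨ c' = c ∨ c' = c + c := by decide
    rcases k c c' (fun e => h1 (by rw [e, u_zero])) with rfl | rfl | rfl
    exacts [y1 (u_zero ▸ one_mem _), y1 (mem_zpowers _),
      y1 (by simpa [u_mul] using mul_mem (mem_zpowers (u 0 0 c)) (mem_zpowers _))]
  have e : A.map proj = Bl b (-a) := eq_of_le_of_card_ge (fun g hg => by
    obtain ⟨a', b', c', rfl⟩ := hU hg
    obtain ⟨x, hx, e1⟩ := hx
    obtain ⟨y, hy, e2⟩ := hg
    have := congrArg proj (comm h hx hy)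
    rw [map_mul, map_mul, e1, e2, u_mul, u_mul, u_inj] at this
    exact u_mem_Bl.2 (by linear_combination -this.2.2)) (by rwa [card_Bl h2])
  have k : ∀ a b : K, b ≠ 0 ∨ -a ≠ 0 → (∃ t : K, ∀ x y, b * x + -a * y = 0 ↔ t * x + -1 * y = 0) ∨
      ∀ x y, b * x + -a * y = 0 ↔ 1 * x + 0 * y = 0 := by decide
  rw [e]
  exact (k a b h2).imp (Exists.imp fun t k => Subgroup.ext fun g => by simp only [mem_Bl, k])
    fun k => Subgroup.ext fun g => by simp only [mem_Bl, k]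

theorem forall_Bl {p q : K} {P : GL6 → Prop} :
    (∀ g ∈ Bl p q, P g) ↔ ∀ a b c, p * a + q * b = 0 → P (u a b c) :=
  ⟨fun h a b c k => h _ (u_mem_Bl.2 k), fun h _ ⟨a, b, c, k, e⟩ => e ▸ h a b c k⟩

theorem ty3 (h : Pair E A) {t : K} (e : A.map proj = Bl t (-1)) : Ty E A (In3 t) InZ (Bl t (-1)) := by
  have k1 : ∀ t : K, ∀ v, uf 0 0 1 v = v → uf 1 t 0 v = v → v = 0 ∨ v = C3.e 0 ∨ v = -C3.e 0 := fun t => by
    rw [forall_V]; revert t; decide +kernel
  have k2 : ∀ v, InZ v ↔ v = 0 ∨ v = C3.e 0 ∨ v = -C3.e 0 := by rw [forall_V]; decide +kernel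
  have m1 : u 0 0 1 ∈ A.map proj := e.ge (u_mem_Bl.2 (by simp))
  have m2 : u 1 t 0 ∈ A.map proj := e.ge (u_mem_Bl.2 (by simp))
  have h1 : ∀ v, jv v ∈ A → v = 0 ∨ v = C3.e 0 ∨ v = -C3.e 0 := fun v hv => k1 t v (fix h hv m1) (fix h hv m2)
  have z : ∀ {X : Subgroup AG} {v}, jv (C3.e 0) ∈ X → v = 0 ∨ v = C3.e 0 ∨ v = -C3.e 0 → jv v ∈ X := by
    rintro X v k (rfl | rfl | rfl)
    exacts [one_mem _, k, jv_inv _ ▸ inv_mem k]
  have h2 : jv (C3.e 0) ∈ A := by
    by_contra k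
    have h0 : ∀ v, jv v ∈ A → v = 0 := fun v hv => by
      rcases h1 v hv with e | rfl | rfl
      exacts [e, absurd hv k, absurd (by simpa [jv_inv] using inv_mem hv) k]
    have h3 : E ⊓ J ≤ zpowers (jv (C3.e 0)) := fun x hx => by
      obtain ⟨v, rfl⟩ := exists_jv hx.2
      exact z (mem_zpowers _) (k1 t v (sub_eq_zero.1 (h0 _ ((mem_iff h).1 hx.1 _ m1))).symm
        (sub_eq_zero.1 (h0 _ ((mem_iff h).1 hx.1 _ m2))).symm)
    have h4 := (card_le_of_le h3).trans ((Nat.card_zpowers _).trans_le (orderOf_le_of_pow_eq_one (n := 3)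
      (by norm_num) (ea_J.2 _ (jv_mem _))))
    have := Nat.card_pos (α := (A ⊓ J : Subgroup AG))
    rw [← h.card, card_eq_mul, e, card_Bl (Or.inr (by decide))] at h4
    omega
  have hA : ∀ v, jv v ∈ A ↔ InZ v := fun v => Iff.trans ⟨h1 v, z h2⟩ (k2 v).symm
  refine ⟨fun v => ?_, hA, e⟩
  rw [mem_iff h, e, forall_Bl]
  simp only [hA, u_apply]
  refine ⟨fun k => ?_, fun ⟨k1, k2, k3⟩ a b c k => ?_⟩
  · have k1 := k 0 0 1 (by simp)
    have k2 := k 1 t 0 (by simp)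
    simp [InZ, uf, show (2 : K) ≠ 0 by decide] at k1 k2
    exact ⟨by linear_combination k2.1 + t * k1.1 + v 2 * three, k1.1, k1.2⟩
  · obtain rfl : b = t * a := by linear_combination -k
    simp [InZ, uf, k1, k2, k3]
    linear_combination (-(a * t * v 3)) * three

end Cl

open Cl in
theorem Pair.ty {E A : Subgroup AG} (h : Pair E A) :
    (∃ t, Ty E A (In3 t) InZ (Bl t (-1))) ∨ (∃ q, Ty E A InW q Bb) ∨
      Ty E A (fun v => v 5 = 0) InW Bb := by
  rcases cls h with ⟨t, e⟩ | e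
  · exact Or.inl ⟨t, ty3 h e⟩
  have fW : ∀ v, InW v → ∀ g ∈ A.map proj, g v = v := fun v ⟨k1, k2, k3⟩ => by
    rw [e, forall_Bl]
    intro a b c k
    obtain rfl : a = 0 := by simpa using k
    funext i; fin_cases i <;> simp [u_apply, uf, k1, k2, k3]
  have m1 : u 0 0 1 ∈ A.map proj := e.ge (u_mem_Bl.2 (by simp))
  have k1 : ∀ v, uf 0 0 1 v = v → InW v := by rw [forall_V]; decide +kernel
  have h1 : ∀ v, jv v ∈ A → InW v := fun v hv => k1 v (fix h hv m1)
  have h2 : ∀ v, InW v → jv v ∈ E := fun v hv => (mem_iff h).2 fun g hg => by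
    rw [fW v hv g hg, sub_self]; exact one_mem _
  by_cases k : ∀ v, jv v ∈ E → InW v
  · exact Or.inr (Or.inl ⟨_, fun v => ⟨k v, h2 v⟩, fun _ => Iff.rfl, e⟩)
  push Not at k
  obtain ⟨n, hn, k⟩ := k
  have h3 : ∀ v, jv v ∈ E → v 5 = 0 := fun v hv => by
    simpa [InW, u_apply, uf, show (2 : K) ≠ 0 by decide] using h1 _ ((mem_iff h).1 hv _ m1)
  have h4 : ∀ v, InW v → jv v ∈ A := fun v hv => h.cent (fun x hx c => by
      obtain ⟨w, a, b, c', rfl⟩ := exists_el (h.leS hx)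
      have c1 := congrFun (comm_jv.1 (c _ ⟨h2 (C3.e 1) (by decide), jv_mem _⟩)) 0
      obtain rfl : a = 0 := by simpa [u_apply, uf, C3.e] using c1
      have c2 := comm_jv.1 (c _ ⟨hn, jv_mem _⟩)
      have c3 := congrFun c2 0
      have c4 := congrFun c2 1
      have c5 := congrFun c2 2
      simp only [el_g, u_apply, uf, h3 n hn] at c3 c4 c5
      have k2 : ∀ b c x y : K, ¬ (x = 0 ∧ y = 0) → c * x = 0 → b * x + c * y = 0 → b * y = 0 → b = 0 ∧ c = 0 := by
        decide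
      obtain ⟨rfl, rfl⟩ := k2 b c' (n 3) (n 4) (fun z => k ⟨z.1, z.2, h3 n hn⟩) (by simpa using c3)
        (by simpa [add_assoc] using c4) (by simpa using c5)
      exact mem_J.2 u_zero) _ (h2 v hv) fun a ha => (comm_jv.2 (fW v hv _ ⟨a, ha, rfl⟩)).symm
  refine Or.inr (Or.inr ⟨fun v => ⟨h3 v, fun hv => (mem_iff h).2 ?_⟩, fun v => ⟨h1 v, h4 v⟩, e⟩)
  rw [e, forall_Bl]
  intro a b c k
  obtain rfl : a = 0 := by simpa using k
  exact h4 _ (by simp [InW, u_apply, uf, hv])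

end Cfsg.Agent.C3
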