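import Mathlib
import Cfsg.Agent.C3.Basic

set_option autoImplicit false
set_option linter.unusedVariables false

namespace Cfsg.Agent.C3

open Cfsg Cfsg.FusionSystem Cfsg.Agent.Fus Subgroup

theorem pair_comm {x y : AG} (hx : x ∈ J) (hy : y ∈ J) : x * y = y * x :=
  congrArg Subtype.val (ea_J.1.is_comm.comm (⟨x, hx⟩ : J) ⟨y, hy⟩)

theorem pair_cmt {x n : AG} (hn : n ∈ J) : x⁻¹ * (n * x * n⁻¹) ∈ J := by
  have := mul_mem (normal_J.conj_mem n hn x⁻¹) (inv_mem hn)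
  simpa only [inv_inv, mul_assoc] using this

theorem pair_step {E N : Subgroup AG} (hE : E ≤ S0) (hN : N ≤ S0) (hn : E ≤ normalizer (N : Set AG))
    (h : ¬ N ≤ E) : ∃ n ∈ N, n ∉ E ∧ n ∈ normalizer (E : Set AG) := by
  obtain ⟨x, hx, hxE⟩ := SetLike.exists_of_lt (lt_normalizerIn (isPGroup_S0.to_le (sup_le hE hN))
    (lt_of_le_of_ne le_sup_left fun e => h (le_sup_right.trans e.ge)))
  obtain ⟨a, ha, n, hn, rfl⟩ := (mem_sup_of_le_normalizer hn).1 hx.1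
  exact ⟨n, hn, fun e => hxE (mul_mem ha e), (mul_mem_cancel_left (le_normalizer ha)).1 hx.2⟩

theorem exists_pair {F : FS} (hF : F.IsSaturated 3) {E : Subgroup AG} (hE : F.IsEssential 3 E)
    (hJ : ¬ J ≤ E) : ∃ A, Pair E A := by
  have d := hE.essData hF isPGroup_S0
  obtain ⟨g, hg, hgH⟩ := d.exists_not_mem
  have hm := mor_totA hE.le hg
  have mA : ∀ {x}, x ∈ img (totA g) (E ⊓ J) ↔ ∃ y ∈ E ⊓ J, totA g y = x := hm.mulOn.mem_img_of_le inf_le_left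
  have hc := hm.card_img (Q := E ⊓ J) inf_le_left
  generalize img (totA g) (E ⊓ J) = A at mA hc
  have le : A ≤ E := fun x hx => by
    obtain ⟨y, hy, rfl⟩ := mA.1 hx
    exact totA_mem g hy.1
  have norm : E ≤ normalizer (A : Set AG) := fun x hx => mem_normalizer_fintype fun a ha => by
    obtain ⟨y, hy, rfl⟩ := mA.1 ha
    have h1 := totA_mem g⁻¹ hx
    exact mA.2 ⟨_, ⟨E.mul_mem (E.mul_mem h1 hy.1) (E.inv_mem h1), normal_J.conj_mem y hy.2 _⟩,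
      by rw [hm.map_conj h1 hy.1, totA_totA_inv g hx]⟩
  have key : ∀ n ∈ J, n ∈ normalizer (A : Set AG) → n ∈ normalizer (E : Set AG) → n ∈ E := fun n hn nA nE => by
    by_contra hnE
    have hs : n ∈ normalizerIn S0 E := ⟨J_le_S0 hn, nE⟩
    have cE : ∀ x ∈ E, x⁻¹ * (n * x * n⁻¹) ∈ E ⊓ J := fun x hx =>
      ⟨E.mul_mem (E.inv_mem hx) ((mem_normalizer_iff.1 nE x).1 hx), pair_cmt hn⟩
    have cA : ∀ x ∈ A, x⁻¹ * (n * x * n⁻¹) ∈ A := fun x hx =>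
      mul_mem (inv_mem hx) ((mem_normalizer_iff.1 nA x).1 hx)
    have cJ : ∀ x ∈ J, x⁻¹ * (n * x * n⁻¹) = 1 := fun x hx => by rw [pair_comm hn hx]; group
    have e : ∀ x ∈ E, x⁻¹ * totA (g * cAut E n * g⁻¹) x =
        totA g ((totA g⁻¹ x)⁻¹ * (n * totA g⁻¹ x * n⁻¹)) := fun x hx => by
      have h1 := totA_mem g⁻¹ hx
      rw [totA_mul _ _ hx, totA_mul _ _ h1, totA_cAut nE h1,
        hm.map_mul (inv_mem h1) ((mem_normalizer_iff.1 nE _).1 h1), hm.map_inv h1, totA_totA_inv g hx]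
    have e1 : ∀ x ∈ E, x⁻¹ * totA (g * cAut E n * g⁻¹) x ∈ A := fun x hx =>
      e x hx ▸ mA.2 ⟨_, cE _ (totA_mem g⁻¹ hx), rfl⟩
    have e2 : ∀ x ∈ A, x⁻¹ * totA (g * cAut E n * g⁻¹) x = 1 := fun x hx => by
      rw [e x (le hx)]
      obtain ⟨y, hy, rfl⟩ := mA.1 hx
      rw [totA_inv_totA g hy.1, cJ y hy.2, hm.map_one]
    have ME : A ⊔ E ⊓ J ≤ E := sup_le le inf_le_left
    have anti : ∀ i < 4, [E, A ⊔ E ⊓ J, A, A ⊓ J, ⊥].getD (i + 1) ⊥ ≤ [E, A ⊔ E ⊓ J, A, A ⊓ J, ⊥].getD i ⊥ := by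
      intro i hi; interval_cases i
      exacts [ME, le_sup_left, inf_le_left, bot_le]
    refine hgH (d.mem_of_pgroup ((isPGroup_chainStab (isPGroup_S0.to_le hE.le)
      (C := fun i => [E, A ⊔ E ⊓ J, A, A ⊓ J, ⊥].getD i ⊥) (n := 4) rfl bot_le).to_le inf_le_left)
      (mem_chainStab_of le_rfl anti fun i hi x hx => ?_) (d.cAut_mem hs) (d.cAut_notMem_inn hs hnE) hg
      (mem_chainStab_of le_rfl anti fun i hi x hx => ?_))
    · interval_cases i
      · rw [totA_cAut nE hx]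
        exact mem_sup_right (cE x hx)
      · rw [totA_cAut nE (ME hx)]
        obtain ⟨a, ha, y, hy, rfl⟩ := (mem_sup_of_le_normalizer' (inf_le_left.trans norm)).1 hx
        have : (a * y)⁻¹ * (n * (a * y) * n⁻¹) = y⁻¹ * (a⁻¹ * (n * a * n⁻¹)) * y * (y⁻¹ * (n * y * n⁻¹)) := by group
        rw [this, cJ y hy.2, mul_one]
        change _ ∈ A
        simpa only [inv_inv] using (mem_normalizer_iff.1 (inv_mem (norm hy.1)) _).1 (cA a ha)
      · rw [totA_cAut nE (le hx)]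
        exact ⟨cA x hx, pair_cmt hn⟩
      · rw [totA_cAut nE (le hx.1)]
        exact cJ x hx.2
    · interval_cases i
      · exact mem_sup_left (e1 x hx)
      · exact e1 x (ME hx)
      · rw [e2 x hx]; exact one_mem _
      · exact e2 x hx.1
  have nj : ∀ n ∈ J, n ∈ normalizer (A : Set AG) ↔ n ∈ E := fun n hn => ⟨fun h => by
    by_contra hnE
    obtain ⟨m, hm, h1, h2⟩ := pair_step (N := J ⊓ normalizer (A : Set AG)) hE.le (inf_le_left.trans J_le_S0)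
      (fun x hx => mem_normalizer_inf (by rw [normalizer_eq_top]; trivial) (le_normalizer (norm hx)))
      fun e => hnE (e ⟨hn, h⟩)
    exact h1 (key m hm.1 hm.2 h2), fun h => norm h⟩
  refine ⟨A, hE.le, le, norm, ⟨⟨⟨fun a b => Subtype.ext ?_⟩⟩, fun a ha => ?_⟩, hc, fun h => hJ fun n hn => ?_, nj,
    fun h x hx hc => ?_⟩
  · obtain ⟨y, hy, e⟩ := mA.1 a.2
    obtain ⟨z, hz, e'⟩ := mA.1 b.2
    rw [coe_mul, coe_mul, ← e, ← e']
    exact (hm.commute_iff hy.1 hz.1).2 (pair_comm hy.2 hz.2)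
  · obtain ⟨y, hy, rfl⟩ := mA.1 ha
    rw [← hm.map_pow hy.1, ea_J.2 y hy.2, hm.map_one]
  · exact (nj n hn).1 (mem_normalizer_fintype fun a ha => by rwa [pair_comm hn (h ha), mul_inv_cancel_right])
  · have h1 := totA_mem g⁻¹ hx
    refine mA.2 ⟨_, ⟨h1, h _ h1 fun y hy => (hm.commute_iff h1 hy.1).1 ?_⟩, totA_totA_inv g hx⟩
    rw [totA_totA_inv g hx]
    exact hc _ (mA.2 ⟨y, hy, rfl⟩)

end Cfsg.Agent.C3
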