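import Mathlib
import Cfsg.Agent.C3.Basic

set_option autoImplicit false
set_option linter.unusedVariables false

namespace Cfsg.Agent.C3

open Cfsg Cfsg.FusionSystem Cfsg.Agent.Fus Subgroup

theorem r4_ex {x : AG} (hx : x ∈ R) : ∃ v b c, v 5 = 0 ∧ x = el v 0 b c := by
  obtain ⟨⟨⟨a, b, c, h, e⟩, -⟩, h5⟩ := mem_hy.1 hx
  obtain rfl : a = 0 := by simpa using h
  exact ⟨x.v, b, c, h5, AG.ext rfl e⟩

theorem r4_mem {v : V} {b c : K} (h : v 5 = 0) : el v 0 b c ∈ R :=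
  mem_hy.2 ⟨⟨u_mem_Bl.2 (by simp), u_mem ..⟩, h⟩

theorem r4_le : R ≤ S0 := fun _ hx => (mem_hy.1 hx).1.2

/-- Commuting elements of `R` in coordinates. -/
def r4Cm (b c s t b' c' s' t' : K) : Prop :=
  c * s' = c' * s ∧ b * s' + c * t' = b' * s + c' * t ∧ b * t' = b' * t

instance (b c s t b' c' s' t' : K) : Decidable (r4Cm b c s t b' c' s' t') :=
  inferInstanceAs (Decidable (_ ∧ _ ∧ _))

theorem r4_comm {v v' : V} {b c b' c' : K} (h : v 5 = 0) (h' : v' 5 = 0) :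
    el v 0 b c * el v' 0 b' c' = el v' 0 b' c' * el v 0 b c ↔
      r4Cm b c (v 3) (v 4) b' c' (v' 3) (v' 4) := by
  rw [el_mul, el_mul, el_inj]
  constructor
  · rintro ⟨e, -⟩
    have h0 := congrFun e 0
    have h1 := congrFun e 1
    have h2 := congrFun e 2
    simp [uf, h, h'] at h0 h1 h2
    exact ⟨by linear_combination h0, by linear_combination h1, by linear_combination h2⟩
  · rintro ⟨h0, h1, h2⟩
    refine ⟨?_, rfl, add_comm _ _, by ring⟩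
    funext i
    fin_cases i <;> simp [uf, h, h']
    · linear_combination h0
    · linear_combination h1
    · linear_combination h2
    · ring
    · ring

/-- Central elements of `R`. -/
def r4Cen (z : AG) : Prop := ∀ w ∈ R, z * w = w * z

theorem r4_cen {v : V} {b c : K} (h : v 5 = 0) :
    r4Cen (el v 0 b c) ↔ b = 0 ∧ c = 0 ∧ v 3 = 0 ∧ v 4 = 0 := by
  constructor
  · intro H
    have h1 := (r4_comm h (v' := e 3) (b' := 0) (c' := 0) rfl).1 (H _ (r4_mem rfl))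
    have h2 := (r4_comm h (v' := 0) (b' := 1) (c' := 0) rfl).1 (H _ (r4_mem rfl))
    simp [r4Cm, e] at h1 h2
    exact ⟨h1.2, h1.1, h2.1.symm, h2.2.symm⟩
  · rintro ⟨h1, h2, h3, h4⟩ w hw
    obtain ⟨v', b', c', h', rfl⟩ := r4_ex hw
    rw [r4_comm h h']
    simp [r4Cm, h1, h2, h3, h4]

/-- Elements with a large centralizer. -/
def r4T (x : AG) : Prop :=
  ∃ z ∈ R, x * z = z * x ∧ ¬ r4Cen z ∧ ¬ r4Cen (z * x) ∧ ¬ r4Cen (z * x⁻¹)

theorem r4_dec1 : ∀ b c s t : K, (∃ b' c' s' t' : K, r4Cm b c s t b' c' s' t' ∧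
    ¬ (b' = 0 ∧ c' = 0 ∧ s' = 0 ∧ t' = 0) ∧
    ¬ (b' + b = 0 ∧ c' + c = 0 ∧ s' + s = 0 ∧ t' + t = 0) ∧
    ¬ (b' - b = 0 ∧ c' - c = 0 ∧ s' - s = 0 ∧ t' - t = 0)) ↔ b * s = c * t := by decide +kernel

set_option synthInstance.maxSize 2000 in
theorem r4_dec2 : ∀ b c s t b' c' s' t' : K, r4Cm b' c' s' t' b c s t →
    ¬ (b = 0 ∧ c = 0 ∧ s = 0 ∧ t = 0) → (b = 0 ∧ c = 0 → b' = 0 ∧ c' = 0) ∧
      ∀ k : K, t = k * b ∧ s = k * c → t' = k * b' ∧ s' = k * c' := by decide +kernel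

theorem r4_cen_mul {v v' : V} {b c b' c' : K} (h : v 5 = 0) (h' : v' 5 = 0) :
    (r4Cen (el v' 0 b' c' * el v 0 b c) ↔
      b' + b = 0 ∧ c' + c = 0 ∧ v' 3 + v 3 = 0 ∧ v' 4 + v 4 = 0) ∧
    (r4Cen (el v' 0 b' c' * (el v 0 b c)⁻¹) ↔
      b' - b = 0 ∧ c' - c = 0 ∧ v' 3 - v 3 = 0 ∧ v' 4 - v 4 = 0) := by
  constructor
  · rw [el_mul, add_zero, r4_cen (by simp [uf, h, h'])]
    simp [uf, h]
  · rw [el_inv, el_mul, neg_zero, add_zero, r4_cen (by simp [uf, h, h'])]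
    simp [uf, h, sub_eq_add_neg]

theorem r4_T {v : V} {b c : K} (h : v 5 = 0) : r4T (el v 0 b c) ↔ b * v 3 = c * v 4 := by
  rw [← r4_dec1]
  constructor
  · rintro ⟨z, hz, h1, h2, h3, h4⟩
    obtain ⟨v', b', c', h', rfl⟩ := r4_ex hz
    exact ⟨b', c', v' 3, v' 4, (r4_comm h h').1 h1, fun e => h2 ((r4_cen h').2 e),
      fun e => h3 ((r4_cen_mul h h').1.2 e), fun e => h4 ((r4_cen_mul h h').2.2 e)⟩
  · rintro ⟨b', c', s, t, h1, h2, h3, h4⟩
    have h' : (![0, 0, 0, s, t, 0] : V) 5 = 0 := rfl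
    exact ⟨el ![0, 0, 0, s, t, 0] 0 b' c', r4_mem h', (r4_comm h h').2 h1, 
      fun e => h2 ((r4_cen h').1 e), fun e => h3 ((r4_cen_mul h h').1.1 e),
      fun e => h4 ((r4_cen_mul h h').2.1 e)⟩

theorem r4_cen_aut (α : MulAut R) {z : AG} (hz : z ∈ R) (h : r4Cen z) : r4Cen (totA α z) := by
  intro w hw
  rw [← totA_totA_inv α hw, ← (mulOn_totA α).map_mul hz (totA_mem _ hw), h _ (totA_mem _ hw),
    (mulOn_totA α).map_mul (totA_mem _ hw) hz]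

theorem r4_cen_aut' (α : MulAut R) {z : AG} (hz : z ∈ R) (h : r4Cen (totA α z)) : r4Cen z :=
  totA_inv_totA α hz ▸ r4_cen_aut α⁻¹ (totA_mem _ hz) h

theorem r4_T_aut (α : MulAut R) {x : AG} (hx : x ∈ R) (h : r4T x) : r4T (totA α x) := by
  obtain ⟨z, hz, h1, h2, h3, h4⟩ := h
  have m := mulOn_totA α
  refine ⟨totA α z, totA_mem _ hz, by rw [← m.map_mul hx hz, h1, m.map_mul hz hx],
    fun h => h2 (r4_cen_aut' α hz h), fun h => h3 (r4_cen_aut' α (mul_mem hz hx) ?_),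
    fun h => h4 (r4_cen_aut' α (mul_mem hz (R.inv_mem hx)) ?_)⟩
  · rwa [m.map_mul hz hx]
  · rwa [m.map_mul hz (R.inv_mem hx), m.map_inv hx]

theorem r4_xa_conj (v : V) (b c : K) :
    el 0 1 0 0 * el v 0 b c * (el 0 1 0 0)⁻¹ = el (uf 1 0 0 v) 0 b (c + b) := by
  rw [mul_inv_eq_iff_eq_mul, el_mul, el_mul, el_inj]
  refine ⟨?_, by ring, by ring, by ring⟩
  funext i
  fin_cases i <;> simp [uf]

/-- The commutator of `e 5` with `u 0 b c`. -/
def r4D (b c : K) : V := ![-(c * c), b * c, -(b * b), c, b, 0]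

theorem r4_d : ∀ b c : K, e 5 - uf 0 b c (e 5) = r4D b c := by decide +kernel

theorem r4_y_conj (v : V) (b c : K) :
    jv (e 5) * el v 0 b c * (jv (e 5))⁻¹ = el (r4D b c + v) 0 b c := by
  rw [jv_conj, ← r4_d]
  exact AG.ext rfl (one_mul _)

theorem r4_xa : el 0 1 0 0 ∈ normalizerIn S0 R := by
  refine ⟨el_mem .., mem_normalizer_fintype fun x hx => ?_⟩
  obtain ⟨v, b, c, h, rfl⟩ := r4_ex hx
  rw [r4_xa_conj]
  exact r4_mem (by simp [uf, h])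

theorem r4_y : jv (e 5) ∈ normalizerIn S0 R := by
  refine ⟨J_le_S0 (jv_mem _), mem_normalizer_fintype fun x hx => ?_⟩
  obtain ⟨v, b, c, h, rfl⟩ := r4_ex hx
  rw [r4_y_conj]
  exact r4_mem (by rw [Pi.add_apply, h]; rfl)

theorem r4_xa_not : el 0 1 0 0 ∉ R := fun h => by
  have := u_mem_Bl.1 (mem_hy.1 h).1.1
  simp at this

theorem r4_y_not : jv (e 5) ∉ R := fun h => by
  have := (mem_hy.1 h).2
  simp [e] at this

/-- Automorphisms fixing the four maximal abelian subgroups. -/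
def r4P (k : MulAut R) : Prop := ∀ x ∈ R, r4T x → totA k x * x = x * totA k x

theorem r4P_xa : r4P (cAut R (el 0 1 0 0)) := by
  intro x hx h
  rw [totA_cAut r4_xa.2 hx]
  obtain ⟨v, b, c, h5, rfl⟩ := r4_ex hx
  rw [r4_T h5] at h
  rw [r4_xa_conj, r4_comm (by simp [uf, h5]) h5]
  simp only [r4Cm, uf, h5]
  refine ⟨?_, ?_, ?_⟩ <;> simp
  · linear_combination h
  · ring

theorem r4P.conj {k : MulAut R} (h : r4P k) (l : MulAut R) : r4P (l * k * l⁻¹) := by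
  intro x hx ht
  have h1 := totA_mem l⁻¹ hx
  have h2 := congrArg (totA l) (h _ h1 (r4_T_aut l⁻¹ hx ht))
  rw [(mulOn_totA l).map_mul (totA_mem _ h1) h1, (mulOn_totA l).map_mul h1 (totA_mem _ h1),
    totA_totA_inv l hx] at h2
  rwa [totA_mul _ _ hx, totA_mul _ _ h1]

theorem r4P.map {k : MulAut R} (h : r4P k) {v : V} {b c : K} (h5 : v 5 = 0)
    (hd : b * v 3 = c * v 4) : ∃ v' b' c', v' 5 = 0 ∧ totA k (el v 0 b c) = el v' 0 b' c' ∧
      (b = 0 ∧ c = 0 → b' = 0 ∧ c' = 0) ∧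
      ∀ m : K, v 4 = m * b ∧ v 3 = m * c → v' 4 = m * b' ∧ v' 3 = m * c' := by
  have hx : el v 0 b c ∈ R := r4_mem h5
  obtain ⟨v', b', c', h', e⟩ := r4_ex (totA_mem k hx)
  refine ⟨v', b', c', h', e, ?_⟩
  by_cases hc : b = 0 ∧ c = 0 ∧ v 3 = 0 ∧ v 4 = 0
  · have := r4_cen_aut k hx ((r4_cen h5).2 hc)
    rw [e, r4_cen h'] at this
    obtain ⟨h1, h2, h3, h4⟩ := this
    simp [h1, h2, h3, h4]
  · have := h _ hx ((r4_T h5).2 hd)
    rw [e, r4_comm h' h5] at this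
    exact r4_dec2 _ _ _ _ _ _ _ _ this hc

theorem r4_W {w : V} (h : InW w) : jv w ∈ ⁅R, R⁆ := by
  obtain ⟨h3, h4, h5⟩ := h
  have key : ∀ (v : V) (b c : K), v 5 = 0 → jv (uf 0 b c v - v) ∈ ⁅R, R⁆ := fun v b c hv => by
    have := commutator_mem_commutator (r4_mem (v := 0) (b := b) (c := c) rfl)
      (r4_mem (b := 0) (c := 0) hv)
    rwa [el_zero, commutatorElement_def, conj_jv, jv_inv, jv_mul, ← sub_eq_add_neg] at this
  have := mul_mem (key ![0, 0, 0, w 0, w 1, 0] 0 1 rfl) (key ![0, 0, 0, 0, w 2, 0] 1 0 rfl)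
  rw [jv_mul] at this
  convert this using 2
  funext i
  fin_cases i <;> simp [uf, h3, h4, h5]

theorem r4P.comm {k : MulAut R} (h : r4P k) {z : AG} (hz : z ∈ R) :
    (jv (e 5) * totA k z * (jv (e 5))⁻¹)⁻¹ * totA k (jv (e 5) * z * (jv (e 5))⁻¹) ∈ ⁅R, R⁆ := by
  obtain ⟨v, b, c, h5, rfl⟩ := r4_ex hz
  have m := mulOn_totA k
  have dec : ∀ v : V, el v 0 b c = el v 0 0 0 * el 0 0 b c := fun v => by
    rw [el_mul, el_inj]
    exact ⟨by funext i; fin_cases i <;> simp [uf], by ring, by ring, by ring⟩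
  have hp : el 0 0 b c ∈ R := r4_mem rfl
  set d : V := r4D b c with hd
  have d5 : d 5 = 0 := rfl
  have d4 : d 4 = 1 * b := (one_mul b).symm
  have d3 : d 3 = 1 * c := (one_mul c).symm
  obtain ⟨v1, b1, c1, h1, e1, f1, -⟩ := h.map (b := 0) (c := 0) h5 (by simp)
  obtain ⟨rfl, rfl⟩ := f1 ⟨rfl, rfl⟩
  obtain ⟨v2, b2, c2, h2, e2, -, f2⟩ := h.map (v := 0) (b := b) (c := c) rfl (by simp)
  obtain ⟨g2, g2'⟩ := f2 0 (by simp)
  obtain ⟨v3, b3, c3, h3, e3, f3, -⟩ := h.map (b := 0) (c := 0) d5 (by simp)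
  obtain ⟨rfl, rfl⟩ := f3 ⟨rfl, rfl⟩
  obtain ⟨v4, b4, c4, h4, e4, -, f4⟩ := h.map (b := b) (c := c) d5 (by rw [d3, d4]; ring)
  obtain ⟨g4, g4'⟩ := f4 1 ⟨d4, d3⟩
  rw [dec d, m.map_mul (r4_mem d5) hp, e3, e2, el_mul, el_inj] at e4
  obtain ⟨e4, -, rfl, rfl⟩ := e4
  have a4 := congrFun e4 4
  have a3 := congrFun e4 3
  simp [uf, h2, g2, g2', g4, g4'] at a4 a3
  have e5 : el (d + v) 0 b c = el d 0 0 0 * el v 0 b c := by
    rw [el_mul, el_inj]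
    exact ⟨by rw [uf_zero], by ring, by ring, by ring⟩
  rw [r4_y_conj, e5, m.map_mul (r4_mem d5) (r4_mem h5), e3]
  obtain ⟨v5, e6⟩ : ∃ v5, totA k (el v 0 b c) = el v5 0 b2 c2 := by
    rw [dec v, m.map_mul (r4_mem h5) hp, e1, e2, el_mul]
    exact ⟨_, by rw [el_inj]; exact ⟨rfl, by ring, by ring, by ring⟩⟩
  rw [e6, jv_conj, el_zero, mul_inv_rev, mul_assoc, ← mul_assoc (jv _)⁻¹, jv_inv, jv_mul, ← mul_assoc]
  have := conj_jv (el v5 0 b2 c2)⁻¹ (-(e 5 - (el v5 0 b2 c2).g (e 5)) + v3)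
  rw [inv_inv] at this
  rw [this]
  refine r4_W ?_
  rw [el_g, u_apply, r4_d]
  have k3 : (-r4D b2 c2 + v3) 3 = 0 := by rw [Pi.add_apply, a3]; exact neg_add_cancel _
  have k4 : (-r4D b2 c2 + v3) 4 = 0 := by rw [Pi.add_apply, a4]; exact neg_add_cancel _
  have k5 : (-r4D b2 c2 + v3) 5 = 0 := by rw [Pi.add_apply, h3, add_zero]; exact neg_zero
  generalize -r4D b2 c2 + v3 = w at k3 k4 k5
  simp [InW, u_inv, u_apply, uf, k3, k4, k5]

theorem r4_inn {F : FS} (hrad : F.IsRadical 3 R) {α : MulAut R} (hα : α ∈ F.autGroup R)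
    (h : ∀ x ∈ R, x⁻¹ * totA α x ∈ ⁅R, R⁆) : α ∈ Inn R := by
  let C : ℕ → Subgroup AG := fun i => [R, ⁅R, R⁆].getD i ⊥
  have hK : IsPGroup 3 (chainStab R C 1) :=
    isPGroup_chainStab (isPGroup_S0.to_le r4_le) rfl le_sup_left
  have hI : InvA (⊤ : Subgroup (MulAut R)) ⁅R, R⁆ := (invA_top _).commutator (invA_top _)
  have hIC : ∀ l : MulAut R, ∀ i ≤ 1, l ∈ stabA R (C i) := fun l i hi => by
    interval_cases i
    exacts [(invA_top ⊤).le_stabA (mem_top l), hI.le_stabA (mem_top l)]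
  refine hrad.le_inn (A := chainStab R C 1 ⊓ F.autGroup R) inf_le_right
    (fun l hl => mem_normalizer_iff.2 fun β => ⟨fun hβ => ⟨conj_mem_chainStab hβ.1 (hIC l),
      mul_mem (mul_mem hl hβ.2) (Subgroup.inv_mem _ hl)⟩, fun hβ => ⟨?_, ?_⟩⟩)
    (hK.to_le inf_le_left) ⟨?_, hα⟩
  · simpa [mul_assoc] using conj_mem_chainStab hβ.1 (hIC l⁻¹)
  · simpa [mul_assoc] using mul_mem (mul_mem (Subgroup.inv_mem _ hl) hβ.2) hl
  · refine mem_chainStab_of le_rfl ?_ ?_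
    · intro i hi
      interval_cases i
      exact hI.1
    · intro i hi
      interval_cases i
      exact h

theorem not_ess_R {F : FS} (hF : F.IsSaturated 3) : ¬ F.IsEssential 3 R := by
  intro hE
  have d := hE.essData hF isPGroup_S0
  obtain ⟨l, hl, hlH⟩ := d.exists_not_mem
  refine hlH (d.mem_of_conj_cAut isPGroup_S0 r4_xa r4_xa_not hl ?_)
  have hP := r4P_xa.conj l
  have hk : l * cAut R (el 0 1 0 0) * l⁻¹ ∈ F.autGroup R :=
    mul_mem (mul_mem hl (F.cAut_mem_autGroup r4_le r4_xa)) (Subgroup.inv_mem _ hl)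
  generalize l * cAut R (el 0 1 0 0) * l⁻¹ = k at hP hk
  refine d.mem_of_conj_cAut isPGroup_S0 r4_y r4_y_not hk ?_
  have hy := F.cAut_mem_autGroup r4_le r4_y
  have hδ : k * cAut R (jv (e 5)) * k⁻¹ * (cAut R (jv (e 5)))⁻¹ ∈ Inn R := by
    refine r4_inn (hE.isRadical isPGroup_S0)
      (mul_mem (mul_mem (mul_mem hk hy) (Subgroup.inv_mem _ hk)) (Subgroup.inv_mem _ hy))
      fun x hx => ?_
    have h1 := totA_mem (cAut R (jv (e 5)))⁻¹ hx
    have h2 := totA_mem k⁻¹ h1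
    have h3 := hP.comm h2
    rw [← totA_cAut r4_y.2 h2, ← totA_cAut r4_y.2 (totA_mem _ h2), totA_totA_inv k h1,
      totA_totA_inv _ hx] at h3
    rwa [totA_mul _ _ hx, totA_mul _ _ h1, totA_mul _ _ h2]
  have := mul_mem (d.autS_le (inn_le_autInducedBy r4_le hδ)) (d.cAut_mem r4_y)
  rwa [inv_mul_cancel_right] at this

end Cfsg.Agent.C3
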