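import Mathlib
import Cfsg.Agent.C3.Pair
import Cfsg.Agent.C3.Cl
import Cfsg.Agent.C3.CaA
import Cfsg.Agent.C3.R4
import Cfsg.Agent.Fus.Normal

set_option autoImplicit false
set_option linter.unusedVariables false

namespace Cfsg.Agent.C3

open Cfsg Cfsg.FusionSystem Cfsg.Agent.Fus Subgroup

/-- A lift of an element of `U` to a subgroup of `AG`. -/
theorem caB_lift {A : Subgroup AG} {a b c : K} (h : u a b c ∈ A.map proj) : ∃ v, el v a b c ∈ A := by
  obtain ⟨x, hx, e⟩ := h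
  exact ⟨x.v, (show x = el x.v a b c from AG.ext rfl e) ▸ hx⟩

theorem caB_le {E A : Subgroup AG} (h : Pair E A) (ht : Ty E A (fun v => v 5 = 0) InW Bb) :
    E ≤ Ec := by
  obtain ⟨v, hv⟩ := caB_lift (ht.hB.ge (u_mem_Bl.2 (by simp) : u 0 1 0 ∈ Bb))
  obtain ⟨w, hw⟩ := caB_lift (ht.hB.ge (u_mem_Bl.2 (by simp) : u 0 0 1 ∈ Bb))
  have h1 := congrArg (fun z : A => (z : AG).v) (h.ea.1.is_comm.comm ⟨_, hv⟩ ⟨_, hw⟩)
  have h2 := congrFun h1 2
  have h4 := congrFun h1 4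
  simp [u_apply, uf] at h2 h4
  have h5 : w 5 = 0 := by
    have : ∀ x y z : K, x + (y + 2 * z) = y + x → z = 0 := by decide
    exact this _ _ _ h4
  have h6 : w 4 = 0 := by
    rw [h5] at h2
    linear_combination h2
  intro g hg
  obtain ⟨z, a, b, c, rfl⟩ := exists_el (h.leS hg)
  refine ⟨⟨u_mem .., u_mem ..⟩, ?_⟩
  have h7 := mul_mem ((mem_normalizer_iff.1 (h.norm hg) _).1 hw) (inv_mem hw)
  obtain ⟨t, e⟩ := exists_jv (x := el z a b c * el w 0 0 1 * (el z a b c)⁻¹ * (el w 0 0 1)⁻¹)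
    (mem_J.2 (by simp [u_mul, u_inv, u_eq_one]; ring))
  rw [e, ht.hA] at h7
  rw [mul_inv_eq_iff_eq_mul, mul_inv_eq_iff_eq_mul] at e
  have h8 := congrFun (congrArg AG.v e) 3
  simp [u_apply, uf, gl_one_apply, h5, h6, h7.1] at h8
  have : ∀ x y z : K, x + y = y + (x + 2 * z) → z = 0 := by decide
  exact this _ _ _ h8

theorem caB_mem {E A : Subgroup AG} (h : Pair E A) (ht : Ty E A (fun v => v 5 = 0) InW Bb)
    {r : AG} (hr : r ∈ Ec) (hB : r.g ∈ E.map proj) : r ∈ E := by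
  obtain ⟨p, hp, e⟩ := hB
  obtain ⟨t, e'⟩ := exists_jv (x := r * p⁻¹) (mem_J.2 (by rw [mul_g, inv_g, ← e]; simp))
  have h1 := mul_mem hr (inv_mem (caB_le h ht hp))
  rw [e'] at h1
  have h2 := (ht.hE t).2 h1.2
  rw [← e'] at h2
  simpa using mul_mem h2 hp

theorem Pair.eq_of_ty5 {E A : Subgroup AG} (h : Pair E A)
    (ht : Ty E A (fun v => v 5 = 0) InW Bb) : E = R ∨ E = Ec := by
  have hb : Bb ≤ E.map proj := ht.hB.ge.trans (map_mono h.le)
  by_cases hB : E.map proj ≤ Bb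
  · exact Or.inl (le_antisymm (fun x hx => ⟨⟨hB ⟨x, hx, rfl⟩, h.leS hx⟩, (caB_le h ht hx).2⟩)
      fun x hx => caB_mem h ht ⟨⟨hx.1.2, hx.1.2⟩, hx.2⟩ (hb hx.1.1))
  obtain ⟨g, hg, hg'⟩ := SetLike.not_le_iff_exists.1 hB
  obtain ⟨a, b, c, rfl⟩ := (map_le_iff_le_comap.2 h.leS : E.map proj ≤ U) hg
  have h1 : u a 0 0 ∈ E.map proj := by
    simpa [u_mul] using mul_mem hg (hb (u_mem_Bl.2 (by simp) : u 0 (-b) (a * b - c) ∈ Bb))
  have h2 : u 1 0 0 ∈ E.map proj := by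
    have h3 : ∀ a : K, a = 0 ∨ a = 1 ∨ a + a = 1 := by decide
    rcases h3 a with rfl | rfl | h3
    · exact absurd (u_mem_Bl.2 (by simp)) hg'
    · exact h1
    · simpa [u_mul, h3] using mul_mem h1 h1
  exact Or.inr (le_antisymm (caB_le h ht) fun x hx =>
    caB_mem h ht hx (U_le_of h2 (hb (u_mem_Bl.2 (by simp))) hx.1.1))

/-- The only essential subgroup not containing `J`. -/
theorem ess_cases {F : FS} (hF : F.IsSaturated 3) {E : Subgroup AG} (hE : F.IsEssential 3 E) :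
    J ≤ E ∨ E = Ec := by
  refine or_iff_not_imp_left.2 fun hJ => ?_
  obtain ⟨A, hA⟩ := exists_pair hF hE hJ
  rcases hA.ty with ⟨t, ht⟩ | ⟨q, ht⟩ | ht
  · exact (not_ty3 hF hE hA ht).elim
  · exact (not_tyW hF hE hA ht).elim
  · exact (hA.eq_of_ty5 ht).resolve_left fun e => not_ess_R hF (e ▸ hE)

theorem ess_Ec {F : FS} (hF : F.IsSaturated 3) (hc : F.core = ⊥) : F.IsEssential 3 Ec := by
  by_contra h
  have hJ : F.IsNormal J := hF.isNormal_of_alperin isPGroup_S0 fun Q hQ => by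
    have h1 : J ≤ Q := by
      rcases hQ with rfl | hQ
      · exact J_le_S0
      · exact (ess_cases hF hQ).resolve_right fun e => h (e ▸ hQ)
    exact ⟨h1, fun g hg x hx => mor_J hg.mor h1 hx⟩
  have h2 := mem_bot.1 (hc ▸ hJ.le_core (jv_mem (e 0)))
  rw [← jv_zero, jv_inj] at h2
  exact absurd h2 (by decide)

end Cfsg.Agent.C3
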