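import Mathlib
import Cfsg.Agent.C3.Basic
import Cfsg.Agent.Fus.Core
import Cfsg.Agent.Fus.InvGroup

set_option autoImplicit false
set_option linter.unusedVariables false

namespace Cfsg.Agent.C3

open Cfsg Cfsg.FusionSystem Cfsg.Agent.Fus Subgroup

theorem emb_J_le {N : Subgroup AG} (hn : S0 ≤ normalizer (N : Set AG)) (h0 : jv (e 0) ∈ N) {v : V}
    (hv : jv v ∈ N) (h5 : v 5 ≠ 0) : J ≤ N := by
  let P : Submodule K V :=
    { carrier := {w | jv w ∈ N}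
      zero_mem' := N.one_mem
      add_mem' := fun {a b} ha hb => by
        have := N.mul_mem ha hb
        rwa [jv_mul] at this
      smul_mem' := fun k w hw => by
        have : ∀ k : K, k = 0 ∨ k = 1 ∨ k = -1 := by decide
        rcases this k with rfl | rfl | rfl
        · rw [zero_smul]; exact N.one_mem
        · rwa [one_smul]
        · have := N.inv_mem hw
          rwa [jv_inv, ← neg_one_smul K] at this }
  have hj : ∀ w ∈ P, ∀ a b c, uf a b c w - w ∈ P := fun w hw a b c => by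
    have := (mem_normalizer_iff.1 (hn (el_mem 0 a b c)) _).1 hw
    rw [conj_jv] at this
    exact P.sub_mem this hw
  have key : ∀ v : V, v 5 ≠ 0 →
      e 2 = (-v 5) • (uf 0 1 0 (uf 0 1 0 v - v) - (uf 0 1 0 v - v)) ∧
      e 3 = (-v 5) • (uf 0 0 1 v - v - (v 3 + v 5) • e 0 - v 4 • e 1) ∧
      e 4 = (-v 5) • (uf 0 1 0 v - v - v 3 • e 1 - (v 4 + v 5) • e 2) ∧
      e 5 = v 5 • (v - v 0 • e 0 - v 1 • e 1 - v 2 • e 2 - v 3 • e 3 - v 4 • e 4) := by
    rw [forall_V]; decide +kernel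
  obtain ⟨k2, k3, k4, k5⟩ := key v h5
  replace h0 : e 0 ∈ P := h0
  replace hv : v ∈ P := hv
  have h2 : e 2 ∈ P := k2 ▸ P.smul_mem _ (hj _ (hj _ hv ..) ..)
  have h1 : e 1 ∈ P := by
    rw [show e 1 = e 0 - (uf 1 0 0 (e 2) - e 2) by decide +kernel]
    exact P.sub_mem h0 (hj _ h2 ..)
  have h3 : e 3 ∈ P := k3 ▸ P.smul_mem _
    (P.sub_mem (P.sub_mem (hj _ hv ..) (P.smul_mem _ h0)) (P.smul_mem _ h1))
  have h4 : e 4 ∈ P := k4 ▸ P.smul_mem _
    (P.sub_mem (P.sub_mem (hj _ hv ..) (P.smul_mem _ h1)) (P.smul_mem _ h2))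
  have h5 : e 5 ∈ P := k5 ▸ P.smul_mem _ (P.sub_mem (P.sub_mem (P.sub_mem (P.sub_mem
    (P.sub_mem hv (P.smul_mem _ h0)) (P.smul_mem _ h1)) (P.smul_mem _ h2)) (P.smul_mem _ h3))
    (P.smul_mem _ h4))
  intro x hx
  obtain ⟨w, rfl⟩ := exists_jv hx
  have : w = ∑ i, w i • e i := by
    funext i; simp [e, Finset.sum_apply, Pi.single_apply]
  refine show w ∈ P from this ▸ P.sum_mem fun i _ => P.smul_mem _ ?_
  fin_cases i <;> assumption

theorem emb_mor {G : Type} [Group G] {j : AG → G} {F : FS} (h : F.Realizes j ⊤) {x y : AG}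
    (hx : x ∈ S0) (hy : y ∈ S0) {g : G} (e : g * j x * g⁻¹ = j y) :
    ∃ f, F.Mor (zpowers x) f ∧ f x = y := by
  obtain ⟨f, hf, e'⟩ := h.exists_mor (zpowers_le.2 hx) (mem_top g) (by
    rintro _ ⟨k, rfl⟩
    rw [h.mulOn.map_zpow hx, ← conj_zpow, e]
    exact zpow_mem (mem_img_of_mem hy) k)
  exact ⟨f, hf, h.inj _ (hf.mem (mem_zpowers x)) _ hy ((e' x (mem_zpowers x)).trans e)⟩

theorem Emb.exists {G : Type} [Group G] [Finite G] {j : AG → G} (h : Emb j) :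
    ∃ F : FS, Rz F ∧ F.IsSaturated 3 ∧ F.core = ⊥ ∧ ∀ M, M ∈ XF F ↔ Ind j M := by
  have h1 : ∀ y ∈ img j S0, Function.invFunOn j S0 y ∈ S0 ∧ j (Function.invFunOn j S0 y) = y :=
    fun y hy => Function.invFunOn_pos (h.mulOn.mem_img.1 hy)
  have h2 : ∀ x ∈ S0, Function.invFunOn j S0 (j x) = x := fun x hx =>
    h.inj _ (h1 _ (mem_img_of_mem hx)).1 _ hx (h1 _ (mem_img_of_mem hx)).2
  obtain ⟨F, hF⟩ := (groupFusionSystem (img j S0)).exists_isIsoVia (θ := Function.invFunOn j S0)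
    (η := j) (S' := S0) (fun a ha b hb => by
      obtain ⟨a, ha', rfl⟩ := h.mulOn.mem_img.1 ha
      obtain ⟨b, hb', rfl⟩ := h.mulOn.mem_img.1 hb
      rw [← h.mulOn a ha' b hb', h2 _ ha', h2 _ hb', h2 _ (mul_mem ha' hb')])
    (le_antisymm (img_le_iff.2 fun y hy => (h1 y hy).1) fun x hx =>
      h2 x hx ▸ mem_img_of_mem (mem_img_of_mem hx)) fun y hy => (h1 y hy).2
  have hR : F.Realizes j ⊤ := hF.symm.realizes realizes_group
  refine ⟨F, ⟨G, _, inferInstance, j, hR, h.idx⟩,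
    hR.isSaturated isPGroup_S0 (by rw [relIndex_top_right]; exact h.idx), by_contra fun hne => ?_,
    fun M => ?_⟩
  · have hC := F.isNormal_core
    have h0 := e0_mem_of_normal hC.le hC.le_normalizer hne
    obtain ⟨g, v, h5, e1⟩ := h.zy
    obtain ⟨f, hf, e2⟩ := emb_mor hR (J_le_S0 (jv_mem _)) (J_le_S0 (jv_mem _)) e1
    have hJ := emb_J_le hC.le_normalizer h0
      (e2 ▸ hC.stronglyClosed.mem hf (mem_zpowers _) h0) h5
    obtain ⟨g, v, x, hx, hx', e1⟩ := h.out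
    obtain ⟨f, hf, rfl⟩ := emb_mor hR (J_le_S0 (jv_mem _)) hx e1
    obtain ⟨k, hk, e3, -⟩ := hC.extend hf
    exact hx' (e3 _ (mem_zpowers _) ▸ mor_J hk (hJ.trans le_sup_right) (jv_mem v))
  · rw [XF, Set.mem_ofPred_eq, hR.mor_iff]
    refine ⟨fun ⟨_, _, g, _, e⟩ => ⟨g, fun v => (e _ (jv_mem v)).symm⟩,
      fun ⟨g, e⟩ => ⟨J_le_S0, fun _ _ => J_le_S0 (jv_mem _), g, mem_top g, fun x hx => ?_⟩⟩
    obtain ⟨v, rfl⟩ := exists_jv hx
    exact (e v).symm

theorem emb_img_J {F F' : FS} {θ η : AG → AG} (h : F.IsIsoVia F' θ η) : img θ J = J := by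
  have hm := fun y => h.mulOn.mem_img_of_le (y := y) J_le_S0
  refine eq_J (h.img_le J_le_S0) ⟨⟨⟨fun a b => Subtype.ext ?_⟩⟩, fun y hy => ?_⟩
    ((h.card_img J_le_S0).trans card_J)
  · obtain ⟨x, hx, e⟩ := (hm _).1 a.2
    obtain ⟨y, hy, e'⟩ := (hm _).1 b.2
    obtain ⟨v, rfl⟩ := exists_jv hx
    obtain ⟨w, rfl⟩ := exists_jv hy
    rw [coe_mul, coe_mul, ← e, ← e', ← h.mulOn _ (J_le_S0 hx) _ (J_le_S0 hy),
      ← h.mulOn _ (J_le_S0 hy) _ (J_le_S0 hx), jv_mul, jv_mul, add_comm]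
  · obtain ⟨x, hx, rfl⟩ := (hm _).1 hy
    rw [← h.mulOn.map_pow (J_le_S0 hx), ea_J.2 x hx, h.mulOn.map_one]

theorem emb_jv {F F' : FS} {θ η : AG → AG} (h : F.IsIsoVia F' θ η) (v : V) :
    jv (θ (jv v)).v = θ (jv v) := by
  obtain ⟨w, e⟩ := exists_jv (emb_img_J h ▸ mem_img_of_mem (f := θ) (jv_mem v))
  rw [e, jv_v]

theorem XF_iso {F F' : FS} {θ η : AG → AG} (h : F.IsIsoVia F' θ η) :
    ∃ t : GL6, ∀ M, M ∈ XF F ↔ t * M * t⁻¹ ∈ XF F' := by
  let t := mkL (fun v => (θ (jv v)).v) (fun v => (η (jv v)).v)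
    (fun v w => jv_inj.1 (by
      rw [emb_jv h, ← jv_mul (θ _).v, emb_jv h, emb_jv h, ← jv_mul,
        h.mulOn _ (J_le_S0 (jv_mem v)) _ (J_le_S0 (jv_mem w))]))
    (fun v => by simp only [emb_jv h, h.left _ (J_le_S0 (jv_mem v)), jv_v])
    (fun v => by simp only [emb_jv h.symm, h.right _ (J_le_S0 (jv_mem v)), jv_v])
  refine ⟨t, fun M => ?_⟩
  have := h.mor_iff_of_compat (f := fun x => jv (M x.v)) (f' := fun x => jv ((t * M * t⁻¹) x.v))
    J_le_S0 (fun _ _ => J_le_S0 (jv_mem _)) fun x hx => by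
      obtain ⟨v, rfl⟩ := exists_jv hx
      rw [gl_mul_apply, gl_mul_apply, show (θ (jv v)).v = t v from rfl, gl_inv_apply]
      exact emb_jv h _
  rw [emb_img_J h] at this
  exact this.symm

theorem Rz.of_iso {F F' : FS} {θ η : AG → AG} (h : Rz F') (hi : F.IsIsoVia F' θ η) : Rz F := by
  obtain ⟨G, _, _, j, h, e⟩ := h
  exact ⟨G, _, inferInstance, _, hi.realizes h, by rwa [hi.mulOn.img_comp, hi.img_top]⟩

theorem Rz.isRealizable {F : FS} (h : Rz F) {Ω : Type*} [Group Ω] {S : Subgroup Ω}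
    {E : FusionSystem S} {θ : Ω → AG} {η : AG → Ω} (hi : E.IsIsoVia F θ η) (hS : IsPGroup 3 S) :
    E.IsRealizable 3 := by
  obtain ⟨G, _, _, j, h, e⟩ := h
  let π : G ≃* ULift G := MulEquiv.ulift.symm
  have h2 := hi.realizes (h.quot isPGroup_S0 e π.toMonoidHom π.surjective (by
    rw [π.toMonoidHom.ker_eq_bot_iff.2 π.injective, inf_bot_eq]))
  refine ⟨_, inferInstance, inferInstance, _, h2.isRealizedBy, h2.exists_sylow hS ?_⟩
  rwa [hi.mulOn.img_comp (k := fun x => π.toMonoidHom (j x)), hi.img_top,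
    h.img_comp_hom, index_map_of_bijective π.bijective]

theorem Emb.ind_one {G : Type} [Group G] [Finite G] {j : AG → G} (h : Emb j)
    (h11 : ¬ 11 ∣ Nat.card G) {M : GL6} (hM : Ind j M) (h1 : M ^ 11 = 1) : M = 1 := by
  obtain ⟨g, e⟩ := hM
  have key : ∀ (n : ℕ) v, g ^ n * j (jv v) * (g ^ n)⁻¹ = j (jv ((M ^ n) v)) := fun n => by
    induction n with
    | zero => intro v; simp
    | succ n ih =>
      intro v
      rw [pow_succ' M, gl_mul_apply, ← e, ← ih, pow_succ']; group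
  have h2 : M ^ Nat.card G = 1 := LinearEquiv.ext fun v => by
    have := key (Nat.card G) v
    rw [pow_card_eq_one', one_mul, inv_one, mul_one] at this
    exact (jv_inj.1 (h.inj _ (J_le_S0 (jv_mem _)) _ (J_le_S0 (jv_mem _)) this)).symm
  exact (pow_eq_one_iff_of_coprime
    ((Nat.Prime.coprime_iff_not_dvd (by norm_num)).2 h11)).1 ⟨h1, h2⟩

/-- A Sylow 3-subgroup of `G` is isomorphic to `S0`. -/
theorem Emb.equiv {G : Type} [Group G] [Finite G] {j : AG → G} (h : Emb j) (T : Sylow 3 G) :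
    Nonempty ((T : Subgroup G) ≃* S0) := by
  have hi : Function.Injective h.mulOn.hom := fun x y e => Subtype.ext (h.inj _ x.2 _ y.2 e)
  exact ⟨(T.equiv ((isPGroup_img h.mulOn isPGroup_S0).toSylow h.idx)).trans
    ((MulEquiv.subgroupCongr h.mulOn.img_eq_range).trans (MonoidHom.ofInjective hi).symm)⟩

end Cfsg.Agent.C3
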