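import Mathlib
import Cfsg.Agent.C3.Basic

/-!
# Coding of `V = F₃⁶` by naturals below 729, orbit certificates and counting
-/

set_option autoImplicit false

namespace Cfsg.Agent.C3.OK

open Cfsg Cfsg.Agent.C3 Subgroup

def dec (n : ℕ) : V :=
  ![(n : K), ((n / 3 : ℕ) : K), ((n / 9 : ℕ) : K), ((n / 27 : ℕ) : K), ((n / 81 : ℕ) : K),
    ((n / 243 : ℕ) : K)]

def enc (v : V) : ℕ :=
  (v 0).val + 3 * (v 1).val + 9 * (v 2).val + 27 * (v 3).val + 81 * (v 4).val + 243 * (v 5).val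

theorem dec_enc (v : V) : dec (enc v) = v := by
  revert v
  rw [forall_V]
  decide +kernel

theorem enc_lt (v : V) : enc v < 729 := by
  have h : ∀ x : K, x.val < 3 := fun x => ZMod.val_lt x
  have := h (v 0); have := h (v 1); have := h (v 2); have := h (v 3); have := h (v 4)
  have := h (v 5)
  unfold enc; omega

theorem enc_dec : ∀ n < 729, enc (dec n) = n := by decide +kernel

/-- Addition of codes. -/
def addc (a b : ℕ) : ℕ :=
  (a + b) % 3 + 3 * ((a / 3 + b / 3) % 3) + 9 * ((a / 9 + b / 9) % 3) + 27 * ((a / 27 + b / 27) % 3) +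
    81 * ((a / 81 + b / 81) % 3) + 243 * ((a / 243 + b / 243) % 3)

theorem val_cast_add (a b : ℕ) : ((a : K) + (b : K)).val = (a + b) % 3 := by
  rw [← Nat.cast_add, ZMod.val_natCast]

theorem enc_add (a b : ℕ) : enc (dec a + dec b) = addc a b := by
  simp only [enc, dec, addc, Pi.add_apply, Matrix.cons_val_zero, Matrix.cons_val_one,
    Matrix.cons_val, val_cast_add]

theorem dec_addc (a b : ℕ) : dec (addc a b) = dec a + dec b := by rw [← enc_add, dec_enc]

theorem addc_lt (a b : ℕ) : addc a b < 729 := by rw [← enc_add]; exact enc_lt _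

theorem dec_one : dec 1 = e 0 := by decide +kernel

theorem dec_zero : dec 0 = 0 := by decide +kernel

/-- Table lookup. -/
def tb (t w n : ℕ) : ℕ := (t >>> (w * n)) % 2 ^ w

/-- Orbit certificate. -/
theorem cert (O : Set V) (gs : List (V → V)) (hg : ∀ f ∈ gs, ∀ v, f v ∈ O ↔ v ∈ O)
    (st gi lab rep : ℕ → ℕ) (D : ℕ) (h : ∀ n < 729, st n = enc (gs.getD (gi n) id (dec n)))
    (h2 : ∀ n < 729, st^[D] n = rep (lab n)) {n : ℕ} (hn : n < 729) :
    dec n ∈ O ↔ dec (rep (lab n)) ∈ O := by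
  have step : ∀ n < 729, st n < 729 ∧ (dec (st n) ∈ O ↔ dec n ∈ O) := by
    intro n hn
    rw [h n hn, dec_enc]
    refine ⟨enc_lt _, ?_⟩
    rcases lt_or_ge (gi n) gs.length with hl | hl
    · rw [List.getD_eq_getElem _ _ hl]; exact hg _ (List.getElem_mem hl) _
    · rw [List.getD_eq_default _ _ hl]; rfl
  have it : ∀ k, ∀ n < 729, (dec (st^[k] n) ∈ O ↔ dec n ∈ O) := by
    intro k
    induction k with
    | zero => intro n _; rfl
    | succ k ih =>
      intro n hn
      rw [Function.iterate_succ_apply, ih _ (step n hn).1, (step n hn).2]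
  rw [← h2 n hn, it D n hn]

/-- The number of codes satisfying `f`. -/
def cnt (f : ℕ → Bool) : ℕ := ((Finset.range 729).filter fun n => f n = true).card

theorem ncard_eq (S : Set V) (f : ℕ → Bool) (h : ∀ n < 729, dec n ∈ S ↔ f n = true) :
    S.ncard = cnt f := by
  have : S = dec '' ↑((Finset.range 729).filter fun n => f n = true) := by
    ext v
    constructor
    · intro hv
      refine ⟨enc v, ?_, dec_enc v⟩
      simp only [Finset.coe_filter, Finset.mem_range, Set.mem_setOf_eq]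
      exact ⟨enc_lt v, (h _ (enc_lt v)).1 (by rwa [dec_enc])⟩
    · rintro ⟨n, hn, rfl⟩
      simp only [Finset.coe_filter, Finset.mem_range, Set.mem_setOf_eq] at hn
      exact (h n hn.1).2 hn.2
  rw [this, Set.InjOn.ncard_image, Set.ncard_coe_finset, cnt]
  intro a ha b hb hab
  simp only [Finset.coe_filter, Finset.mem_range, Set.mem_setOf_eq] at ha hb
  rw [← enc_dec a ha.1, hab, enc_dec b hb.1]

theorem orb_iff {X : Subgroup GL6} {g : GL6} (hg : g ∈ X) (v : V) : g v ∈ orb X ↔ v ∈ orb X :=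
  ⟨fun h => by simpa [gl_inv_apply] using orb_apply h (inv_mem hg), fun h => orb_apply h hg⟩

theorem orb_neg_iff {X : Subgroup GL6} (v : V) : -v ∈ orb X ↔ v ∈ orb X :=
  ⟨fun h => by simpa using orb_neg h, orb_neg⟩

/-- A vector of the orbit is the image of `e 0` under a linear bijection preserving the orbit. -/
theorem exists_map {X : Subgroup GL6} {v : V} (hv : v ∈ orb X) :
    ∃ g : GL6, g (e 0) = v ∧ ∀ w, g w ∈ orb X ↔ w ∈ orb X := by
  obtain ⟨g, hg, h | h⟩ := hv
  · exact ⟨g, h.symm, orb_iff hg⟩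
  · refine ⟨g.trans (LinearEquiv.neg K), h.symm, fun w => ?_⟩
    change -g w ∈ orb X ↔ _
    rw [orb_neg_iff, orb_iff hg]

theorem orb_n5 {X : Subgroup GL6} {v : V} (hv : v ∈ orb X) :
    {q | q ∈ orb X ∧ v + q ∈ orb X ∧ v + q + q ∈ orb X}.ncard =
      {q | q ∈ orb X ∧ e 0 + q ∈ orb X ∧ e 0 + q + q ∈ orb X}.ncard := by
  obtain ⟨g, rfl, hg⟩ := exists_map hv
  rw [← Set.ncard_image_of_injective {q | q ∈ orb X ∧ e 0 + q ∈ orb X ∧ e 0 + q + q ∈ orb X}
    g.injective]
  congr 1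
  ext q
  obtain ⟨q, rfl⟩ := g.surjective q
  rw [g.injective.mem_set_image]
  simp only [Set.mem_setOf_eq, ← map_add, hg]

def c3 (t : ℕ → Bool) (p : ℕ) : ℕ := cnt fun n => t n && t (addc p n)

def c5 (t : ℕ → Bool) (p : ℕ) : ℕ := cnt fun n => t n && (t (addc p n) && t (addc (addc p n) n))

theorem c3_eq {X : Subgroup GL6} {t : ℕ → Bool} (ht : ∀ n < 729, dec n ∈ orb X ↔ t n = true)
    {p : ℕ} (hp : dec p ∈ orb X) : c3 t p = c3 t 1 := by
  have key : ∀ p, {q | q ∈ orb X ∧ dec p + q ∈ orb X}.ncard = c3 t p := fun p =>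
    ncard_eq _ _ fun n hn => by
      rw [Set.mem_setOf_eq, ← dec_addc, ht n hn, ht _ (addc_lt _ _), Bool.and_eq_true]
  rw [← key, ← key, dec_one, orb_n3 hp]

theorem c5_eq {X : Subgroup GL6} {t : ℕ → Bool} (ht : ∀ n < 729, dec n ∈ orb X ↔ t n = true)
    {p : ℕ} (hp : dec p ∈ orb X) : c5 t p = c5 t 1 := by
  have key : ∀ p, {q | q ∈ orb X ∧ dec p + q ∈ orb X ∧ dec p + q + q ∈ orb X}.ncard = c5 t p :=
    fun p => ncard_eq _ _ fun n hn => by
      rw [Set.mem_setOf_eq, ← dec_addc, ← dec_addc, ht n hn, ht _ (addc_lt _ _),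
        ht _ (addc_lt _ _), Bool.and_eq_true, Bool.and_eq_true]
  rw [← key, ← key, dec_one, orb_n5 hp]

end Cfsg.Agent.C3.OK
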