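import Mathlib
import Cfsg.Agent.C3.Basic
import Cfsg.Agent.C3.OrbK

set_option autoImplicit false

namespace Cfsg.Agent.C3.OK

open Cfsg Cfsg.Agent.C3 Subgroup

theorem neg_e0 : -e 0 = e 0 + e 0 := by decide +kernel

theorem e0_three : e 0 + e 0 + e 0 = 0 := by decide +kernel

/-- A subset described by `±e 0` and an invariant set `S` is invariant. -/
theorem inI_map (S : Set V)
    (hS : ∀ v, InI v ↔ (v = 0 ∨ Pz v) ∨ (v ∈ S ∧ v + e 0 ∈ S ∧ v + e 0 + e 0 ∈ S))
    {g : GL6} (hg : ∀ w, g w ∈ S ↔ w ∈ S) (h0 : Pz (g (e 0))) {v : V} (hv : InI v) :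
    InI (g v) := by
  rw [hS] at hv ⊢
  rcases hv with (rfl | rfl | rfl) | ⟨a, b, c⟩
  · exact Or.inl (Or.inl (map_zero g))
  · exact Or.inl (Or.inr h0)
  · refine Or.inl (Or.inr ?_)
    rw [map_neg]
    rcases h0 with h | h <;> rw [h]
    · exact Or.inr rfl
    · exact Or.inl (neg_neg _)
  · right
    rw [← hg] at a b c
    simp only [map_add] at b c
    rcases h0 with h | h <;> rw [h] at b c
    · exact ⟨a, b, c⟩
    · refine ⟨a, ?_, ?_⟩
      · convert c using 1
        have := e0_three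
        linear_combination this
      · convert b using 1
        have := e0_three
        linear_combination this

theorem gens_mem (l : K) : u 1 0 0 ∈ X1 l ∧ u 0 1 0 ∈ X1 l ∧ wb 0 ∈ X1 l ∧ wa l ∈ X1 l :=
  ⟨subset_closure (by simp), subset_closure (by simp), subset_closure (by simp),
    subset_closure (by simp)⟩

def gsF (l : K) : List (V → V) := [fun v => -v, uf 1 0 0, uf 0 1 0, wbf 0, waf l]

theorem gsF_iff {X : Subgroup GL6} {l : K} (hX : X1 l ≤ X) :
    ∀ f ∈ gsF l, ∀ v, f v ∈ orb X ↔ v ∈ orb X := by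
  intro f hf v
  obtain ⟨a, b, c, d⟩ := gens_mem l
  simp only [gsF, List.mem_cons, List.not_mem_nil, or_false] at hf
  rcases hf with rfl | rfl | rfl | rfl | rfl
  · exact orb_neg_iff v
  · exact orb_iff (hX a) v
  · exact orb_iff (hX b) v
  · exact orb_iff (hX c) v
  · exact orb_iff (hX d) v

theorem dec_addc_one (n : ℕ) : dec (addc n 1) = dec n + e 0 := by rw [dec_addc, dec_one]

end Cfsg.Agent.C3.OK
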