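import Mathlib
import Cfsg.Agent.C3.CaB
import Cfsg.Agent.Fus.Normal

/-! The automizer of `Ec`, and the comparison of fusion systems by Alperin's theorem. -/

set_option autoImplicit false
set_option linter.unusedVariables false

namespace Cfsg.Agent.C3

open Cfsg Cfsg.FusionSystem Cfsg.Agent.Fus Subgroup
open scoped commutatorElement

namespace Gen

theorem k3 : ∀ k : K, k = 0 ∨ k = 1 ∨ k = -1 := by decide

theorem uf4 (a b c : K) (v : V) : uf a b c v 4 = v 4 + 2 * b * v 5 := rfl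

theorem uf5 (a b c : K) (v : V) : uf a b c v 5 = v 5 := rfl

theorem Ec_le : Ec ≤ S0 := fun _ h => h.1.1

theorem el_Ec {v : V} {a b c : K} : el v a b c ∈ Ec ↔ v 5 = 0 :=
  ⟨fun h => h.2, fun h => ⟨⟨u_mem .., u_mem ..⟩, h⟩⟩

theorem jv_Ec {v : V} : jv v ∈ Ec ↔ v 5 = 0 := el_zero v ▸ el_Ec

/-- The vectors lying in a subgroup. -/
def vs (N : Subgroup AG) : AddSubgroup V where
  carrier := {v | jv v ∈ N}
  zero_mem' := N.one_mem
  add_mem' {v w} hv hw := (jv_mul v w ▸ N.mul_mem hv hw : jv (v + w) ∈ N)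
  neg_mem' {v} hv := (jv_inv v ▸ N.inv_mem hv : jv (-v) ∈ N)

theorem jv_mem_of {N : Subgroup AG} {v : V} (h : ∀ i, v i = 0 ∨ jv (e i) ∈ N) : jv v ∈ N := by
  have : v = ∑ i, v i • e i := by funext j; simp [e, Finset.sum_apply, Pi.single_apply]
  rw [this]
  refine (vs N).sum_mem fun i _ => ?_
  rcases h i with h | h
  · rw [h, zero_smul]; exact zero_mem _
  · rcases k3 (v i) with k | k | k <;> rw [k]
    · rw [zero_smul]; exact zero_mem _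
    · rw [one_smul]; exact h
    · rw [neg_one_smul]; exact neg_mem (show e i ∈ vs N from h)

theorem comm_jv (v : V) (a b c : K) : ⁅el 0 a b c, jv v⁆ = jv (uf a b c v - v) := by
  rw [commutatorElement_def, conj_jv, jv_inv, jv_mul, ← sub_eq_add_neg]; rfl

theorem el_split (v : V) (a b c : K) : el v a b c = jv v * el 0 a b c := by
  rw [← el_zero, el_mul, el_inj]
  exact ⟨by rw [uf_zero, add_zero], by simp⟩

theorem c3 : ⁅el 0 1 0 0, jv (e 4)⁆ = jv (e 3) := by rw [comm_jv, jv_inj]; decide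
theorem c2 : ⁅el 0 0 1 0, jv (e 4)⁆ = jv (e 2) := by rw [comm_jv, jv_inj]; decide
theorem c1 : ⁅el 0 0 0 1, jv (e 4)⁆ = jv (e 1) := by rw [comm_jv, jv_inj]; decide
theorem c0 : ⁅el 0 1 0 0, jv (e 1)⁆ = jv (e 0) := by rw [comm_jv, jv_inj]; decide

theorem cs (c : K) : ⁅el 0 c 0 0, el 0 0 1 0⁆ = el 0 0 0 c := by
  rw [commutatorElement_def, el_inv, el_inv, el_mul, el_mul, el_mul, el_inj]
  revert c; decide

theorem comm_mem {N : Subgroup AG} {x y : AG} (hx : x ∈ N) (hy : y ∈ N) : ⁅x, y⁆ ∈ N :=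
  mul_mem (mul_mem (mul_mem hx hy) (inv_mem hx)) (inv_mem hy)

/-- `Ec` is generated by three elements. -/
theorem Ec_le_of {N : Subgroup AG} (ha : el 0 1 0 0 ∈ N) (hb : el 0 0 1 0 ∈ N) (h4 : jv (e 4) ∈ N) :
    Ec ≤ N := fun x hx => by
  let g : GL6 →* AG := MonoidHom.mk' gl fun g h => AG.ext (by simp) rfl
  have hU : ∀ a b c, el 0 a b c ∈ N := fun a b c => U_le_of (X := N.comap g) ha hb (u_mem a b c)
  obtain ⟨v, a, b, c, rfl⟩ := exists_el (Ec_le hx)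
  have h1 : jv (e 1) ∈ N := c1 ▸ comm_mem (hU ..) h4
  rw [el_split]
  refine mul_mem (jv_mem_of fun i => ?_) (hU a b c)
  fin_cases i
  exacts [Or.inr (c0 ▸ comm_mem ha h1), Or.inr h1, Or.inr (c2 ▸ comm_mem hb h4),
    Or.inr (c3 ▸ comm_mem ha h4), Or.inr h4, Or.inl (el_Ec.1 hx)]

/-- `Φ ⟨e 4⟩`. -/
abbrev L : Subgroup AG := hy (Ba ⊓ Bb)

theorem L_le : L ≤ Ec := fun _ h => ⟨⟨h.1.2, h.1.2⟩, h.2⟩

theorem el_L {v : V} {a b c : K} : el v a b c ∈ L ↔ a = 0 ∧ b = 0 ∧ v 5 = 0 := by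
  simp [mem_hy, mem_inf, u_mem_Bl, u_mem, and_assoc, and_left_comm]

/-- The derived group of `Ec`. -/
def Ph : Subgroup AG where
  carrier := {x | x ∈ L ∧ x.v 4 = 0}
  one_mem' := ⟨one_mem _, rfl⟩
  mul_mem' := by
    rintro x y ⟨h1, h2⟩ ⟨h3, h4⟩
    refine ⟨mul_mem h1 h3, ?_⟩
    obtain ⟨a, b, c, h⟩ := h1.1.2
    simp [h, h2, h4, h3.2, u_apply, uf]
  inv_mem' := by
    rintro x ⟨h1, h2⟩
    refine ⟨inv_mem h1, ?_⟩
    obtain ⟨a, b, c, h⟩ := h1.1.2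
    simp [h, h2, h1.2, u_inv, u_apply, uf]

theorem el_Ph {v : V} {a b c : K} :
    el v a b c ∈ ⁅Ec, Ec⁆ ↔ a = 0 ∧ b = 0 ∧ v 4 = 0 ∧ v 5 = 0 := by
  constructor
  · intro h
    have : ⁅Ec, Ec⁆ ≤ Ph := commutator_le.2 fun x hx y hy => by
      obtain ⟨v, a, b, c, rfl⟩ := exists_el (Ec_le hx)
      obtain ⟨v', a', b', c', rfl⟩ := exists_el (Ec_le hy)
      rw [el_Ec] at hx hy
      rw [commutatorElement_def, el_inv, el_inv, el_mul, el_mul, el_mul]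
      refine ⟨el_L.2 ⟨by ring, by ring, ?_⟩, ?_⟩
      · simp only [Pi.add_apply, Pi.neg_apply, uf5]; ring
      · simp only [el_v, Pi.add_apply, Pi.neg_apply, uf4, uf5, hx, hy]; ring
    obtain ⟨h1, h2⟩ := this h
    exact ⟨(el_L.1 h1).1, (el_L.1 h1).2.1, h2, h1.2⟩
  · rintro ⟨rfl, rfl, h4, h5⟩
    have k : ∀ a b c v, v 5 = 0 → ⁅el 0 a b c, jv v⁆ ∈ ⁅Ec, Ec⁆ := fun a b c v hv =>
      commutator_mem_commutator (el_Ec.2 rfl) (jv_Ec.2 hv)
    rw [el_split]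
    refine mul_mem (jv_mem_of fun i => ?_)
      (cs c ▸ commutator_mem_commutator (el_Ec.2 rfl) (el_Ec.2 rfl))
    fin_cases i
    exacts [Or.inr (c0 ▸ k _ _ _ _ rfl), Or.inr (c1 ▸ k _ _ _ _ rfl), Or.inr (c2 ▸ k _ _ _ _ rfl),
      Or.inr (c3 ▸ k _ _ _ _ rfl), Or.inl h4, Or.inl h5]

theorem Ph_le : ⁅Ec, Ec⁆ ≤ Ec := commutator_le.2 fun _ hx _ hy => comm_mem hx hy

theorem Ph_le_L : ⁅Ec, Ec⁆ ≤ L := fun x hx => by
  obtain ⟨v, a, b, c, rfl⟩ := exists_el (Ec_le (Ph_le hx))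
  obtain ⟨h1, h2, -, h3⟩ := el_Ph.1 hx
  exact el_L.2 ⟨h1, h2, h3⟩

theorem inv_Ph (Γ : Subgroup (MulAut Ec)) : InvA Γ ⁅Ec, Ec⁆ := (invA_top _).commutator (invA_top _)

theorem e4_L : jv (e 4) ∈ L := el_zero (e 4) ▸ el_L.2 ⟨rfl, rfl, rfl⟩

theorem e4_Ec : jv (e 4) ∈ Ec := L_le e4_L

theorem comm_el_jv {v w : V} {a b c : K} : jv w * el v a b c = el v a b c * jv w ↔ uf a b c w = w := by
  rw [eq_comm, ← mul_inv_eq_iff_eq_mul, conj_jv, jv_inj]; rfl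

/-- The image of `e 4` lies in `R`. -/
theorem a_eq_zero (α : MulAut Ec) {v : V} {a b c : K} (h : totA α (jv (e 4)) = el v a b c) : a = 0 := by
  have i1 := (inv_Ph ⊤).inf_centralizer (inv_Ph ⊤)
  have i2 := (invA_top (E := Ec) ⊤).inf_centralizer i1
  have h4 : jv (e 4) ∈ Ec ⊓ centralizer ((⁅Ec, Ec⁆ ⊓ centralizer (⁅Ec, Ec⁆ : Subgroup AG) : Subgroup AG) : Set AG) := by
    refine ⟨e4_Ec, fun x hx => ?_⟩
    obtain ⟨w, a, b, c, rfl⟩ := exists_el (Ec_le (Ph_le hx.1))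
    obtain ⟨rfl, rfl, -⟩ := el_Ph.1 hx.1
    have := comm_el_jv.1 (hx.2 (jv (e 3)) (el_zero (e 3) ▸ el_Ph.2 ⟨rfl, rfl, rfl, rfl⟩))
    have hc : c = 0 := by simpa [uf, e] using congrFun this 0
    rw [hc, eq_comm, comm_el_jv, uf_zero]
  have h1 : jv (e 1) ∈ ⁅Ec, Ec⁆ ⊓ centralizer ((⁅Ec, Ec⁆ : Subgroup AG) : Set AG) := by
    refine ⟨el_zero (e 1) ▸ el_Ph.2 ⟨rfl, rfl, rfl, rfl⟩, fun x hx => ?_⟩
    obtain ⟨w, a, b, c, rfl⟩ := exists_el (Ec_le (Ph_le hx))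
    obtain ⟨rfl, rfl, -⟩ := el_Ph.1 hx
    rw [eq_comm, comm_el_jv]
    exact (by decide : ∀ c : K, uf 0 0 c (e 1) = e 1) c
  have := (i2.2 α trivial _ h4).2 _ h1
  rw [h, comm_el_jv] at this
  simpa [uf, e] using congrFun this 0

theorem maps_L {α : MulAut Ec} (h : totA α (jv (e 4)) ∈ L) {x : AG} (hx : x ∈ L) : totA α x ∈ L := by
  have k : ∀ y ∈ ⁅Ec, Ec⁆, totA α y ∈ L := fun y hy => Ph_le_L ((inv_Ph ⊤).2 α trivial y hy)
  have m := mulOn_totA α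
  obtain ⟨v, a, b, c, rfl⟩ := exists_el (Ec_le (L_le hx))
  obtain ⟨rfl, rfl, h5⟩ := el_L.1 hx
  rcases k3 (v 4) with e4 | e4 | e4
  · exact k _ (el_Ph.2 ⟨rfl, rfl, e4, h5⟩)
  · have := k ((jv (e 4))⁻¹ * el v 0 0 c) (by
      rw [jv_inv, ← el_zero, el_mul, el_Ph]; simp [uf, e, e4, h5])
    rwa [m.map_mul (inv_mem e4_Ec) (L_le hx), m.map_inv e4_Ec, L.mul_mem_cancel_left (inv_mem h)] at this
  · have := k (jv (e 4) * el v 0 0 c) (by rw [← el_zero, el_mul, el_Ph]; simp [uf, e, e4, h5])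
    rwa [m.map_mul e4_Ec (L_le hx), L.mul_mem_cancel_left h] at this

theorem jv_norm (w : V) : jv w ∈ normalizerIn S0 Ec :=
  ⟨J_le_S0 (jv_mem w), mem_normalizer_fintype fun x hx => by
    obtain ⟨v, a, b, c, rfl⟩ := exists_el (Ec_le hx)
    rw [jv_conj]
    exact mul_mem (jv_Ec.2 (by simp [u_apply, uf])) hx⟩

theorem eq_S0 {Q : Subgroup AG} (h : Ec < Q) (hQ : Q ≤ S0) : Q = S0 := by
  obtain ⟨x, hx, hx'⟩ := SetLike.exists_of_lt h
  obtain ⟨v, a, b, c, rfl⟩ := exists_el (hQ hx)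
  rw [el_Ec] at hx'
  refine le_antisymm hQ fun y hy => ?_
  obtain ⟨v', a', b', c', rfl⟩ := exists_el hy
  have k : ∀ p q : K, p ≠ 0 → q = 0 ∨ q + p = 0 ∨ q + -p = 0 := by decide
  rcases k _ (v' 5) hx' with e5 | e5 | e5
  · exact h.le (el_Ec.2 e5)
  · exact (Q.mul_mem_cancel_right hx).1 (h.le (by rw [el_mul, el_Ec]; simpa [uf] using e5))
  · exact (Q.mul_mem_cancel_right (inv_mem hx)).1 (h.le (by rw [el_inv, el_mul, el_Ec]; simpa [uf] using e5))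

theorem mem_ext {F : FS} (hF : F.IsSaturated 3) (hE : F.IsEssential 3 Ec) {l : MulAut Ec}
    (hl : l ∈ F.autGroup Ec) (h : totA l (jv (e 4)) ∈ L) : l ∈ F.extAut Ec := by
  have cv : ∀ v a b c, (el v a b c)⁻¹ * (jv (e 5) * el v a b c * (jv (e 5))⁻¹) =
      el (uf (-a) (-b) (a * b - c) (e 5 - uf a b c (e 5))) 0 0 0 := fun v a b c => by
    have := conj_jv (el v a b c)⁻¹ (e 5 - uf a b c (e 5))
    rw [inv_inv, mul_assoc] at this
    rw [jv_conj, el_zero]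
    exact this
  refine (hE.essData hF isPGroup_S0).mem_of_chain isPGroup_S0 (fun i => [Ec, L, ⁅Ec, Ec⁆].getD i ⊥) 2 rfl
    le_sup_left ?_ (jv_norm (e 5)) (fun h => absurd (jv_Ec.1 h) (by decide)) ?_ hl ?_
  · intro i hi
    interval_cases i
    exacts [L_le, Ph_le_L]
  · intro i hi
    interval_cases i
    · intro x hx
      obtain ⟨v, a, b, c, rfl⟩ := exists_el (Ec_le hx)
      rw [cv]
      exact el_L.2 ⟨rfl, rfl, by simp [uf, e]⟩
    · intro x hx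
      obtain ⟨v, a, b, c, rfl⟩ := exists_el (Ec_le (L_le hx))
      obtain ⟨rfl, rfl, -⟩ := el_L.1 hx
      rw [cv]
      exact el_Ph.2 ⟨rfl, rfl, by simp [uf, e], by simp [uf, e]⟩
  · intro i hi
    interval_cases i
    exacts [fun x hx => totA_mem l hx, fun x hx => maps_L h hx, fun x hx => (inv_Ph ⊤).2 l trivial x hx]

theorem inW0 : InW 0 := ⟨rfl, rfl, rfl⟩

theorem wc_eq {f g : AG → AG} (hf : MulOn Ec f) (hg : MulOn Ec g) (h : IsWc f) (h' : IsWc g) {x : AG}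
    (hx : x ∈ Ec) : f x = g x := by
  have l : closure {el 0 1 0 0, el 0 0 1 0, jv (e 4)} ≤ Ec := (closure_le _).2 (by
    rintro _ (rfl | rfl | rfl)
    exacts [el_Ec.2 rfl, el_Ec.2 rfl, e4_Ec])
  refine hf.eqOn_closure hg l ?_ x
    (Ec_le_of (subset_closure (by simp)) (subset_closure (by simp)) (subset_closure (by simp)) hx)
  rintro _ (rfl | rfl | rfl)
  · rw [h.fix _ _ inW0, h'.fix _ _ inW0]
  · rw [h.xb, h'.xb]
  · rw [h.e4, h'.e4]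

theorem exists_w {F : FS} (hw : Wc F) : ∃ w ∈ F.autGroup Ec, IsWc (totA w) := by
  obtain ⟨f, hf, h⟩ := hw
  have l : closure {el 0 1 0 0, el 0 0 1 0, jv (e 4)} ≤ Ec := (closure_le _).2 (by
    rintro _ (rfl | rfl | rfl)
    exacts [el_Ec.2 rfl, el_Ec.2 rfl, e4_Ec])
  have hi := hf.iso_self fun x hx => hf.mulOn.mapsTo_closure l (R := Ec) (by
    rintro _ (rfl | rfl | rfl)
    · rw [h.fix _ _ inW0]; exact el_Ec.2 rfl
    · rw [h.xb]; exact e4_Ec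
    · rw [h.e4]; exact el_Ec.2 rfl) x
    (Ec_le_of (subset_closure (by simp)) (subset_closure (by simp)) (subset_closure (by simp)) hx)
  exact ⟨hi.aut, hi.aut_mem, fun v a hv => by rw [hi.totA_aut (el_Ec.2 hv.2.2), h.fix v a hv],
    by rw [hi.totA_aut (el_Ec.2 rfl), h.xb], by rw [hi.totA_aut e4_Ec, h.e4]⟩

theorem w_mem {w : MulAut Ec} (h : IsWc (totA w)) {v : V} {b c : K} (hb : b ≠ 0) (h4 : v 4 = 0)
    (h5 : v 5 = 0) : totA w (el v 0 b c) ∈ L := by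
  have k : ∀ y ∈ ⁅Ec, Ec⁆, totA w y ∈ L := fun y hy => Ph_le_L ((inv_Ph ⊤).2 w trivial y hy)
  have m := mulOn_totA w
  have xb : el 0 0 1 0 ∈ Ec := el_Ec.2 rfl
  rcases k3 b with rfl | rfl | rfl
  · exact (hb rfl).elim
  · have := k ((el 0 0 1 0)⁻¹ * el v 0 1 c) (by rw [el_inv, el_mul, el_Ph]; simp [uf, h4, h5])
    rwa [m.map_mul (inv_mem xb) (el_Ec.2 h5), m.map_inv xb, h.xb,
      L.mul_mem_cancel_left (inv_mem e4_L)] at this
  · have := k (el 0 0 1 0 * el v 0 (-1) c) (by rw [el_mul, el_Ph]; simp [uf, h4, h5])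
    rwa [m.map_mul xb (el_Ec.2 h5), h.xb, L.mul_mem_cancel_left e4_L] at this

end Gen

open Gen

/-- `Aut_F(Ec)` is generated by `w_c` and the restrictions of automorphisms of `S0`. -/
theorem aut_Ec {F : FS} (hF : F.IsSaturated 3) (hE : F.IsEssential 3 Ec) (hw : Wc F)
    {Γ : Subgroup (MulAut Ec)}
    (h1 : ∀ α : MulAut Ec, (∃ f, F.Mor S0 f ∧ ∀ x ∈ Ec, totA α x = f x) → α ∈ Γ)
    (h2 : ∀ α ∈ F.autGroup Ec, IsWc (totA α) → α ∈ Γ) : F.autGroup Ec ≤ Γ := fun α hα => by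
  have ext : F.extAut Ec ≤ Γ := (closure_le _).2 fun β ⟨Q, g, hQ, hg, e⟩ =>
    h1 β ⟨g, eq_S0 hQ hg.le ▸ hg, fun x hx => (e x hx).symm⟩
  have hp := totA_mem α e4_Ec
  obtain ⟨v, a, b, c, ep⟩ := exists_el (Ec_le hp)
  obtain rfl := a_eq_zero α ep
  rw [ep, el_Ec] at hp
  by_cases hb : b = 0
  · exact ext (mem_ext hF hE hα (ep ▸ el_L.2 ⟨rfl, hb, hp⟩))
  obtain ⟨w, hwF, hw⟩ := exists_w hw
  have hy := jv_norm ((2 * b * v 4) • e 5)
  have hc := F.cAut_mem_autGroup Ec_le hy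
  have hcΓ := h1 _ ⟨_, F.mor_conj le_rfl hy.1, fun x hx => totA_cAut hy.2 hx⟩
  refine (Γ.mul_mem_cancel_left (mul_mem (h2 w hwF hw) hcΓ)).1
    (ext (mem_ext hF hE (mul_mem (mul_mem hwF hc) hα) ?_))
  rw [totA_mul _ _ e4_Ec, totA_mul _ _ (totA_mem α e4_Ec), totA_cAut hy.2 (totA_mem α e4_Ec), ep, jv_conj,
    ← el_zero, el_mul, add_zero, zero_add, zero_mul, add_zero]
  have : ∀ b p : K, b ≠ 0 → -(2 * b * (2 * b * p)) + p = 0 := by decide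
  refine w_mem hw hb ?_ ?_ <;>
    simp only [el_g, u_apply, Pi.add_apply, Pi.sub_apply, Pi.smul_apply, uf4, uf5, hp, smul_eq_mul]
  · simpa [e] using this b _ hb
  · ring

theorem Gen.mor_of_real {F F' : FS} (hF : F.IsSaturated 3) {X : Subgroup GL6}
    (hr : Real F X) (hr' : Real F' X) (hw : Wc F) (hw' : Wc F') {P : Subgroup AG} {f : AG → AG}
    (hf : F.Mor P f) : F'.Mor P f := by
  have k : ∀ P f, J ≤ P → F.Mor P f → F'.Mor P f := fun P f hP h => (hr' P f hP).2 ((hr P f hP).1 h)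
  refine hF.mor_of_alperin isPGroup_S0 (fun Q g hQ hg => ?_) hf
  rcases hQ with rfl | hQ
  · exact k _ _ J_le_S0 hg.mor
  rcases ess_cases hF hQ with h | rfl
  · exact k _ _ h hg.mor
  obtain ⟨f', hf', w'⟩ := hw'
  refine (mor_totA Ec_le (aut_Ec hF hQ hw (Γ := F'.autGroup Ec) ?_ ?_ hg.aut_mem)).congr
    fun x hx => hg.totA_aut hx
  · rintro α ⟨g, hg, e⟩
    exact mem_autGroup_of_mor ((k _ _ J_le_S0 hg).mono Ec_le) fun x => by rw [← e x x.2, totA_coe]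
  · intro α _ w
    exact mem_autGroup_of_mor hf' fun x => by rw [← wc_eq (mulOn_totA α) hf'.mulOn w w' x.2, totA_coe]

theorem eq_of_real {F F' : FS} (hF : F.IsSaturated 3) (hF' : F'.IsSaturated 3) {X : Subgroup GL6}
    (hr : Real F X) (hr' : Real F' X) (hw : Wc F) (hw' : Wc F') : F = F' :=
  ext_mor fun _ _ => ⟨mor_of_real hF hr hr' hw hw', mor_of_real hF' hr' hr hw' hw⟩

/-- The largest `X`-invariant subspace of `W`. -/
def Gen.Yw (X : Subgroup GL6) : Subgroup AG where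
  carrier := {x | x ∈ J ∧ ∀ g ∈ X, InW (g x.v)}
  one_mem' := ⟨one_mem _, fun g _ => by rw [one_v, map_zero]; exact inW0⟩
  mul_mem' := by
    rintro x y ⟨h1, h2⟩ ⟨h3, h4⟩
    refine ⟨mul_mem h1 h3, fun g hg => ?_⟩
    obtain ⟨a1, a2, a3⟩ := h2 g hg
    obtain ⟨b1, b2, b3⟩ := h4 g hg
    simp [InW, mem_J.1 h1, gl_one_apply, a1, a2, a3, b1, b2, b3]
  inv_mem' := by
    rintro x ⟨h1, h2⟩
    refine ⟨inv_mem h1, fun g hg => ?_⟩
    obtain ⟨a1, a2, a3⟩ := h2 g hg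
    simp [InW, mem_J.1 h1, gl_one_apply, a1, a2, a3]

theorem exists_out {F : FS} (hF : F.IsSaturated 3) (hc : F.core = ⊥) {X : Subgroup GL6}
    (hr : Real F X) (hw : Wc F) : ∃ v ∈ orb X, ¬ InW v := by
  by_contra! n
  have k : ∀ P f, J ≤ P → F.Mor P f → ∀ x ∈ Yw X, f x ∈ Yw X := fun P f hP h x hx => by
    obtain ⟨-, -, g, hg, e⟩ := (hr P f hP).1 h
    obtain ⟨v, rfl⟩ := exists_jv hx.1
    rw [e _ (hP hx.1), conj_jv]
    exact ⟨jv_mem _, fun g' hg' => hx.2 (g' * g.g) (mul_mem hg' hg)⟩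
  have l : Yw X ≤ Ec := fun x hx => by
    obtain ⟨v, rfl⟩ := exists_jv hx.1
    exact jv_Ec.2 (hx.2 1 (one_mem _)).2.2
  have hN : F.IsNormal (Yw X) := hF.isNormal_of_alperin isPGroup_S0 fun Q hQ => by
    have kk : J ≤ Q → Yw X ≤ Q ∧ ∀ g, F.Iso Q Q g → ∀ x ∈ Yw X, g x ∈ Yw X := fun h =>
      ⟨fun x hx => h hx.1, fun g hg => k Q g h hg.mor⟩
    rcases hQ with rfl | hQ
    · exact kk J_le_S0
    rcases ess_cases hF hQ with h | rfl
    · exact kk h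
    refine ⟨l, fun g hg x hx => ?_⟩
    rw [← hg.totA_aut (l hx)]
    refine (aut_Ec hF hQ hw (Γ := stabA Ec (Yw X)) ?_ ?_ hg.aut_mem x (l hx)).2 hx
    · rintro α ⟨g, hg, e⟩
      exact mem_stabA_of_maps l fun x hx => e x (l hx) ▸ k _ _ J_le_S0 hg x hx
    · refine fun α _ w => mem_stabA_of_maps l fun x hx => ?_
      obtain ⟨v, rfl⟩ := exists_jv hx.1
      rw [← el_zero, w.fix v 0 (hx.2 1 (one_mem _)), el_zero]
      exact hx
  have : jv (e 0) ∈ F.core := hN.le_core ⟨jv_mem _, fun g hg => n _ ⟨g, hg, Or.inl rfl⟩⟩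
  rw [hc, mem_bot, ← jv_zero, jv_inj] at this
  exact absurd this (by decide)

end Cfsg.Agent.C3
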