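import Mathlib
import Cfsg.Agent.C3.Basic

/-! The normalizer of `U` in `GL6` and twisting of fusion systems (PLAN: Tor). -/

set_option autoImplicit false
set_option linter.unusedVariables false

namespace Cfsg.Agent.C3

open Cfsg Cfsg.FusionSystem Cfsg.Agent.Fus Subgroup
open scoped Pointwise

/-- A group which is the product of a normal 3-subgroup and a 2-subgroup. -/
theorem tor_abs {H : Type*} [Group H] [Finite H] {Q T : Subgroup H} [Q.Normal] (hQ : IsPGroup 3 Q)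
    (hT : IsPGroup 2 T) (h : ∀ x, ∃ t ∈ T, x * t ∈ Q) (Y : Subgroup H) :
    ∃ g : H, ∀ y ∈ Y, ∃ q ∈ Y, q ∈ Q ∧ g * (q⁻¹ * y) * g⁻¹ ∈ T := by
  obtain ⟨P', hP'⟩ := hT.exists_le_sylow
  have h1 : (P' : Subgroup H) ≤ T := fun x hx => by
    obtain ⟨t, ht, hq⟩ := h x
    have := (IsPGroup.disjoint_of_ne 2 3 (by norm_num) _ _ P'.2 hQ).le_bot
      (mem_inf.2 ⟨mul_mem hx (hP' ht), hq⟩)
    rw [eq_inv_of_mul_eq_one_left (mem_bot.1 this)]
    exact inv_mem ht
  obtain ⟨T0⟩ : Nonempty (Sylow 2 Y) := inferInstance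
  obtain ⟨P, hP⟩ := (T0.2.map Y.subtype).exists_le_sylow
  obtain ⟨g, hg⟩ := MulAction.exists_smul_eq H P P'
  have h2 : IsPGroup 2 (H ⧸ Q) := hT.of_surjective ((QuotientGroup.mk' Q).comp T.subtype) fun x => by
    obtain ⟨x, rfl⟩ := QuotientGroup.mk_surjective x
    obtain ⟨t, ht, hq⟩ := h x⁻¹
    exact ⟨⟨t, ht⟩, (QuotientGroup.eq.2 hq).symm⟩
  obtain ⟨n, hn⟩ := IsPGroup.iff_card.1 h2
  have h3 : Q.subgroupOf Y ⊔ (T0 : Subgroup Y) = ⊤ := by
    have d1 := (index_dvd_of_le (le_sup_left : Q.subgroupOf Y ≤ _ ⊔ (T0 : Subgroup Y))).trans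
      (relIndex_dvd_index_of_normal Q Y)
    have d2 := index_dvd_of_le (le_sup_right : (T0 : Subgroup Y) ≤ Q.subgroupOf Y ⊔ _)
    rw [index_eq_card Q, hn] at d1
    obtain ⟨m, -, hm⟩ := (Nat.dvd_prime_pow Nat.prime_two).1 d1
    rw [← index_eq_one, hm]
    rcases m with _ | m
    · rfl
    · exact (T0.not_dvd_index ((Dvd.intro_left _ (pow_succ 2 m).symm).trans (hm ▸ d2))).elim
  refine ⟨g, fun y hy => ?_⟩
  obtain ⟨q, hq, t, ht, e⟩ := mem_sup_of_normal_left.1 (h3 ▸ mem_top (⟨y, hy⟩ : Y))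
  refine ⟨q, q.2, hq, h1 ?_⟩
  rw [show y = q * t from (congrArg Subtype.val e).symm, inv_mul_cancel_left, ← hg,
    Sylow.coe_subgroup_smul]
  exact smul_mem_pointwise_smul _ (MulAut.conj g) _ (hP (mem_map_of_mem _ ht))

/-- The standard flag. -/
def TorC (i : ℕ) (v : V) : Prop := ∀ j : Fin 6, 6 ≤ i + j → v j = 0

theorem TorC.mono {i : ℕ} {v : V} (h : TorC (i + 1) v) : TorC i v := fun j hj => h j (by omega)

theorem TorC.add {i : ℕ} {v w : V} (h : TorC i v) (h' : TorC i w) : TorC i (v + w) := fun j hj => by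
  rw [Pi.add_apply, h j hj, h' j hj, add_zero]

/-- Unitriangular maps. -/
def TorM : Submonoid GL6 where
  carrier := {g | ∀ i v, TorC i v → TorC (i + 1) (g v - v)}
  one_mem' := fun i v _ j _ => by simp
  mul_mem' := fun {g h} hg hh i v hv => by
    have h1 := hh i v hv
    have h2 := hg i _ (h1.mono.add hv)
    rw [sub_add_cancel] at h2
    have := h2.add h1
    rwa [sub_add_sub_cancel] at this

/-- Unitriangular maps. -/
def TorN : Subgroup GL6 where
  toSubmonoid := TorM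
  inv_mem' := fun {g} hg => by
    have : g⁻¹ = g ^ (orderOf g - 1) := by
      rw [inv_eq_iff_mul_eq_one, ← pow_succ', Nat.sub_add_cancel (orderOf_pos g), pow_orderOf_eq_one]
    exact this ▸ TorM.pow_mem hg _

theorem isPGroup_TorN : IsPGroup 3 TorN :=
  isPGroup_of_flag TorC 6 (fun v j hj => by omega) (fun v h => funext fun j => h j (by omega))
    fun g hg i _ => hg i

theorem mem_TorN {g : GL6} (h : ∀ i j : Fin 6, j ≤ i → g (e j) i = e j i) : g ∈ TorN := by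
  intro n v hv i hi
  have : g v - v = ∑ j, v j • (g (e j) - e j) := by
    simp only [smul_sub, Finset.sum_sub_distrib, ← map_smul, ← map_sum, e, ← pi_eq_sum_univ' v]
  rw [this, Finset.sum_apply]
  refine Finset.sum_eq_zero fun j _ => ?_
  rw [Pi.smul_apply, Pi.sub_apply, smul_eq_mul]
  by_cases hj : j ≤ i
  · rw [h i j hj, sub_self, mul_zero]
  · rw [hv j (by rw [Fin.le_def] at hj; omega), zero_mul]

theorem TorC.tor {i : ℕ} {v : V} (h : TorC i v) (p r s : Kˣ) : TorC i (tor p r s v) := fun j hj => by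
  have := h j hj
  fin_cases j <;> simp [tor_apply, tf] at this ⊢ <;> exact this

theorem tor_norm_TorN (p r s : Kˣ) : tor p r s ∈ normalizer (TorN : Set GL6) :=
  mem_normalizer_fintype fun g hg i v hv => by
    have := (hg i _ (hv.tor p r s)).tor p r s
    rwa [map_sub, show tor p r s (tor p r s v) = v from gl_inv_apply (tor p r s) v] at this

/-- The diagonal group. -/
def TorT : Subgroup GL6 where
  carrier := {g | ∃ p r s, g = tor p r s}
  one_mem' := ⟨1, 1, 1, tor_one.symm⟩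
  mul_mem' := by rintro _ _ ⟨p, r, s, rfl⟩ ⟨p', r', s', rfl⟩; exact ⟨_, _, _, tor_mul ..⟩
  inv_mem' := by rintro _ ⟨p, r, s, rfl⟩; exact ⟨_, _, _, tor_inv ..⟩

theorem isPGroup_TorT : IsPGroup 2 TorT := by
  rintro ⟨_, p, r, s, rfl⟩
  refine ⟨1, Subtype.ext ?_⟩
  show tor p r s ^ 2 = 1
  rw [pow_two, ← eq_inv_iff_mul_eq_one, tor_inv]

theorem tor_half {x y : K} (h : x + x = 2 * y) : x = y := by revert x y; decide

theorem tor_vec {a b c a' b' c' : K} {x0 x1 x2 x3 x4 x5 : V} (A5 : x5 = uf a b c x5)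
    (A4 : x4 + x3 = uf a b c x4) (A1 : x1 + x0 = uf a b c x1)
    (B5 : x5 + (x4 + x4 + x2) = uf a' b' c' x5) (B4 : x4 + x2 = uf a' b' c' x4)
    (B3 : x3 + x1 = uf a' b' c' x3) (B1 : x1 = uf a' b' c' x1) (h0 : x0 ≠ 0) :
    ∃ p r s : Kˣ, (x0 0 = s ∧ x0 1 = 0 ∧ x0 2 = 0 ∧ x0 3 = 0 ∧ x0 4 = 0 ∧ x0 5 = 0) ∧
      (x1 1 = s * p ∧ x1 2 = 0 ∧ x1 3 = 0 ∧ x1 4 = 0 ∧ x1 5 = 0) ∧
      (x2 2 = s ∧ x2 3 = 0 ∧ x2 4 = 0 ∧ x2 5 = 0) ∧ (x3 3 = s * p * r ∧ x3 4 = 0 ∧ x3 5 = 0) ∧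
      (x4 4 = s * r ∧ x4 5 = 0) ∧ x5 5 = s ∧ a = p ∧ b = 0 ∧ a' = 0 ∧ b' = r := by
  have h25 : x2 5 = 0 := by simpa [uf] using congrFun B4 5
  have h45 : x4 5 = 0 := tor_half (by simpa [uf, h25] using congrFun B5 5)
  have h35 : x3 5 = 0 := by simpa [uf] using congrFun A4 5
  have h15 : x1 5 = 0 := by simpa [uf] using congrFun B3 5
  have h05 : x0 5 = 0 := by simpa [uf] using congrFun A1 5
  have h24 : x2 4 = 0 := by simpa [uf, h45] using congrFun B4 4
  have h44 : x4 4 = b' * x5 5 := tor_half (by simpa [uf, h24, mul_assoc] using congrFun B5 4)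
  have h34 : x3 4 = 0 := by simpa [uf, h45] using congrFun A4 4
  have h14 : x1 4 = 0 := by simpa [uf, h35] using congrFun B3 4
  have h04 : x0 4 = 0 := by simpa [uf, h15] using congrFun A1 4
  have hb : b * x5 5 = 0 := (tor_half (x := 0) (by
    have := congrFun A5 4
    simp only [uf, Matrix.cons_val] at this
    linear_combination this)).symm
  have h33 : x3 3 = a * x4 4 := by simpa [uf, h45] using congrFun A4 3
  have h13 : x1 3 = 0 := by simpa [uf, h34, h35] using congrFun B3 3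
  have h03 : x0 3 = 0 := by simpa [uf, h14, h15] using congrFun A1 3
  have h23 : x2 3 = a' * x4 4 := by simpa [uf, h45] using congrFun B4 3
  have h32 : x3 2 = b * x4 4 := by simpa [uf, h45] using congrFun A4 2
  rw [h44, mul_left_comm, hb, mul_zero] at h32
  have h12 : x1 2 = 0 := by simpa [uf, h34, h35] using congrFun B3 2
  have h02 : x0 2 = 0 := by simpa [uf, h14, h15] using congrFun A1 2
  have h22 : x2 2 = b' * x4 4 := by simpa [uf, h45] using congrFun B4 2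
  have h11 : x1 1 = b' * x3 3 := by simpa [uf, h32, h34, h35] using congrFun B3 1
  have h01 : x0 1 = 0 := by simpa [uf, h12, h13, h14, h15] using congrFun A1 1
  have h00 : x0 0 = a * x1 1 := by simpa [uf, h12, h13, h14, h15] using congrFun A1 0
  have ha : a' * x1 1 = 0 := by
    have := congrFun B1 0
    simp only [uf, Matrix.cons_val, h12, h13, h14, h15] at this
    linear_combination -this
  have h0' : x0 0 ≠ 0 := fun h => h0 (by
    funext i; fin_cases i; exacts [h, h01, h02, h03, h04, h05])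
  rw [h00, mul_ne_zero_iff] at h0'
  have ha' := (mul_eq_zero.1 ha).resolve_right h0'.2
  rw [h11, h33, h44, mul_ne_zero_iff, mul_ne_zero_iff, mul_ne_zero_iff] at h0'
  obtain ⟨k1, k2, -, -, k3⟩ := h0'
  have s1 := unit_sq (Units.mk0 a k1)
  have s2 := unit_sq (Units.mk0 b' k2)
  simp only [Units.val_mk0] at s1 s2
  refine ⟨Units.mk0 a k1, Units.mk0 b' k2, Units.mk0 _ k3, ⟨?_, h01, h02, h03, h04, h05⟩,
    ⟨?_, h12, h13, h14, h15⟩, ⟨?_, by rw [h23, ha', zero_mul], h24, h25⟩, ⟨?_, h34, h35⟩, ⟨?_, h45⟩,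
    rfl, rfl, (mul_eq_zero.1 hb).resolve_right k3, ha', rfl⟩ <;> simp only [Units.val_mk0]
  · rw [h00, h11, h33, h44]; linear_combination (b' * b' * x5 5) * s1 + x5 5 * s2
  · rw [h11, h33, h44]; linear_combination (a * x5 5) * s2
  · rw [h22, h44]; linear_combination x5 5 * s2
  · rw [h33, h44]; ring
  · rw [h44]; ring

/-- An element normalizing `U` is upper triangular with the diagonal of some `tor p r s`. -/
theorem tor_tri {g : GL6} (hg : g ∈ normalizer (U : Set GL6)) :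
    ∃ p r s : Kˣ, (∀ i j : Fin 6, j ≤ i → g (e j) i = tor p r s (e j) i) ∧
      (∃ c, g * u 1 0 0 * g⁻¹ = u p 0 c) ∧ ∃ c, g * u 0 1 0 * g⁻¹ = u 0 r c := by
  obtain ⟨a, b, c, hA⟩ := (mem_normalizer_iff.1 hg _).1 (u_mem 1 0 0)
  obtain ⟨a', b', c', hB⟩ := (mem_normalizer_iff.1 hg _).1 (u_mem 0 1 0)
  have A : ∀ v w, u 1 0 0 v = w → g w = uf a b c (g v) := fun v w h => by
    rw [← u_apply, ← hA, gl_mul_apply, gl_mul_apply, gl_inv_apply, h]
  have B : ∀ v w, u 0 1 0 v = w → g w = uf a' b' c' (g v) := fun v w h => by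
    rw [← u_apply, ← hB, gl_mul_apply, gl_mul_apply, gl_inv_apply, h]
  have A4 := A (e 4) (e 4 + e 3) (by decide)
  have A1 := A (e 1) (e 1 + e 0) (by decide)
  have B5 := B (e 5) (e 5 + (e 4 + e 4 + e 2)) (by decide)
  have B4 := B (e 4) (e 4 + e 2) (by decide)
  have B3 := B (e 3) (e 3 + e 1) (by decide)
  simp only [map_add] at A4 A1 B5 B4 B3
  obtain ⟨p, r, s, h0, h1, h2, h3, h4, h5, rfl, rfl, rfl, rfl⟩ := tor_vec (A (e 5) (e 5) (by decide))
    A4 A1 B5 B4 B3 (B (e 1) (e 1) (by decide)) (by rw [Ne, map_eq_zero_iff _ g.injective]; decide)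
  refine ⟨p, r, s, fun i j hij => ?_, ⟨c, hA⟩, c', hB⟩
  fin_cases j <;> fin_cases i <;> first
    | exact absurd hij (by decide)
    | simp [tor_apply, tf, h0, h1, h2, h3, h4, h5, show ∀ i j, e i j = if j = i then 1 else 0 from
        fun i j => Pi.single_apply i 1 j]

theorem tor_mul_mem {g : GL6} (hg : g ∈ normalizer (U : Set GL6)) :
    ∃ p r s, g * tor p r s ∈ TorN := by
  obtain ⟨p, r, s, h, -⟩ := tor_tri hg
  refine ⟨p, r, s, mem_TorN fun i j hij => ?_⟩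
  obtain ⟨d, h1, h2⟩ : ∃ d : K, tor p r s (e j) = d • e j ∧ d * d = 1 := by
    clear h hij; revert p r s j; decide +kernel
  rw [gl_mul_apply, h1, map_smul, Pi.smul_apply, h i j hij, h1, Pi.smul_apply, smul_smul, h2, one_smul]

/-- The structure of the normalizer of `U` in `GL6`. -/
theorem norm_U {g : GL6} (hg : g ∈ normalizer (U : Set GL6)) :
    ∃ p r s, ∃ k : ℕ, (g * tor p r s) ^ 3 ^ k = 1 := by
  obtain ⟨p, r, s, h⟩ := tor_mul_mem hg
  obtain ⟨k, hk⟩ := isPGroup_TorN ⟨_, h⟩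
  exact ⟨p, r, s, k, congrArg Subtype.val hk⟩

theorem tor_norm_le : normalizer (U : Set GL6) ≤ normalizer (TorN : Set GL6) := fun g hg => by
  obtain ⟨p, r, s, h⟩ := tor_mul_mem hg
  exact (mul_mem_cancel_right (tor_norm_TorN p r s)).1 (le_normalizer h)

theorem exists_tor {X : Subgroup GL6} (h : Syl X) :
    ∃ g ∈ normalizer (U : Set GL6), Tor (cjX g X) := by
  set N := normalizer (U : Set GL6) with hN
  have := normal_subgroupOf_of_le_normalizer tor_norm_le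
  obtain ⟨g, hg⟩ := tor_abs (H := N) (Q := TorN.subgroupOf N) (T := TorT.subgroupOf N)
    (isPGroup_TorN.comap_of_injective _ N.subtype_injective)
    (isPGroup_TorT.comap_of_injective _ N.subtype_injective) (fun x => by
      obtain ⟨p, r, s, h⟩ := tor_mul_mem x.2
      exact ⟨⟨_, tor_mem_norm p r s⟩, ⟨p, r, s, rfl⟩, h⟩) (X.subgroupOf N)
  have hU : X ⊓ N ⊓ TorN ≤ U := h.le_of_norm (inf_le_left.trans inf_le_left)
    (isPGroup_TorN.to_le inf_le_right) fun x hx => mem_normalizer_fintype fun y hy =>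
      ⟨⟨X.mul_mem (X.mul_mem (h.le hx) hy.1.1) (X.inv_mem (h.le hx)),
        N.mul_mem (N.mul_mem (le_normalizer hx) hy.1.2) (N.inv_mem (le_normalizer hx))⟩,
        (mem_normalizer_iff.1 (tor_norm_le (le_normalizer hx)) y).1 hy.2⟩
  refine ⟨g, g.2, fun x hx hn => ?_⟩
  obtain ⟨q, q1, q2, p, r, s, e⟩ := hg (g⁻¹ * ⟨x, hn⟩ * g) (mem_cjX.1 hx)
  obtain ⟨a, b, c, e'⟩ := (mem_normalizer_iff.1 g.2 _).1 (hU ⟨⟨q1, q.2⟩, q2⟩)
  refine ⟨a, b, c, p, r, s, ?_⟩
  rw [← e, ← e']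
  simp only [coe_subtype, coe_mul, InvMemClass.coe_inv]
  group

theorem tor_mem_img {G y : AG} {P : Subgroup AG} :
    y ∈ img (fun x => G⁻¹ * x * G) P ↔ G * y * G⁻¹ ∈ P := by
  simpa using mem_img_conj (g := G⁻¹) (y := y) (P := P)

theorem Real.twist {F : FS} {X : Subgroup GL6} (h : Real F X) {g : GL6}
    (hg : g ∈ normalizer (U : Set GL6)) :
    ∃ F' : FS, F.IsIsoVia F' (fun x => gl g * x * (gl g)⁻¹) (fun x => (gl g)⁻¹ * x * gl g) ∧
      Real F' (cjX g X) := by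
  obtain ⟨F', hi⟩ := F.exists_isIsoVia (S' := S0) (θ := fun x => gl g * x * (gl g)⁻¹)
    (η := fun x => (gl g)⁻¹ * x * gl g) (fun x _ y _ => by group) (by
      ext y
      rw [mem_img_conj, mem_S0, mem_S0]
      simpa using (mem_normalizer_iff.1 (inv_mem hg) y.g).symm) fun x _ => by group
  refine ⟨F', hi, fun P f hP => ?_⟩
  have hJ : J ≤ img (fun x => (gl g)⁻¹ * x * gl g) P := fun x hx =>
    tor_mem_img.2 (hP (normal_J.conj_mem x hx _))
  constructor
  · intro hf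
    obtain ⟨-, -, k, hk, e⟩ := (h _ _ hJ).1 (hi.pull hf)
    refine ⟨hf.le, fun x => hf.mem, gl g * k * (gl g)⁻¹, mem_cjX.2 (by simpa [mul_assoc] using mem_aff.1 hk),
      fun x hx => ?_⟩
    have := e _ (mem_img_of_mem hx)
    simp only [show gl g * ((gl g)⁻¹ * x * gl g) * (gl g)⁻¹ = x by group] at this
    calc f x = gl g * ((gl g)⁻¹ * f x * gl g) * (gl g)⁻¹ := by group
      _ = _ := by rw [this]; group
  · rintro ⟨h1, h2, k, hk, e⟩
    have hf : F.Mor (img (fun x => (gl g)⁻¹ * x * gl g) P)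
        fun x => (gl g)⁻¹ * f (gl g * x * (gl g)⁻¹) * gl g :=
      (h _ _ hJ).2 ⟨hi.symm.img_le h1, fun x hx => hi.maps' _ (h2 _ (tor_mem_img.1 hx)),
        (gl g)⁻¹ * k * gl g, mem_cjX.1 hk, fun x hx => by rw [e _ (tor_mem_img.1 hx)]; group⟩
    have := hi.push hf
    rw [hi.symm.img_img h1] at this
    refine this.congr fun x _ => ?_
    simp only [show gl g * ((gl g)⁻¹ * x * gl g) * (gl g)⁻¹ = x by group]
    group

theorem tor_ph_fix (l : K) {x : AG} (hx : x ∈ Ec) : gl (ph l) * x * (gl (ph l))⁻¹ = x := by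
  obtain ⟨⟨⟨a, b, c, h⟩, -⟩, h5⟩ := mem_hy.1 hx
  refine AG.ext ?_ ?_
  · funext i; fin_cases i <;> simp [ph_apply, pf, h5]
  · simp only [mul_g, gl_g, inv_g, h, ph_u]

theorem Wc.twist {F F' : FS} {l : K} {η : AG → AG} (h : Wc F)
    (hi : F.IsIsoVia F' (fun x => gl (ph l) * x * (gl (ph l))⁻¹) η) : Wc F' := by
  obtain ⟨f, hf, hw⟩ := h
  have h1 := hi.push hf
  rw [img_congr fun x hx => tor_ph_fix l hx, img_id'] at h1
  have m : ∀ v a b c, v 5 = 0 → el v a b c ∈ Ec := fun v a b c h =>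
    mem_hy.2 ⟨⟨u_mem .., u_mem ..⟩, h⟩
  refine ⟨fun y => gl (ph l) * f y * (gl (ph l))⁻¹, h1.congr fun x hx => ?_, fun v a hv => ?_, ?_, ?_⟩
  · have := hi.left x (hf.le hx)
    simp only [tor_ph_fix l hx] at this
    simp only [this]
  · simp only [hw.fix v a hv, tor_ph_fix l (m v a 0 0 hv.2.2)]
  · simp only [hw.xb, ← el_zero, tor_ph_fix l (m (e 4) 0 0 0 rfl)]
  · simp only [hw.e4, tor_ph_fix l (m 0 0 (-1) 0 rfl)]

end Cfsg.Agent.C3
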