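import Mathlib
import Cfsg.Agent.C3.Basic
import Cfsg.Agent.C3.Tor

/-! Sylow arguments in `GL6` (PLAN: LW). -/

set_option autoImplicit false
set_option linter.unusedVariables false

namespace Cfsg.Agent.C3

open Cfsg Cfsg.FusionSystem Cfsg.Agent.Fus Subgroup

variable {X : Subgroup GL6}

theorem lw_pz_neg {v : V} (h : Pz v) : Pz (-v) := by
  rcases h with rfl | rfl
  exacts [.inr rfl, .inl (neg_neg _)]

theorem lw_pz_map {g : GL6} (hg : Pz (g (e 0))) {v : V} (h : Pz v) : Pz (g v) := by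
  rcases h with rfl | rfl
  exacts [hg, map_neg g _ ▸ lw_pz_neg hg]

theorem lw_pz_inv {g : GL6} {v : V} (h : Pz (g v)) : v = g⁻¹ (e 0) ∨ v = -g⁻¹ (e 0) := by
  rcases h with h | h
  exacts [.inl (by rw [← h, gl_inv_apply]), .inr (by rw [← map_neg, ← h, gl_inv_apply])]

/-- The stabilizer of `± e 0`. -/
def LWY : Subgroup GL6 where
  carrier := {g | Pz (g (e 0))}
  one_mem' := .inl rfl
  mul_mem' := fun hg hh => lw_pz_map hg hh
  inv_mem' := fun {g} hg => by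
    rcases lw_pz_inv hg with h | h
    exacts [.inl h.symm, .inr (neg_eq_iff_eq_neg.1 h.symm)]

theorem lw_u_e0 (a b c : K) : u a b c (e 0) = e 0 := by revert a b c; decide +kernel

/-- A subgroup of `U` fixing a vector of the orbit. -/
theorem lw_conj (h : Syl X) {v : V} (hv : v ∈ orb X) {P : Subgroup GL6} (hP : P ≤ U)
    (hf : ∀ x ∈ P, x v = v) : ∃ k ∈ X, Pz (k v) ∧ ∀ x ∈ P, k * x * k⁻¹ ∈ U := by
  obtain ⟨g, hg, e1⟩ := hv
  have h1 : ∀ x ∈ P, x (g (e 0)) = g (e 0) := fun x hx => by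
    have := hf x hx
    rcases e1 with rfl | rfl
    exacts [this, neg_injective (by rwa [map_neg] at this)]
  obtain ⟨y, hy, h2⟩ := h.conj_le (Y := X ⊓ LWY) (P := cjX g⁻¹ P) inf_le_left
    (le_inf h.le (by rintro _ ⟨a, b, c, rfl⟩; exact .inl (lw_u_e0 a b c))) (by
      rintro _ ⟨x, hx, rfl⟩
      refine ⟨X.mul_mem (X.mul_mem (X.inv_mem hg) (h.le (hP hx))) (X.inv_mem (X.inv_mem hg)), .inl ?_⟩
      show g⁻¹ (x (g (e 0))) = e 0
      rw [h1 x hx, gl_inv_apply]) ((isPGroup_U.to_le hP).map _)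
  refine ⟨y * g⁻¹, X.mul_mem hy.1 (X.inv_mem hg), lw_pz_map hy.2 ?_, fun x hx => ?_⟩
  · rcases e1 with rfl | rfl
    exacts [.inl (gl_inv_apply ..), .inr ((map_neg ..).trans (congrArg _ (gl_inv_apply ..)))]
  · have := h2 _ (mem_map_of_mem _ hx)
    simpa [mul_assoc] using this

/-- Subgroups of order 9 of `U` contain the centre. -/
theorem lw_s_mem {P : Subgroup GL6} (hP : P ≤ U) (hc : Nat.card P = 9) : u 0 0 1 ∈ P := by
  by_contra hs
  have k : ∀ a b c : K, (u a b c (e 1) 0, u a b c (e 3) 1) = (a, b) := by decide +kernel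
  have hi : Function.Injective fun x : P => (x.1 (e 1) 0, x.1 (e 3) 1) := by
    rintro ⟨x, hx⟩ ⟨y, hy⟩ h
    obtain ⟨a, b, c, rfl⟩ := hP hx
    obtain ⟨a', b', c', rfl⟩ := hP hy
    simp only [k, Prod.mk.injEq] at h
    obtain ⟨rfl, rfl⟩ := h
    have h1 := P.mul_mem (P.inv_mem hx) hy
    have h2 := P.mul_mem (P.inv_mem hy) hx
    rw [u_inv, u_mul] at h1 h2
    have h3 : ∀ a b c c' : K, c = c' ∨ (-a + a = 0 ∧ -b + b = 0 ∧ a * b - c + c' + -a * b = 1) ∨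
        (-a + a = 0 ∧ -b + b = 0 ∧ a * b - c' + c + -a * b = 1) := by decide +kernel
    rcases h3 a b c c' with rfl | h3 | h3
    exacts [rfl, (hs (u_inj.2 h3 ▸ h1)).elim, (hs (u_inj.2 h3 ▸ h2)).elim]
  have hb := (Nat.bijective_iff_injective_and_card _).2 ⟨hi, by rw [hc]; simp⟩
  obtain ⟨⟨x, hx⟩, h1⟩ := hb.2 (1, 0)
  obtain ⟨⟨y, hy⟩, h2⟩ := hb.2 (0, 1)
  obtain ⟨a, b, c, rfl⟩ := hP hx
  obtain ⟨a', b', c', rfl⟩ := hP hy
  simp only [k, Prod.mk.injEq] at h1 h2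
  obtain ⟨rfl, rfl⟩ := h1
  obtain ⟨rfl, rfl⟩ := h2
  have := P.mul_mem (P.mul_mem hx hy) (P.inv_mem (P.mul_mem hy hx))
  rw [u_mul, u_mul, u_inv, u_mul,
    show u _ _ _ = u 0 0 1 from u_inj.2 (by refine ⟨?_, ?_, ?_⟩ <;> ring)] at this
  exact hs this

theorem lw_fix_s : ∀ v : V, u 0 0 1 v = v → InW v := forall_V.2 (by decide +kernel)

theorem lw_fix_W {v : V} (hv : InW v) (b c : K) : u 0 b c v = v := by
  funext i; fin_cases i <;> simp [u_apply, uf, hv.1, hv.2.1, hv.2.2]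

theorem lw_fix_Z {v : V} (hv : InW v) {a b c : K} (ha : a ≠ 0) (h : u a b c v = v) :
    v = v 0 • e 0 := by
  have h2 : v 2 = 0 := by
    have := congrFun h 1
    have h3 : (2 : K) ≠ 0 := by decide
    simpa [u_apply, uf, hv.1, hv.2.1, hv.2.2, ha, h3] using this
  have h1 : v 1 = 0 := by
    simpa [u_apply, uf, hv.1, hv.2.1, hv.2.2, ha, h2] using congrFun h 0
  funext i; fin_cases i <;> simp [e, hv.1, hv.2.1, hv.2.2, h1, h2]

theorem Syl.warg (h : Syl X) {v : V} (hv : v ∈ orb X) (hW : InW v) :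
    ∃ y ∈ X, y ∈ normalizer (Bb : Set GL6) ∧ (v = y (e 0) ∨ v = -y (e 0)) := by
  have hf : ∀ w, InW w → ∀ x ∈ Bb, x w = w := by
    rintro w hw _ ⟨a, b, c, ha, rfl⟩
    obtain rfl : a = 0 := by simpa using ha
    exact lw_fix_W hw b c
  obtain ⟨k, hk, h1, h2⟩ := lw_conj h hv (Bl_le 1 0) (hf v hW)
  refine ⟨k⁻¹, X.inv_mem hk, Subgroup.inv_mem _ (mem_normalizer_fintype fun x hx => ?_), lw_pz_inv h1⟩
  obtain ⟨a, b, c, e1⟩ := h2 x hx
  rw [e1, SetLike.mem_coe, u_mem_Bl, one_mul, zero_mul, add_zero]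
  by_contra ha
  obtain ⟨s, hs, e2⟩ := lw_s_mem (P := C3.cjX k Bb) (by rintro _ ⟨y, hy, rfl⟩; exact h2 y hy) (by
    rw [card_map_of_injective (MulAut.conj k).injective, card_Bl (.inl one_ne_zero)])
  have h3 : ∀ w, InW w → k w = k w 0 • e 0 := fun w hw => by
    have : ∀ y ∈ Bb, (k * y * k⁻¹) (k w) = k w := fun y hy => by
      rw [gl_mul_apply, gl_mul_apply, gl_inv_apply, hf w hw y hy]
    exact lw_fix_Z (lw_fix_s _ (e2 ▸ this s hs)) ha (e1 ▸ this x hx)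
  have h4 : k (k (e 1) 0 • e 0) = k (k (e 0) 0 • e 1) := by
    rw [map_smul, map_smul, h3 (e 0) (by decide), h3 (e 1) (by decide), smul_comm]
    simp [e]
  have h5 : k (e 0) 0 = 0 := by simpa [e] using (congrFun (k.injective h4) 1).symm
  have h6 := h3 (e 0) (by decide)
  rw [h5, zero_smul, map_eq_zero_iff _ k.injective] at h6
  exact absurd h6 (by decide)

/-- `(x - 1)² w`. -/
def lwD (x : GL6) (w : V) : V := x (x w - w) - (x w - w)

theorem lwD_conj (g x : GL6) (w : V) : lwD (g * x * g⁻¹) w = g (lwD x (g⁻¹ w)) := by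
  simp only [lwD, gl_mul_apply, map_sub, gl_inv_apply, gl_apply_inv]

theorem lwD_a (a c : K) (w : V) : ∃ t : K, lwD (u a 0 c) w = t • e 0 :=
  ⟨lwD (u a 0 c) w 0, by
    funext i
    simp only [lwD, map_sub, Pi.sub_apply, u_apply]
    fin_cases i <;> simp [uf, e]⟩

theorem lwD_im {g : GL6} {a c a' b' c' : K} (h : g * u a 0 c * g⁻¹ = u a' b' c') (w : V) :
    ∃ t : K, lwD (u a' b' c') w = t • g (e 0) := by
  obtain ⟨t, ht⟩ := lwD_a a c (g⁻¹ w)
  exact ⟨t, by rw [← h, lwD_conj, ht, map_smul]⟩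

theorem lw_pz_of_smul {t : K} {v w : V} (h : w = t • v) (hw : Pz w) : Pz v := by
  have h3 : ∀ t : K, t = 0 ∨ t = 1 ∨ t = -1 := by decide
  rcases h3 t with rfl | rfl | rfl
  · rw [h, zero_smul] at hw; exact absurd hw (by decide)
  · rwa [h, one_smul] at hw
  · rw [h, neg_smul, one_smul] at hw
    exact neg_neg v ▸ lw_pz_neg hw

theorem lw_b_zero {g : GL6} {a c a' b' c' : K} (h : g * u a 0 c * g⁻¹ = u a' b' c')
    (hg : Pz (g (e 0))) : b' = 0 := by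
  obtain ⟨t, ht⟩ := lwD_im h (e 5)
  have k : ∀ a b c t : K, (lwD (u a b c) (e 5) = t • e 0 ∨ lwD (u a b c) (e 5) = t • -e 0) → b = 0 := by
    decide +kernel
  exact k a' b' c' t (Or.imp (fun h => by rw [ht, h]) (fun h => by rw [ht, h]) hg)

theorem Syl.conic (h : Syl X) {v : V} (hv : v ∈ orb X) (hW : InW v) : Conic v := by
  obtain ⟨y, -, hy, e1⟩ := h.warg hv hW
  obtain ⟨a, b, c, ha, e2⟩ := (mem_normalizer_iff.1 hy (u 0 0 1)).1 (u_mem_Bl.2 (by simp))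
  obtain rfl : a = 0 := by simpa using ha
  have h1 : y (e 0) = lwD (u 0 b c) (y (-e 5)) := by
    rw [← e2, lwD_conj, gl_inv_apply]
    exact congrArg y (by decide +kernel)
  have h2 : y (e 0) 1 * y (e 0) 1 = y (e 0) 0 * y (e 0) 2 := by
    rw [h1]
    generalize y (-e 5) = w
    simp only [lwD, map_sub, Pi.sub_apply, u_apply]
    simp [uf]
    linear_combination (4 * b ^ 2 * c ^ 2 * w 5 ^ 2) * three
  refine ⟨hW, orb_ne_zero hv, ?_⟩
  rcases e1 with rfl | rfl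
  exacts [h2, by simpa using h2]

/-- The fixed vectors of `u a 0 c` in the orbit. -/
theorem lw_fixed (h : Syl X) {v : V} (hv : v ∈ orb X) {a c : K} (ha : a ≠ 0) (hf : u a 0 c v = v) :
    Pz v ∨ ∃ k ∈ X, InW (k (e 0)) ∧ ¬ Pz (k (e 0)) ∧ k * u a 0 c * k⁻¹ ∈ Bb := by
  obtain ⟨k, hk, h1, h2⟩ := lw_conj h hv (zpowers_le.2 (u_mem a 0 c)) fun x hx =>
    (MulAction.mem_stabilizer_iff (G := GL6)).1
      (zpowers_le.2 ((MulAction.mem_stabilizer_iff (G := GL6)).2 hf) hx)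
  obtain ⟨a', b', c', e1⟩ := h2 _ (mem_zpowers _)
  by_cases hp : Pz (k (e 0))
  · have := lw_pz_map (LWY.inv_mem hp) h1
    rw [gl_inv_apply] at this
    exact .inl this
  obtain ⟨t, ht⟩ := lwD_im e1 (e 2)
  obtain ⟨t', ht'⟩ := lwD_im e1 (e 5)
  have k1 : ∀ a b c : K, a ≠ 0 → Pz (lwD (u a b c) (e 2)) := by decide +kernel
  obtain rfl : a' = 0 := by_contra fun h => hp (lw_pz_of_smul ht (k1 _ _ _ h))
  have h3 : u 0 b' c' ≠ 1 := by
    rw [← e1, Ne, conj_eq_one_iff, u_eq_one]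
    exact fun h => ha h.1
  have k2 : ∀ b c : K, ¬ (b = 0 ∧ c = 0) → lwD (u 0 b c) (e 5) ≠ 0 ∧ InW (lwD (u 0 b c) (e 5)) := by
    decide +kernel
  obtain ⟨h4, h5⟩ := k2 b' c' fun h => h3 (u_eq_one.2 ⟨rfl, h⟩)
  rw [ht'] at h4 h5
  have h6 : t' ≠ 0 := fun h => h4 (by rw [h, zero_smul])
  exact .inr ⟨k, hk, by simpa [InW, h6] using h5, hp, e1 ▸ u_mem_Bl.2 (by simp)⟩

theorem Syl.pz_of_b (h : Syl X)
    (hb : ∀ g ∈ X, g ∈ normalizer (Bb : Set GL6) → g ∈ normalizer (U : Set GL6)) :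
    (∀ v ∈ orb X, InW v → Pz v) ∧ ∀ v ∈ orb X, ∀ a c, a ≠ 0 → u a 0 c v = v → Pz v := by
  have h1 : ∀ v ∈ orb X, InW v → Pz v := fun v hv hW => by
    obtain ⟨y, hy, hn, e1⟩ := h.warg hv hW
    obtain ⟨p, r, s, ht, -⟩ := tor_tri (hb y hy hn)
    have h2 : Pz (y (e 0)) := by
      rw [show y (e 0) = tor p r s (e 0) from funext fun i => ht i 0 (Fin.zero_le i)]
      clear ht; revert p r s; decide +kernel
    rcases e1 with rfl | rfl
    exacts [h2, lw_pz_neg h2]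
  refine ⟨h1, fun v hv a c ha hf => (lw_fixed h hv ha hf).resolve_right ?_⟩
  rintro ⟨k, hk, h2, h3, -⟩
  exact h3 (h1 _ (orb_apply (e0_mem_orb X) hk) h2)

theorem Syl.pz_of_a (h : Syl X)
    (ha : ∀ g ∈ X, g ∈ normalizer (Ba : Set GL6) → g ∈ normalizer (U : Set GL6)) :
    ∀ v ∈ orb X, ∀ a c, a ≠ 0 → u a 0 c v = v → Pz v := by
  refine fun v hv a c ha0 hf => (lw_fixed h hv ha0 hf).resolve_right ?_
  rintro ⟨k, hk, h2, -, h3⟩
  obtain ⟨y, hy, hn, e1⟩ := h.warg (orb_apply (e0_mem_orb X) hk) h2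
  obtain ⟨a1, b1, c1, ha1, e2⟩ := (mem_normalizer_iff.1 (Subgroup.inv_mem _ hn) _).1 h3
  obtain rfl : a1 = 0 := by simpa using ha1
  have e3 : y⁻¹ * k * u a 0 c * (y⁻¹ * k)⁻¹ = u 0 b1 c1 := by rw [← e2]; group
  have hk' : y⁻¹ * k ∈ X := X.mul_mem (X.inv_mem hy) hk
  obtain rfl : b1 = 0 := lw_b_zero e3 (by
    rw [gl_mul_apply]
    rcases e1 with e1 | e1 <;> rw [e1]
    exacts [.inl (gl_inv_apply ..), .inr (by rw [map_neg, gl_inv_apply])])
  generalize y⁻¹ * k = m at e3 hk'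
  have hc1 : c1 ≠ 0 := by
    rintro rfl
    rw [u_zero, conj_eq_one_iff, u_eq_one] at e3
    exact ha0 e3.1
  have cen : ∀ x ∈ U, u 0 0 c1 * x = x * u 0 0 c1 := by
    rintro _ ⟨a, b, c, rfl⟩
    rw [u_mul, u_mul, u_inj]
    refine ⟨?_, ?_, ?_⟩ <;> ring
  obtain ⟨z, hz, h4⟩ := h.conj_le (Y := X ⊓ centralizer {u 0 0 c1}) (P := C3.cjX m Ba) inf_le_left
    (le_inf h.le fun x hx => mem_centralizer_singleton_iff.2 (cen x hx).symm) (by
      rintro _ ⟨_, ⟨a', b', c', hb', rfl⟩, rfl⟩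
      obtain rfl : b' = 0 := by simpa using hb'
      refine ⟨X.mul_mem (X.mul_mem hk' (h.le (u_mem ..))) (X.inv_mem hk'),
        mem_centralizer_singleton_iff.2 ?_⟩
      have : u a' 0 c' * u a 0 c = u a 0 c * u a' 0 c' := by
        rw [u_mul, u_mul, u_inj]
        refine ⟨?_, ?_, ?_⟩ <;> ring
      rw [← e3]
      show m * _ * m⁻¹ * _ = _ * (m * _ * m⁻¹)
      rw [conj_mul, conj_mul, this]) ((isPGroup_U.to_le (Bl_le 0 1)).map _)
  have e4 : z * m * u a 0 c * (z * m)⁻¹ = u 0 0 c1 := by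
    rw [show z * m * u a 0 c * (z * m)⁻¹ = z * (m * u a 0 c * m⁻¹) * z⁻¹ by group, e3,
      mem_centralizer_singleton_iff.1 hz.2, mul_inv_cancel_right]
  obtain ⟨t, ht⟩ := lwD_im e4 (e 5)
  have k1 : ∀ c : K, c ≠ 0 → Pz (lwD (u 0 0 c) (e 5)) := by decide +kernel
  have h5 := lw_pz_of_smul ht (k1 c1 hc1)
  have h6 := ha _ (X.mul_mem hz.1 hk') (mem_normalizer_fintype (by
    rintro _ ⟨a', b', c', hb', rfl⟩
    obtain rfl : b' = 0 := by simpa using hb'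
    obtain ⟨a2, b2, c2, e5⟩ := h4 _ (mem_map_of_mem _ (u_mem_Bl.2 (by simp) : u a' 0 c' ∈ Ba))
    have e6 : z * m * u a' 0 c' * (z * m)⁻¹ = u a2 b2 c2 := by
      rw [← e5]; simp [mul_assoc]
    rw [e6, lw_b_zero e6 h5]
    exact u_mem_Bl.2 (by simp)))
  have h7 := cen _ ((mem_normalizer_iff.1 h6 _).1 (u_mem 0 1 0))
  rw [← e4, conj_mul, conj_mul, mul_left_inj, mul_right_inj, u_mul, u_mul, u_inj] at h7
  exact ha0 (by simpa using h7.2.2)

end Cfsg.Agent.C3
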