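import Mathlib
import Cfsg.Agent.C3.Basic

/-! Homomorphisms from `S0` given by generators and relations. -/

set_option autoImplicit false
set_option linter.unusedVariables false

namespace Cfsg.Agent.C3

open Cfsg Cfsg.FusionSystem Cfsg.Agent.Fus Subgroup

/-- `∏ g i ^ v i`. -/
def pw {G : Type*} [Group G] (g : Fin 6 → G) (v : V) : G :=
  g 0 ^ (v 0).val * g 1 ^ (v 1).val * g 2 ^ (v 2).val * g 3 ^ (v 3).val * g 4 ^ (v 4).val *
    g 5 ^ (v 5).val

/-- The relations of `S0`. -/
structure Rel {G : Type*} [Group G] (g : Fin 6 → G) (A B C : G) : Prop where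
  comm : ∀ i k, g i * g k = g k * g i
  cube : ∀ i, g i ^ 3 = 1
  cA : A ^ 3 = 1
  cB : B ^ 3 = 1
  cC : C ^ 3 = 1
  AB : A * B = B * A * C
  AC : A * C = C * A
  BC : B * C = C * B
  Ag : ∀ i, A * g i = pw g (u 1 0 0 (e i)) * A
  Bg : ∀ i, B * g i = pw g (u 0 1 0 (e i)) * B
  ne : g 0 ≠ 1

namespace Lift

variable {G : Type*} [Group G] {g : Fin 6 → G} {A B C : G}

theorem pow_add' {x : G} (h : x ^ 3 = 1) (m n : K) : x ^ (m + n).val = x ^ m.val * x ^ n.val := by
  rw [ZMod.val_add, ← pow_eq_pow_mod _ h, pow_add]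

theorem pow_mul' {x : G} (h : x ^ 3 = 1) (m n : K) : x ^ (m * n).val = x ^ (m.val * n.val) := by
  rw [ZMod.val_mul, ← pow_eq_pow_mod _ h]

theorem val_one : (1 : K).val = 1 := rfl

theorem pw_zero : pw g 0 = 1 := by simp [pw]

theorem pw_e (i : Fin 6) : pw g (e i) = g i := by
  fin_cases i <;> simp [pw, e, val_one]

theorem pw_add (h : Rel g A B C) (v w : V) : pw g (v + w) = pw g v * pw g w := by
  have c : ∀ i k (m n : ℕ), Commute (g i ^ m) (g k ^ n) := fun i k m n => Commute.pow_pow (h.comm i k) m n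
  simp only [pw, Pi.add_apply, pow_add' (h.cube _)]
  rw [Commute.mul_mul_mul_comm (a := g 0 ^ _ * _ * _ * _ * _)
      (((((c _ _ _ _).mul_right (c _ _ _ _)).mul_right (c _ _ _ _)).mul_right (c _ _ _ _)).mul_right (c _ _ _ _)),
    Commute.mul_mul_mul_comm (a := g 0 ^ _ * _ * _ * _)
      ((((c _ _ _ _).mul_right (c _ _ _ _)).mul_right (c _ _ _ _)).mul_right (c _ _ _ _)),
    Commute.mul_mul_mul_comm (a := g 0 ^ _ * _ * _) (((c _ _ _ _).mul_right (c _ _ _ _)).mul_right (c _ _ _ _)),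
    Commute.mul_mul_mul_comm (a := g 0 ^ _ * _) ((c _ _ _ _).mul_right (c _ _ _ _)),
    Commute.mul_mul_mul_comm (a := g 0 ^ (v 0).val) (c 1 0 _ (w 0).val)]

/-- `x` acts as `M`. -/
def Act (g : Fin 6 → G) (x : G) (M : GL6) : Prop := ∀ v, x * pw g v * x⁻¹ = pw g (M v)

theorem act_of (h : Rel g A B C) {x : G} {M : GL6} (hx : ∀ i, x * g i = pw g (M (e i)) * x) : Act g x M := by
  let P : AddSubmonoid V :=
    { carrier := {v | x * pw g v * x⁻¹ = pw g (M v)}
      zero_mem' := by simp [pw_zero]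
      add_mem' := fun {v w} hv hw => by
        show x * _ * _ = _
        rw [map_add, pw_add h, pw_add h, ← hv, ← hw]; group }
  intro v
  have : v = ∑ i, (v i).val • e i := by
    funext k
    simp only [e, Finset.sum_apply, Pi.smul_apply, Pi.single_apply, smul_ite, smul_zero, Finset.sum_ite_eq,
      Finset.mem_univ, if_true]
    rw [nsmul_eq_mul, mul_one, ZMod.natCast_zmod_val]
  show v ∈ P
  rw [this]
  refine sum_mem fun i _ => nsmul_mem ?_ _
  show x * pw g (e i) * x⁻¹ = _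
  rw [pw_e, hx, mul_inv_cancel_right]

theorem Act.mul {x y : G} {M N : GL6} (hx : Act g x M) (hy : Act g y N) : Act g (x * y) (M * N) := fun v => by
  rw [gl_mul_apply, ← hx, ← hy]; group

theorem Act.inv {x : G} {M : GL6} (hx : Act g x M) : Act g x⁻¹ M⁻¹ := fun v => by
  have := hx (M⁻¹ v)
  rw [gl_apply_inv] at this
  rw [← this]; group

theorem Act.pow {x : G} {M : GL6} (hx : Act g x M) (n : ℕ) : Act g (x ^ n) (M ^ n) := by
  induction n with
  | zero => intro v; simp [gl_one_apply]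
  | succ n ih => rw [pow_succ, pow_succ]; exact ih.mul hx

theorem u_pow (a : K) : u 1 0 0 ^ a.val = u a 0 0 ∧ u 0 1 0 ^ a.val = u 0 a 0 ∧ u 0 0 1 ^ a.val = u 0 0 a := by
  have h3 : ∀ a : K, a = 0 ∨ a = 1 ∨ a = 2 := by decide
  rcases h3 a with rfl | rfl | rfl
  · simp [u_zero]
  · simp [val_one]
  · rw [show (2 : K).val = 2 from rfl]
    simp only [pow_two, u_mul, u_inj]
    decide

/-- the normal form in `⟨A, B, C⟩` -/
def w (A B C : G) (a b c : K) : G := B ^ b.val * A ^ a.val * C ^ c.val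

theorem act_w (h : Rel g A B C) (a b c : K) : Act g (w A B C a b c) (u a b c) := by
  have hA := act_of h h.Ag
  have hB := act_of h h.Bg
  have hC : Act g C (u 0 0 1) := by
    have := (hB.mul hA).inv.mul (hA.mul hB)
    rwa [h.AB, inv_mul_cancel_left, u_mul, u_mul, u_inv, u_mul,
      show u _ _ _ = u 0 0 1 from u_inj.2 (by decide)] at this
  have := ((hB.pow b.val).mul (hA.pow a.val)).mul (hC.pow c.val)
  rw [(u_pow a).1, (u_pow b).2.1, (u_pow c).2.2] at this
  simpa [u_mul, w] using this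

theorem AB_pow (h : Rel g A B C) (m n : ℕ) : A ^ m * B ^ n = B ^ n * A ^ m * C ^ (m * n) := by
  have h1 : ∀ n : ℕ, A * B ^ n = B ^ n * A * C ^ n := fun n => by
    induction n with
    | zero => simp
    | succ n ih =>
      rw [pow_succ, ← mul_assoc, ih, mul_assoc, ← (Commute.pow_right h.BC n).eq, ← mul_assoc, mul_assoc _ A,
        h.AB, pow_succ' C]
      simp only [mul_assoc]
  induction m with
  | zero => simp
  | succ m ih =>
    rw [pow_succ, mul_assoc, h1, ← mul_assoc, ← mul_assoc, ih, mul_assoc _ _ A, ← (Commute.pow_right h.AC _).eq,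
      add_mul, one_mul, pow_add]
    simp only [mul_assoc]

theorem w_mul (h : Rel g A B C) (a b c a' b' c' : K) :
    w A B C (a + a') (b + b') (c + c' + a * b') = w A B C a b c * w A B C a' b' c' := by
  have cA : ∀ (m n : ℕ) z, C ^ m * (A ^ n * z) = A ^ n * (C ^ m * z) := fun m n z =>
    (Commute.pow_pow h.AC n m).symm.left_comm z
  have cB : ∀ (m n : ℕ) z, C ^ m * (B ^ n * z) = B ^ n * (C ^ m * z) := fun m n z =>
    (Commute.pow_pow h.BC n m).symm.left_comm z
  have k : ∀ (m n : ℕ) z, A ^ m * (B ^ n * z) = B ^ n * (A ^ m * (C ^ (m * n) * z)) := fun m n z => by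
    rw [← mul_assoc, AB_pow h]; simp only [mul_assoc]
  simp only [w, pow_add' h.cA, pow_add' h.cB, pow_add' h.cC, pow_mul' h.cC, mul_assoc, cB, k, cA]
  rw [← pow_add C, ← pow_add C, ← pow_add C, ← pow_add C, add_comm (_ * _), add_assoc]

end Lift

open Lift

theorem Rel.lift {G : Type*} [Group G] {g : Fin 6 → G} {A B C : G} (h : Rel g A B C) :
    ∃ j : AG → G, MulOn S0 j ∧ (∀ x ∈ S0, ∀ y ∈ S0, j x = j y → x = y) ∧
      (∀ v, j (jv v) = pw g v) ∧ j (el 0 1 0 0) = A ∧ j (el 0 0 1 0) = B ∧ j (el 0 0 0 1) = C := by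
  let j : AG → G := fun x => pw g x.v * w A B C (x.g (e 1) 0) (x.g (e 3) 1) (x.g (e 3) 0)
  have hj : ∀ v a b c, j (el v a b c) = pw g v * w A B C a b c := fun v a b c => by
    simp [j, u_apply, uf, e]
  have hm : MulOn S0 j := fun x hx y hy => by
    obtain ⟨v, a, b, c, rfl⟩ := exists_el hx
    obtain ⟨v', a', b', c', rfl⟩ := exists_el hy
    rw [el_mul, hj, hj, hj, pw_add h, w_mul h, ← u_apply, ← act_w h]; group
  have hv : ∀ v, j (jv v) = pw g v := fun v => by rw [← el_zero, hj]; simp [w]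
  refine ⟨j, hm, fun x hx y hy e1 => ?_, hv, ?_, ?_, ?_⟩
  · by_contra hne
    have hN : hm.hom.ker.map S0.subtype ≠ ⊥ := fun e2 => hne (by
      have : x * y⁻¹ ∈ hm.hom.ker.map S0.subtype := ⟨⟨_, mul_mem hx (inv_mem hy)⟩, by
        show j (x * y⁻¹) = 1
        rw [hm _ hx _ (inv_mem hy), hm.map_inv hy, e1, mul_inv_cancel], rfl⟩
      rwa [e2, mem_bot, mul_inv_eq_one] at this)
    obtain ⟨z, hz, e2⟩ := e0_mem_of_normal (map_subtype_le _)
      (by
        have := le_normalizer_map (H := hm.hom.ker) S0.subtype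
        rwa [normalizer_eq_top, ← MonoidHom.range_eq_map, range_subtype] at this) hN
    have : j z = 1 := hz
    rw [show (z : AG) = jv (e 0) from e2, hv, pw_e] at this
    exact h.ne this
  all_goals rw [hj]; simp [w, pw_zero, val_one]

/-- It is enough to check the action on a basis. -/
theorem Rel.conj_pw {G : Type*} [Group G] {g : Fin 6 → G} {A B C : G} (h : Rel g A B C) {x : G}
    {M : GL6} (hx : ∀ i, x * g i = pw g (M (e i)) * x) (v : V) :
    x * pw g v * x⁻¹ = pw g (M v) := act_of h hx v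

end Cfsg.Agent.C3
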