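import Mathlib
import Cfsg.Agent.C3.Basic

/-! Words and element orders in the three automizers. -/

set_option autoImplicit false
set_option linter.unusedVariables false

namespace Cfsg.Agent.C3

open Cfsg Cfsg.FusionSystem Cfsg.Agent.Fus Subgroup Matrix

namespace Typ

abbrev M6 := Matrix (Fin 6) (Fin 6) K
abbrev M3 := Matrix (Fin 3) (Fin 3) K

/-- `m` is the matrix of `g`. -/
def Is (g : GL6) (m : M6) : Prop := ∀ i j, @Eq K (g (e j) i) (m i j)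

instance (g : GL6) (m : M6) : Decidable (Is g m) :=
  @Fintype.decidableForallFintype _ _ (fun _ => Fintype.decidableForallFintype) _

theorem Is.app {g : GL6} {m : M6} (h : Is g m) (v : V) : g v = m *ᵥ v := by
  have : LinearMap.toMatrix' (g : V →ₗ[K] V) = m := by
    ext i j
    rw [LinearMap.toMatrix'_apply, ← h i j]
    rfl
  rw [← this, LinearMap.toMatrix'_mulVec]
  rfl

theorem Is.mul {g h : GL6} {m n r : M6} (hg : Is g m) (hh : Is h n) (H : m * n = r) :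
    Is (g * h) r := fun i j => by
  rw [gl_mul_apply, hg.app, hh.app, mulVec_mulVec, H]
  simp [e]

theorem Is.eq {g h : GL6} {m : M6} (hg : Is g m) (hh : Is h m) : g = h :=
  gl_ext fun j => funext fun i => (hg i j).trans (hh i j).symm

def x : GL6 := u 1 0 0 * u 0 1 0 * wb 0 * wa 2

theorem x1 : Is x !![1, 1, 1, 1, 1, 1; 2, 1, 0, 2, 1, 1; 1, 0, 0, 1, 0, 2; 2, 1, 0, 1, 0, 2;
    2, 0, 0, 1, 0, 2; 1, 0, 0, 0, 0, 1] := by decide +kernel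

theorem x6 : Is (x ^ 6) !![1, 0, 0, 0, 0, 0; 0, 0, 0, 2, 1, 2; 0, 1, 1, 1, 2, 1; 0, 2, 0, 0, 1, 2;
    0, 1, 0, 1, 0, 1; 0, 0, 0, 0, 0, 1] := by
  have h2 := x1.mul x1 (r := !![0, 0, 1, 0, 2, 0; 2, 2, 2, 1, 0, 1; 2, 2, 1, 2, 1, 2;
    2, 1, 2, 2, 0, 1; 0, 0, 2, 0, 2, 0; 2, 1, 1, 1, 1, 2]) (by decide +kernel)
  have h3 := h2.mul x1 (r := !![2, 0, 0, 0, 0, 0; 2, 2, 2, 0, 1, 2; 0, 0, 2, 1, 1, 2;
    2, 2, 2, 2, 0, 0; 0, 0, 0, 1, 0, 2; 2, 1, 2, 1, 0, 2]) (by decide +kernel)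
  rw [show x ^ 6 = x * x * x * (x * x * x) by simp only [pow_succ, pow_zero, one_mul, mul_assoc]]
  exact h3.mul h3 (by decide +kernel)

theorem x6_ne : x ^ 6 ≠ 1 := fun h => absurd (h ▸ x6) (by decide +kernel)

theorem x18 : (x ^ 2) ^ 3 ^ 2 = 1 := by
  have h2 := x6.mul x6 (r := !![1, 0, 0, 0, 0, 0; 0, 2, 0, 1, 2, 1; 0, 2, 1, 2, 1, 2; 0, 1, 0, 2, 2, 1; 0, 2, 0, 2, 2, 2; 0, 0, 0, 0, 0, 1]) (by decide +kernel)
  have h3 := h2.mul x6 (r := 1) (by decide +kernel)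
  rw [show (x ^ 2) ^ 3 ^ 2 = x ^ 6 * x ^ 6 * x ^ 6 by rw [← pow_mul, ← pow_add, ← pow_add]; rfl]
  exact h3.eq (by decide +kernel)

def y : GL6 := u 1 0 0 * u 0 1 0 * wb 0 * wa 1 * wb 0 * wa 1

theorem y1 : Is y !![1, 1, 1, 1, 1, 1; 0, 2, 2, 1, 1, 2; 0, 1, 1, 0, 0, 1; 1, 1, 2, 0, 1, 1;
    1, 1, 2, 0, 0, 1; 2, 0, 1, 0, 0, 2] := by decide +kernel

theorem y2 : Is (y * y) !![2, 0, 0, 2, 0, 2; 0, 2, 0, 2, 0, 0; 2, 0, 1, 1, 1, 2; 1, 0, 2, 2, 2, 2;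
    0, 2, 0, 2, 2, 1; 0, 0, 2, 2, 2, 1] := y1.mul y1 (by decide +kernel)

theorem y11 : y ^ 11 = sg := by
  have h4 := y2.mul y2 (r := !![0, 0, 2, 0, 2, 1; 2, 1, 1, 2, 1, 1; 1, 2, 1, 1, 0, 2;
    2, 1, 1, 1, 2, 2; 2, 2, 0, 2, 1, 1; 0, 1, 2, 0, 0, 2]) (by decide +kernel)
  have h5 := h4.mul y1 (r := !![1, 1, 1, 0, 0, 0; 1, 2, 0, 0, 2, 1; 0, 1, 1, 0, 1, 2;
    0, 2, 1, 0, 1, 0; 1, 0, 1, 1, 0, 2; 1, 1, 0, 1, 1, 2]) (by decide +kernel)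
  have h10 := h5.mul h5 (r := !![2, 1, 2, 0, 0, 0; 0, 0, 0, 0, 2, 2; 1, 2, 2, 0, 2, 0;
    0, 2, 2, 1, 2, 0; 0, 0, 0, 2, 1, 0; 2, 1, 0, 0, 2, 1]) (by decide +kernel)
  have h11 := h10.mul y1 (r := -1) (by decide +kernel)
  refine Eq.trans ?_ (h11.eq (by decide +kernel))
  simp only [pow_succ, pow_zero, one_mul, mul_assoc]

theorem gen (l : K) : wb 0 ∈ X1 l ∧ wa l ∈ X1 l :=
  ⟨subset_closure (by simp), subset_closure (by simp)⟩

theorem y_mem : y ∈ X1 1 :=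
  mul_mem (mul_mem (mul_mem (mul_mem (mul_mem (U_le_X1 1 (u_mem ..)) (U_le_X1 1 (u_mem ..)))
    (gen 1).1) (gen 1).2) (gen 1).1) (gen 1).2

theorem sg_sq : sg * sg = 1 := LinearEquiv.ext fun v => by
  rw [gl_mul_apply, sg_apply, sg_apply, neg_neg, gl_one_apply]

/-- The symmetric matrix of a vector. -/
def sym (v : V) : M3 := !![v 0, -v 1, -v 3; -v 1, v 2, -v 4; -v 3, -v 4, v 5]

theorem sym_inj {v w : V} (h : sym v = sym w) : v = w := by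
  have k := fun i j => congrFun (congrFun h i) j
  funext i
  fin_cases i
  exacts [k 0 0, neg_injective (k 0 1), k 1 1, neg_injective (k 0 2), neg_injective (k 1 2), k 2 2]

/-- `M` acts on symmetric matrices as `ε g · gᵀ`. -/
def T (M : GL6) (g : GL (Fin 3) K) (ε : Kˣ) : Prop :=
  ∀ v, sym (M v) = (ε : K) • ((g : M3) * sym v * (g : M3)ᵀ)

/-- `sym` as a linear map. -/
def symL : V →ₗ[K] M3 where
  toFun := sym
  map_add' v w := by ext i j; fin_cases i <;> fin_cases j <;> simp [sym, add_comm]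
  map_smul' c v := by ext i j; fin_cases i <;> fin_cases j <;> simp [sym]

theorem T.of {M : GL6} {g g' : M3} (h : g * g' = 1 ∧ g' * g = 1 ∧
    ∀ i, sym (M (e i)) = g * sym (e i) * gᵀ) : T M ⟨g, g', h.1, h.2.1⟩ 1 := fun v => by
  have : symL ∘ₗ (M : V →ₗ[K] V) = LinearMap.mulRight K gᵀ ∘ₗ LinearMap.mulLeft K g ∘ₗ symL :=
    (Pi.basisFun K (Fin 6)).ext fun i => by simpa [e, symL] using h.2.2 i
  simpa [symL] using LinearMap.congr_fun this v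

theorem T.one : T 1 1 1 := fun v => by simp [gl_one_apply]

theorem T.mul {M N : GL6} {g h : GL (Fin 3) K} {ε δ : Kˣ} (a : T M g ε) (b : T N h δ) :
    T (M * N) (g * h) (ε * δ) := fun v => by
  rw [gl_mul_apply, a, b]
  simp only [Units.val_mul, transpose_mul, Matrix.mul_smul, Matrix.smul_mul, smul_smul,
    Matrix.mul_assoc]

theorem T.pow {M : GL6} {g : GL (Fin 3) K} {ε : Kˣ} (a : T M g ε) (n : ℕ) :
    T (M ^ n) (g ^ n) (ε ^ n) := by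
  induction n with
  | zero => simpa using T.one
  | succ n ih => simpa only [pow_succ] using ih.mul a

theorem T.eq_one {M : GL6} (a : T M 1 1) : M = 1 :=
  LinearEquiv.ext fun v => sym_inj (by simpa using a v)

theorem card_gl : Nat.card (GL (Fin 3) K) = 11232 := by
  rw [Matrix.card_GL_field]
  simp [Fin.prod_univ_succ]

theorem T.pow_eq {M : GL6} {g : GL (Fin 3) K} {ε : Kˣ} (a : T M g ε) : M ^ 11232 = 1 := by
  have h := a.pow 11232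
  rw [show g ^ 11232 = 1 from card_gl ▸ pow_card_eq_one', show ε ^ 11232 = 1 by
    rw [show 11232 = 2 * 5616 from rfl, pow_mul, pow_two,
      show ε * ε = 1 from Units.ext (unit_sq ε), one_pow]] at h
  exact h.eq_one

/-- The image of `GL₃(3) × E`. -/
def Rg (E : Subgroup Kˣ) : Subgroup GL6 where
  carrier := {M | ∃ g, ∃ ε ∈ E, T M g ε}
  one_mem' := ⟨1, 1, one_mem _, T.one⟩
  mul_mem' := fun ⟨_, _, h, a⟩ ⟨_, _, h', b⟩ => ⟨_, _, mul_mem h h', a.mul b⟩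
  inv_mem' := fun {M} ⟨_, _, h, a⟩ => ⟨_, _, pow_mem h 11231, by
    rw [inv_eq_of_mul_eq_one_left ((pow_succ M 11231).symm.trans a.pow_eq)]
    exact a.pow _⟩

theorem X1_le (E : Subgroup Kˣ) : X1 0 ≤ Rg E := by
  rw [X1, closure_le]
  rintro _ (rfl | rfl | rfl | rfl)
  · exact ⟨_, 1, one_mem _, T.of (g := !![1, 1, 0; 0, 1, 0; 0, 0, 1])
      (g' := !![1, 2, 0; 0, 1, 0; 0, 0, 1]) (by decide +kernel)⟩
  · exact ⟨_, 1, one_mem _, T.of (g := !![1, 0, 0; 0, 1, 1; 0, 0, 1])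
      (g' := !![1, 0, 0; 0, 1, 2; 0, 0, 1]) (by decide +kernel)⟩
  · exact ⟨_, 1, one_mem _, T.of (g := !![1, 0, 0; 0, 0, 1; 0, 2, 0])
      (g' := !![1, 0, 0; 0, 0, 2; 0, 1, 0]) (by decide +kernel)⟩
  · exact ⟨_, 1, one_mem _, T.of (g := !![0, 1, 0; 2, 0, 0; 0, 0, 1])
      (g' := !![0, 2, 0; 1, 0, 0; 0, 0, 1]) (by decide +kernel)⟩

theorem sg_mem : sg ∈ Rg ⊤ := ⟨1, -1, mem_top _, fun v => by
  rw [sg_apply]
  ext i j
  fin_cases i <;> fin_cases j <;> simp [sym]⟩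

theorem sg_notMem : sg ∉ X1 0 := fun h => by
  obtain ⟨g, ε, hε, a⟩ := X1_le ⊥ h
  obtain rfl := mem_bot.1 hε
  have h1 := congrFun (congrFun (a (e 0)) 0) 0
  have : ∀ c : K, -1 ≠ c * c := by decide
  refine this ((g : M3) 0 0) ?_
  simpa [sg_apply, sym, e, Matrix.mul_apply, Fin.sum_univ_three, vecMul, dotProduct] using h1

theorem no11 {X : Subgroup GL6} (h : X ≤ Rg ⊤) : ¬ ∃ M ∈ X, M ≠ 1 ∧ M ^ 11 = 1 := by
  rintro ⟨M, hM, h1, h2⟩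
  obtain ⟨g, ε, -, a⟩ := h hM
  exact h1 (by simpa using (pow_gcd_eq_one.2 ⟨h2, a.pow_eq⟩ : M ^ Nat.gcd 11 11232 = 1))

end Typ

theorem Syl.not_two {X : Subgroup GL6} (h : Syl X) (hb : wb 0 ∈ X) (ha : wa 2 ∈ X) : False := by
  have hx : Typ.x ^ 2 ∈ X :=
    pow_mem (mul_mem (mul_mem (mul_mem (h.le (u_mem ..)) (h.le (u_mem ..))) hb) ha) 2
  obtain ⟨k, -, hk⟩ := (Nat.dvd_prime_pow Nat.prime_three).1 (orderOf_dvd_of_pow_eq_one Typ.x18)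
  obtain ⟨g, -, hg⟩ := h.conj_le le_rfl h.le (zpowers_le.2 hx)
    (IsPGroup.of_card ((Nat.card_zpowers _).trans hk))
  obtain ⟨a, b, c, e1⟩ := hg _ (mem_zpowers _)
  have h3 := u_cube a b c
  rw [← e1, conj_pow, conj_eq_one_iff, ← pow_mul] at h3
  exact Typ.x6_ne h3

theorem sg_mem_X1 : sg ∈ X1 1 := Typ.y11 ▸ pow_mem Typ.y_mem 11

theorem sg_mem_Xs (i : Fin 3) : sg ∈ Xs i ↔ i ≠ 0 := by
  fin_cases i
  · exact iff_of_false Typ.sg_notMem (by simp)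
  · exact iff_of_true (mem_sup_right (mem_zpowers _)) (by simp)
  · exact iff_of_true sg_mem_X1 (by simp)

theorem ord11_Xs (i : Fin 3) : (∃ M ∈ Xs i, M ≠ 1 ∧ M ^ 11 = 1) ↔ i = 2 := by
  fin_cases i
  · exact iff_of_false (Typ.no11 (Typ.X1_le ⊤)) (by simp)
  · exact iff_of_false (Typ.no11 (sup_le (Typ.X1_le ⊤) (zpowers_le.2 Typ.sg_mem))) (by simp)
  · refine iff_of_true ⟨Typ.y * Typ.y, mul_mem Typ.y_mem Typ.y_mem,
      fun h => absurd (h ▸ Typ.y2) (by decide +kernel), ?_⟩ rfl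
    rw [(Commute.refl _).mul_pow, Typ.y11, Typ.sg_sq]

end Cfsg.Agent.C3
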