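import Mathlib
import Cfsg.Agent.C3.Basic

set_option autoImplicit false
set_option linter.unusedVariables false
set_option synthInstance.maxSize 2048

namespace Cfsg.Agent.C3

open Cfsg Cfsg.FusionSystem Cfsg.Agent.Fus Subgroup

namespace Wb

abbrev M4 := K × K × K × K

def mm (x y : M4) : M4 := (x.1 * y.1 + x.2.1 * y.2.2.1, x.1 * y.2.1 + x.2.1 * y.2.2.2,
  x.2.2.1 * y.1 + x.2.2.2 * y.2.2.1, x.2.2.1 * y.2.1 + x.2.2.2 * y.2.2.2)

def tv (t : K) : M4 := (1, 0, -t, 1)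

def Act (h : GL6) (m : M4) : Prop :=
  ∀ a c, h * u a 0 c = u (m.1 * a + m.2.1 * c) 0 (m.2.2.1 * a + m.2.2.2 * c) * h

theorem Act.mul {h h' : GL6} {m m' : M4} (H : Act h m) (H' : Act h' m') :
    Act (h * h') (mm m m') := fun a c => by
  rw [mul_assoc, H', ← mul_assoc, H, mul_assoc]
  congr 2 <;> simp only [mm] <;> ring

theorem act_u (a b c : K) : Act (u a b c) (tv b) := fun a' c' => by
  rw [u_mul, u_mul, u_inj]
  simp only [tv]
  refine ⟨?_, ?_, ?_⟩ <;> ring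

theorem act_one : Act 1 (1, 0, 0, 1) := fun a c => by simp

theorem act_tor (p r s : Kˣ) : Act (tor p r s) (p, 0, 0, p * r) := fun a c => by
  rw [← mul_inv_eq_iff_eq_mul, tor_u]
  simp

theorem act_wb : Act (wb 0)⁻¹ (0, -1, 1, 0) := fun a c => by
  have := wb_u 0 (-c) a
  rw [neg_neg] at this
  rw [← this]
  simp [mul_assoc]

theorem Act.uniq {h : GL6} {m m' : M4} (H : Act h m) (H' : Act h m') : m = m' := by
  have h1 := u_inj.1 (mul_right_cancel ((H 1 0).symm.trans (H' 1 0)))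
  have h2 := u_inj.1 (mul_right_cancel ((H 0 1).symm.trans (H' 0 1)))
  simp only [mul_one, mul_zero, add_zero, zero_add, true_and] at h1 h2
  exact Prod.ext h1.1 (Prod.ext h2.1 (Prod.ext h1.2 h2.2))

theorem upow (p r : K) (n : ℕ) : u p 0 r ^ n = u (n * p) 0 (n * r) := by
  induction n with
  | zero => simp [u_zero]
  | succ n ih => rw [pow_succ, ih, u_mul]; congr 1 <;> push_cast <;> ring

theorem mem_Ba {x : GL6} : x ∈ Ba ↔ ∃ a c, x = u a 0 c :=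
  ⟨fun ⟨a, b, c, h, e⟩ => ⟨a, c, by rw [e, show b = 0 by simpa using h]⟩,
    fun ⟨a, c, e⟩ => ⟨a, 0, c, by simp, e⟩⟩

theorem exists_act {g : GL6} (h : g ∈ normalizer (Ba : Set GL6)) : ∃ m, Act g m := by
  obtain ⟨p, r, h1⟩ := mem_Ba.1 ((mem_normalizer_iff.1 h _).1 (mem_Ba.2 ⟨1, 0, rfl⟩))
  obtain ⟨q, s, h2⟩ := mem_Ba.1 ((mem_normalizer_iff.1 h _).1 (mem_Ba.2 ⟨0, 1, rfl⟩))
  refine ⟨(p, q, r, s), fun a c => ?_⟩
  have e : u a 0 c = u 1 0 0 ^ a.val * u 0 0 1 ^ c.val := by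
    rw [upow, upow, u_mul]; simp
  rw [← mul_inv_eq_iff_eq_mul, e, ← conj_mul, ← conj_pow, ← conj_pow, h1, h2, upow, upow, u_mul]
  congr 1 <;> simp <;> ring

theorem Act.norm {g : GL6} {m : M4} (H : Act g m) : g ∈ normalizer (Ba : Set GL6) :=
  mem_normalizer_fintype fun x hx => by
    obtain ⟨a, c, rfl⟩ := mem_Ba.1 hx
    exact mem_Ba.2 ⟨_, _, by rw [H, mul_inv_cancel_right]⟩

theorem u_e0 (a b c : K) : u a b c (e 0) = e 0 := by revert a b c; decide +kernel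

theorem L1 : ∀ v : V, InI v → InZ (uf 1 0 0 v - v) ∧ InZ (uf 0 0 1 v - v) := by
  rw [forall_V]; decide +kernel

theorem L2 : ∀ v : V, InI (uf 1 0 0 v - v) ∧ InI (uf 0 0 1 v - v) := by
  rw [forall_V]; decide +kernel

theorem L3 : ∀ v : V, uf 1 0 0 v - v = 0 → uf 0 0 1 v - v = 0 → InZ v := by
  rw [forall_V]; decide +kernel

theorem L4 : ∀ v : V, InZ (uf 1 0 0 v - v) → InZ (uf 0 0 1 v - v) → InI v := by
  rw [forall_V]; decide +kernel

theorem L5 : ∀ v : V, InZ v → v = v 0 • e 0 := by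
  rw [forall_V]; decide +kernel

theorem Act.fix {g : GL6} {m : M4} (H : Act g m) (a b c : K) :
    (g * u a b c * g⁻¹) (e 0) = e 0 := by
  have h : ∀ a c, uf a 0 c (g⁻¹ (e 0)) - g⁻¹ (e 0) = 0 := fun a c => by
    rw [sub_eq_zero, ← u_apply, ← g.injective.eq_iff, ← gl_mul_apply, H, gl_mul_apply, gl_apply_inv,
      u_e0]
  have h1 := L5 _ (L3 _ (h 1 0) (h 0 1))
  rw [gl_mul_apply, gl_mul_apply, h1, map_smul, u_e0, ← h1, gl_apply_inv]

theorem cen {k : GL6} (H : Act k (1, 0, 0, 1)) (h0 : k (e 0) = e 0) :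
    (∀ v, InZ v → k v - v = 0) ∧ (∀ v, InI v → InZ (k v - v)) ∧ ∀ v, InI (k v - v) := by
  have hc : ∀ a c v, uf a 0 c (k v - v) - (k v - v) = k (uf a 0 c v - v) - (uf a 0 c v - v) :=
    fun a c v => by
      have := congrArg (fun g : GL6 => g v) (H a c)
      simp only [one_mul, zero_mul, add_zero, zero_add, gl_mul_apply] at this
      rw [← u_apply, ← u_apply, map_sub, map_sub, this]
      abel
  have h1 : ∀ v, InZ v → k v - v = 0 := fun v hv => by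
    rw [L5 v hv, map_smul, h0, sub_self]
  have h2 : ∀ v, InI v → InZ (k v - v) := fun v hv =>
    L3 _ (by rw [hc, h1 _ (L1 v hv).1]) (by rw [hc, h1 _ (L1 v hv).2])
  exact ⟨h1, h2, fun v => L4 _ (by rw [hc]; exact h2 _ (L2 v).1) (by rw [hc]; exact h2 _ (L2 v).2)⟩

theorem act_iff {k : GL6} : k ∈ centralizer (Ba : Set GL6) ↔ Act k (1, 0, 0, 1) :=
  ⟨fun h a c => by simpa using (h _ (mem_Ba.2 ⟨a, c, rfl⟩)).symm, fun h x hx => by
    obtain ⟨a, c, rfl⟩ := mem_Ba.1 hx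
    simpa using (h a c).symm⟩

theorem k1 {X : Subgroup GL6} (h : Syl X) {k : GL6} (hk : k ∈ X) (H : Act k (1, 0, 0, 1))
    (h0 : k (e 0) = e 0) : ∃ a c, k = u a 0 c := by
  let P := (X ⊓ centralizer (Ba : Set GL6)) ⊓ MulAction.stabilizer GL6 (e 0)
  have hP : ∀ x, x ∈ P ↔ (x ∈ X ∧ Act x (1, 0, 0, 1)) ∧ x (e 0) = e 0 := fun x => by
    rw [← act_iff]; rfl
  have hp : IsPGroup 3 P := isPGroup_of_flag
    (fun i v => match i with | 0 => True | 1 => InI v | 2 => InZ v | _ => v = 0) 3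
    (fun _ => trivial) (fun _ h => h) fun g hg i hi v hv => by
      obtain ⟨⟨-, h1⟩, h2⟩ := (hP g).1 hg
      obtain ⟨h3, h4, h5⟩ := cen h1 h2
      interval_cases i
      exacts [h5 v, h4 v hv, h3 v hv]
  have hn : U ≤ normalizer (P : Set GL6) := le_normalizer_iff.2 <| by
    rintro _ ⟨a, b, c, rfl⟩ x hx
    obtain ⟨⟨h1, h2⟩, h3⟩ := (hP x).1 hx
    refine (hP _).2 ⟨⟨mul_mem (mul_mem (h.le (u_mem ..)) h1) (inv_mem (h.le (u_mem ..))), ?_⟩, ?_⟩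
    · rw [u_inv]
      convert ((act_u a b c).mul h2).mul (act_u _ _ _) using 1
      simp [mm, tv]
    · rw [u_inv, gl_mul_apply, gl_mul_apply, u_e0, h3, u_e0]
  obtain ⟨a, b, c, rfl⟩ := h.le_of_norm (inf_le_left.trans inf_le_left) hp hn ((hP k).2 ⟨⟨hk, H⟩, h0⟩)
  have := (act_u a b c).uniq H
  simp only [tv, Prod.mk.injEq, neg_eq_zero, true_and, and_true] at this
  exact ⟨a, c, by rw [this]⟩

theorem D1 : ∀ m m' : M4, mm m m' = (1, 0, 0, 1) → m.2.1 = 0 →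
    ∃ k, mm (mm (mm m (tv 1)) m') (tv k) = (1, 0, 0, 1) := by decide +kernel

theorem D2 : ∀ m m' : M4, mm m m' = (1, 0, 0, 1) → m.2.1 ≠ 0 →
    ∃ t k, mm (mm (tv k) (mm (mm m (tv t)) m')) (tv (-k)) = (1, 1, 0, 1) := by decide +kernel

def psf (a b c : K) (v : V) : V := ![v 0 + (a * v 2 + b * v 4 + c * v 5), v 1, v 2, v 3, v 4, v 5]

def ps (a b c : K) : GL6 :=
  mkL (psf a b c) (psf (-a) (-b) (-c)) (fun v w => by funext i; fin_cases i <;> simp [psf]; ring)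
    (fun v => by funext i; fin_cases i <;> simp [psf]; ring)
    (fun v => by funext i; fin_cases i <;> simp [psf]; ring)

theorem L6 : ∀ v : V, (InZ (v - e 1) → d1 v = -v → v = e 1) ∧ (InZ (v - e 3) → d1 v = -v → v = e 3) ∧
    (InI (v - e 2) → d1 v = v → v = e 2 + v 0 • e 0) ∧
    (InI (v - e 4) → d1 v = v → v = e 4 + v 0 • e 0) ∧
    (InI (v - e 5) → d1 v = v → v = e 5 + v 0 • e 0) := by
  rw [forall_V]; decide +kernel

theorem L7 : d1 (e 1) = -e 1 ∧ d1 (e 3) = -e 3 ∧ d1 (e 2) = e 2 ∧ d1 (e 4) = e 4 ∧ d1 (e 5) = e 5 ∧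
    InI (e 1) ∧ InI (e 3) := by decide +kernel

theorem L8 : ∀ a b c : K, ps a b c (e 0) = e 0 ∧ ps a b c (e 1) = e 1 ∧
    ps a b c (e 2) = e 2 + a • e 0 ∧ ps a b c (e 3) = e 3 ∧ ps a b c (e 4) = e 4 + b • e 0 ∧
    ps a b c (e 5) = e 5 + c • e 0 := by decide +kernel

theorem exists_ps {k : GL6} (H : Act k (1, 0, 0, 1)) (h0 : k (e 0) = e 0) (hd : d1 * k = k * d1) :
    ∃ a b c, k = ps a b c := by
  obtain ⟨-, h2, h3⟩ := cen H h0
  have hc : ∀ v, d1 (k v) = k (d1 v) := fun v => congrArg (fun g : GL6 => g v) hd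
  obtain ⟨e1, e3, e2, e4, e5, i1, i3⟩ := L7
  obtain ⟨p0, p1, p2, p3, p4, p5⟩ := L8 (k (e 2) 0) (k (e 4) 0) (k (e 5) 0)
  refine ⟨k (e 2) 0, k (e 4) 0, k (e 5) 0, gl_ext fun i => ?_⟩
  fin_cases i
  · exact h0.trans p0.symm
  · exact ((L6 _).1 (h2 _ i1) (by rw [hc, e1, map_neg])).trans p1.symm
  · exact ((L6 _).2.2.1 (h3 _) (by rw [hc, e2])).trans p2.symm
  · exact ((L6 _).2.1 (h2 _ i3) (by rw [hc, e3, map_neg])).trans p3.symm
  · exact ((L6 _).2.2.2.1 (h3 _) (by rw [hc, e4])).trans p4.symm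
  · exact ((L6 _).2.2.2.2 (h3 _) (by rw [hc, e5])).trans p5.symm

theorem D3 : ∀ a b c x y : K, (∀ i, (ps a b c * wb 0 * (ps a b c * wb 0)) (e i) = d1 (e i)) →
    (∀ i, (ps a b c * wb 0 * u 0 1 0 * (ps a b c * wb 0 * u 0 1 0) * (ps a b c * wb 0 * u 0 1 0))
      (e i) = u x 0 y (e i)) → ∀ i, (ps a b c * wb 0) (e i) = wb c (e i) := by decide +kernel

theorem D4 : ∀ (b : K) (p r : Kˣ), mm (tv b) (p, 0, 0, p * r) = mm (0, 1, -1, 0) (0, 1, -1, 0) →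
    b = 0 ∧ p = -1 ∧ r = 1 := by decide +kernel

theorem D5 : ∀ p r s : Kˣ, tor p r s (e 0) = e 0 → s = 1 := by decide +kernel

theorem D6 (a c : K) : u a 0 c * (u a 0 c * d1) * u (-a) 0 (-c) = d1 := by
  refine gl_ext fun i => ?_
  revert a c i
  decide +kernel

end Wb

open Wb

/-- An element of `N_X(Ba)` fixing `⟨u 0 0 1⟩` normalizes `U`. -/
theorem Syl.norm_U_of_a {X : Subgroup GL6} (h : Syl X) {g : GL6} (hg : g ∈ X)
    (h1 : g ∈ normalizer (Ba : Set GL6)) {c : K} (h2 : g * u 0 0 1 * g⁻¹ = u 0 0 c) :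
    g ∈ normalizer (U : Set GL6) := by
  obtain ⟨m, hm⟩ := exists_act h1
  obtain ⟨m', hm'⟩ := exists_act (inv_mem h1)
  have h3 : m.2.1 = 0 := by
    rw [hm, mul_inv_cancel_right, u_inj] at h2
    simpa using h2.1
  obtain ⟨k, hk⟩ := D1 m m' ((hm.mul hm').uniq (by rw [mul_inv_cancel]; exact act_one)) h3
  obtain ⟨a, c, h4⟩ := k1 h (mul_mem (mul_mem (mul_mem hg (h.le (u_mem 0 1 0))) (inv_mem hg))
    (h.le (u_mem 0 k 0))) (hk ▸ ((hm.mul (act_u _ _ _)).mul hm').mul (act_u _ _ _))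
    (by rw [gl_mul_apply, u_e0, hm.fix])
  have h5 : U ≤ U.comap (MulAut.conj g).toMonoidHom := U_le_of
    (by change g * _ * g⁻¹ ∈ U; rw [hm, mul_inv_cancel_right]; exact u_mem ..)
    (by change g * _ * g⁻¹ ∈ U
        rw [eq_mul_inv_of_mul_eq h4]; exact mul_mem (u_mem ..) (inv_mem (u_mem ..)))
  exact mem_normalizer_fintype fun x hx => h5 hx

theorem exists_wb {X : Subgroup GL6} (h : Syl X) (ht : Tor X) {g : GL6} (hg : g ∈ X)
    (h1 : g ∈ normalizer (Ba : Set GL6)) (h2 : g ∉ normalizer (U : Set GL6)) :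
    ∃ m, wb m ∈ X := by
  have hu : ∀ a b c, u a b c ∈ X := fun a b c => h.le (u_mem a b c)
  obtain ⟨m, hm⟩ := exists_act h1
  obtain ⟨m', hm'⟩ := exists_act (inv_mem h1)
  have h3 : m.2.1 ≠ 0 := fun h3 => h2 (h.norm_U_of_a hg h1 (c := m.2.2.2)
    (by rw [hm, mul_inv_cancel_right, h3]; simp))
  obtain ⟨t, k, hk⟩ := D2 m m' ((hm.mul hm').uniq (by rw [mul_inv_cancel]; exact act_one)) h3
  obtain ⟨y, y1, y2, y3⟩ : ∃ y ∈ X, Act y (1, 1, 0, 1) ∧ y (e 0) = e 0 :=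
    ⟨_, mul_mem (mul_mem (hu 0 k 0) (mul_mem (mul_mem hg (hu 0 t 0)) (inv_mem hg))) (hu 0 (-k) 0),
      hk ▸ ((act_u _ _ _).mul ((hm.mul (act_u _ _ _)).mul hm')).mul (act_u _ _ _),
      by rw [gl_mul_apply, u_e0, gl_mul_apply, hm.fix, u_e0]⟩
  obtain ⟨z, z1, z2, z3⟩ : ∃ z ∈ X, Act z (0, 1, -1, 0) ∧ z (e 0) = e 0 :=
    ⟨_, mul_mem (mul_mem y1 (hu 0 1 0)) y1, by
      convert (y2.mul (act_u _ _ _)).mul y2 using 1; decide,
      by rw [gl_mul_apply, gl_mul_apply, y3, u_e0, y3]⟩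
  have z4 := z2.mul z2
  obtain ⟨a, b, c, p, r, s, z5⟩ := ht _ (mul_mem z1 z1) (h.norm_U_of_a (mul_mem z1 z1) z4.norm
    (c := -1) (by rw [z4, mul_inv_cancel_right]; simp [mm]))
  obtain ⟨rfl, rfl, rfl⟩ := D4 b p r (((act_u a b c).mul (act_tor p r s)).uniq (z5 ▸ z4))
  obtain rfl : s = 1 := D5 (-1) 1 s (by
    rw [← (u a 0 c).injective.eq_iff, ← gl_mul_apply, ← z5, gl_mul_apply, z3, z3, u_e0])
  obtain ⟨w, w1, w2, w3, w4⟩ : ∃ w ∈ X, Act w (0, 1, -1, 0) ∧ w (e 0) = e 0 ∧ w * w = d1 :=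
    ⟨u a 0 c * z * u (-a) 0 (-c), mul_mem (mul_mem (hu ..) z1) (hu ..), by
      convert ((act_u _ _ _).mul z2).mul (act_u _ _ _) using 1; decide,
      by rw [gl_mul_apply, gl_mul_apply, u_e0, z3, u_e0], by
      have e : u (-a) 0 (-c) * u a 0 c = 1 := by rw [u_mul, u_eq_one]; simp
      rw [← D6 a c, d1, ← z5]
      calc _ = u a 0 c * z * (u (-a) 0 (-c) * u a 0 c) * z * u (-a) 0 (-c) := by group
        _ = _ := by rw [e]; group⟩
  have b0 : (wb 0)⁻¹ (e 0) = e 0 := by decide +kernel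
  obtain ⟨α, β, γ, hp⟩ := exists_ps (k := w * (wb 0)⁻¹)
    (by convert w2.mul act_wb using 1; decide) (by rw [gl_mul_apply, b0, w3]) (by
      rw [← mul_assoc, ← w4, mul_assoc w (wb 0)⁻¹, w4, ← wb_sq 0, inv_mul_cancel_left, wb_sq,
        mul_inv_eq_iff_eq_mul, mul_assoc w (wb 0), wb_sq, ← w4, mul_assoc])
  have v2 := w2.mul (act_u 0 1 0)
  have v1 := mul_mem w1 (hu 0 1 0)
  have v3 : (w * u 0 1 0) (e 0) = e 0 := by rw [gl_mul_apply, u_e0, w3]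
  obtain ⟨x, y, v4⟩ := k1 h (mul_mem (mul_mem v1 v1) v1)
    (by convert (v2.mul v2).mul v2 using 1; decide)
    (by rw [gl_mul_apply, v3, gl_mul_apply, v3, v3])
  obtain rfl := eq_mul_of_mul_inv_eq hp
  exact ⟨γ, gl_ext (D3 α β γ x y (fun i => by rw [w4]) fun i => by rw [v4]) ▸ w1⟩

end Cfsg.Agent.C3
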