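import Mathlib
import Cfsg.Agent.C3.Wb

set_option autoImplicit false
set_option linter.unusedVariables false
set_option synthInstance.maxSize 2048

namespace Cfsg.Agent.C3

open Cfsg Cfsg.FusionSystem Cfsg.Agent.Fus Subgroup

namespace Wa

open Wb (M4 mm)

def tv (t : K) : M4 := (1, 0, t, 1)

def Act (h : GL6) (m : M4) : Prop :=
  ∀ b c, h * u 0 b c = u 0 (m.1 * b + m.2.1 * c) (m.2.2.1 * b + m.2.2.2 * c) * h

theorem Act.mul {h h' : GL6} {m m' : M4} (H : Act h m) (H' : Act h' m') :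
    Act (h * h') (mm m m') := fun a c => by
  rw [mul_assoc, H', ← mul_assoc, H, mul_assoc]
  congr 2 <;> simp only [mm] <;> ring

theorem act_u (a b c : K) : Act (u a b c) (tv a) := fun a' c' => by
  rw [u_mul, u_mul, u_inj]
  simp only [tv]
  refine ⟨?_, ?_, ?_⟩ <;> ring

theorem act_one : Act 1 (1, 0, 0, 1) := fun a c => by simp

theorem act_d3 : Act d3 (-1, 0, 0, -1) := fun a c => by
  rw [← mul_inv_eq_iff_eq_mul, d3, tor_u]
  simp

theorem act_wa : Act (wa 0)⁻¹ (0, 1, -1, 0) := fun b c => by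
  have := wa_u 0 c (-b)
  rw [neg_neg] at this
  rw [← this]
  simp [mul_assoc]

theorem Act.uniq {h : GL6} {m m' : M4} (H : Act h m) (H' : Act h m') : m = m' := by
  have h1 := u_inj.1 (mul_right_cancel ((H 1 0).symm.trans (H' 1 0)))
  have h2 := u_inj.1 (mul_right_cancel ((H 0 1).symm.trans (H' 0 1)))
  simp only [mul_one, mul_zero, add_zero, zero_add, true_and] at h1 h2
  exact Prod.ext h1.1 (Prod.ext h2.1 (Prod.ext h1.2 h2.2))

theorem upow (p r : K) (n : ℕ) : u 0 p r ^ n = u 0 (n * p) (n * r) := by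
  induction n with
  | zero => simp [u_zero]
  | succ n ih => rw [pow_succ, ih, u_mul]; congr 1 <;> push_cast <;> ring

theorem mem_Bb {x : GL6} : x ∈ Bb ↔ ∃ b c, x = u 0 b c :=
  ⟨fun ⟨a, b, c, h, e⟩ => ⟨b, c, by rw [e, show a = 0 by simpa using h]⟩,
    fun ⟨b, c, e⟩ => ⟨0, b, c, by simp, e⟩⟩

theorem exists_act {g : GL6} (h : g ∈ normalizer (Bb : Set GL6)) : ∃ m, Act g m := by
  obtain ⟨p, r, h1⟩ := mem_Bb.1 ((mem_normalizer_iff.1 h _).1 (mem_Bb.2 ⟨1, 0, rfl⟩))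
  obtain ⟨q, s, h2⟩ := mem_Bb.1 ((mem_normalizer_iff.1 h _).1 (mem_Bb.2 ⟨0, 1, rfl⟩))
  refine ⟨(p, q, r, s), fun a c => ?_⟩
  have e : u 0 a c = u 0 1 0 ^ a.val * u 0 0 1 ^ c.val := by
    rw [upow, upow, u_mul]; simp
  rw [← mul_inv_eq_iff_eq_mul, e, ← conj_mul, ← conj_pow, ← conj_pow, h1, h2, upow, upow, u_mul]
  congr 1 <;> simp <;> ring

/-- Trivial on `V / J5`. -/
def Top (g : GL6) : Prop := ∀ v, g v 5 = v 5

theorem Top.mul {g h : GL6} (H : Top g) (H' : Top h) : Top (g * h) := fun v => (H _).trans (H' v)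

theorem Top.inv {g : GL6} (H : Top g) : Top g⁻¹ := fun v => by rw [← H (g⁻¹ v), gl_apply_inv]

theorem top_u (a b c : K) : Top (u a b c) := fun _ => rfl

theorem top_d3 : Top d3 := fun v => by simp [d3, tor_apply, tf]

theorem top_wa : Top (wa 0) := fun _ => rfl

theorem L0 : ∀ v : V, v 5 = 0 → v = v 0 • (uf 0 0 1 (e 3) - e 3) + v 1 • (uf 0 1 0 (e 3) - e 3) +
    v 2 • (uf 0 1 0 (e 4) - e 4) + v 3 • (e 0 - (uf 0 0 1 (e 5) - e 5)) +
    v 4 • (e 2 - (uf 0 1 0 (e 5) - e 5)) := by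
  rw [forall_V]; decide +kernel

theorem L0' : e 0 = uf 0 0 1 (e 3) - e 3 ∧ e 2 = uf 0 1 0 (e 4) - e 4 := by decide +kernel

theorem Act.j5 {g : GL6} {m : M4} (H : Act g m) {v : V} (hv : v 5 = 0) : g v 5 = 0 := by
  have h : ∀ b c v, g (uf 0 b c v - v) 5 = 0 := fun b c v => by
    rw [map_sub, ← u_apply, ← gl_mul_apply, H, gl_mul_apply, Pi.sub_apply, top_u, sub_self]
  rw [L0 v hv]
  conv_lhs => rw [L0'.1, L0'.2]
  simp only [map_add, map_smul, Pi.add_apply, Pi.smul_apply, h, smul_zero, add_zero,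
    map_sub g (uf 0 0 1 (e 3) - e 3), map_sub g (uf 0 1 0 (e 4) - e 4), Pi.sub_apply, sub_zero]

theorem Act.top {g : GL6} {m : M4} (H : Act g m) (a b c : K) : Top (g * u a b c * g⁻¹) := fun v => by
  have := H.j5 (v := u a b c (g⁻¹ v) - g⁻¹ v) (by rw [Pi.sub_apply, top_u, sub_self])
  rwa [map_sub, gl_apply_inv, Pi.sub_apply, sub_eq_zero] at this

theorem L1 : ∀ v : V, v 5 = 0 → InW (uf 0 1 0 v - v) ∧ InW (uf 0 0 1 v - v) := by
  rw [forall_V]; decide +kernel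

theorem L2 : ∀ v : V, InW v → ∀ b c, uf 0 b c v - v = 0 := by
  rw [forall_V]; decide +kernel

theorem L3 : ∀ v : V, uf 0 1 0 v - v = 0 → uf 0 0 1 v - v = 0 → InW v := by
  rw [forall_V]; decide +kernel

theorem L4 : ∀ v : V, v 5 = 0 → ∃ w w', v = (uf 0 1 0 w - w) + (uf 0 0 1 w' - w') ∧
    (InW v → w 5 = 0 ∧ w' 5 = 0) := fun v hv =>
  ⟨![0, 0, 0, v 1, v 2 - v 4 * 2, v 4 * 2], ![0, 0, 0, v 0 - v 3 * 2, 0, v 3 * 2], by
    revert hv; revert v; rw [forall_V]; decide +kernel⟩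

theorem cen {k : GL6} (H : Act k (1, 0, 0, 1)) (h0 : Top k) :
    (∀ v, InW v → k v - v = 0) ∧ (∀ v, v 5 = 0 → InW (k v - v)) ∧ ∀ v, (k v - v) 5 = 0 := by
  have hc : ∀ a c v, k (uf 0 a c v - v) - (uf 0 a c v - v) = uf 0 a c (k v - v) - (k v - v) :=
    fun a c v => by
      have := congrArg (fun g : GL6 => g v) (H a c)
      simp only [one_mul, zero_mul, add_zero, zero_add, gl_mul_apply] at this
      rw [← u_apply, ← u_apply, map_sub, map_sub, this]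
      abel
  have h3 : ∀ v, (k v - v) 5 = 0 := fun v => by rw [Pi.sub_apply, h0, sub_self]
  have h2 : ∀ v, v 5 = 0 → InW (k v - v) := fun v hv => by
    obtain ⟨w, w', e, -⟩ := L4 v hv
    have a1 := (L1 _ (h3 w)).1
    have a2 := (L1 _ (h3 w')).2
    rw [← hc] at a1 a2
    rw [e, map_add, add_sub_add_comm]
    exact ⟨by rw [Pi.add_apply, a1.1, a2.1, add_zero], by rw [Pi.add_apply, a1.2.1, a2.2.1, add_zero],
      by rw [Pi.add_apply, a1.2.2, a2.2.2, add_zero]⟩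
  refine ⟨fun v hv => ?_, h2, h3⟩
  obtain ⟨w, w', e, h⟩ := L4 v hv.2.2
  rw [e, map_add, add_sub_add_comm, hc, hc, L2 _ (h2 _ (h hv).1), L2 _ (h2 _ (h hv).2), add_zero]

theorem act_iff {k : GL6} : k ∈ centralizer (Bb : Set GL6) ↔ Act k (1, 0, 0, 1) :=
  ⟨fun h a c => by simpa using (h _ (mem_Bb.2 ⟨a, c, rfl⟩)).symm, fun h x hx => by
    obtain ⟨a, c, rfl⟩ := mem_Bb.1 hx
    simpa using (h a c).symm⟩

def TopG : Subgroup GL6 where
  carrier := {g | Top g}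
  one_mem' := fun _ => rfl
  mul_mem' := Top.mul
  inv_mem' := Top.inv

theorem k1 {X : Subgroup GL6} (h : Syl X) {k : GL6} (hk : k ∈ X) (H : Act k (1, 0, 0, 1))
    (h0 : Top k) : ∃ a c, k = u 0 a c := by
  let P := (X ⊓ centralizer (Bb : Set GL6)) ⊓ TopG
  have hP : ∀ x, x ∈ P ↔ (x ∈ X ∧ Act x (1, 0, 0, 1)) ∧ Top x := fun x => by
    rw [← act_iff]; rfl
  have hp : IsPGroup 3 P := isPGroup_of_flag
    (fun i v => match i with | 0 => True | 1 => v 5 = 0 | 2 => InW v | _ => v = 0) 3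
    (fun _ => trivial) (fun _ h => h) fun g hg i hi v hv => by
      obtain ⟨⟨-, h1⟩, h2⟩ := (hP g).1 hg
      obtain ⟨h3, h4, h5⟩ := cen h1 h2
      interval_cases i
      exacts [h5 v, h4 v hv, h3 v hv]
  have hn : U ≤ normalizer (P : Set GL6) := le_normalizer_iff.2 <| by
    rintro _ ⟨a, b, c, rfl⟩ x hx
    obtain ⟨⟨h1, h2⟩, h3⟩ := (hP x).1 hx
    refine (hP _).2 ⟨⟨mul_mem (mul_mem (h.le (u_mem ..)) h1) (inv_mem (h.le (u_mem ..))), ?_⟩,
      ((top_u a b c).mul h3).mul (top_u a b c).inv⟩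
    rw [u_inv]
    convert ((act_u a b c).mul h2).mul (act_u _ _ _) using 1
    simp [mm, tv]
  obtain ⟨a, b, c, rfl⟩ := h.le_of_norm (inf_le_left.trans inf_le_left) hp hn ((hP k).2 ⟨⟨hk, H⟩, h0⟩)
  have := (act_u a b c).uniq H
  simp only [tv, Prod.mk.injEq, true_and, and_true] at this
  exact ⟨b, c, by rw [this]⟩

theorem D1 : ∀ m m' : M4, mm m m' = (1, 0, 0, 1) → m.2.1 = 0 →
    ∃ k, mm (mm (mm m (tv 1)) m') (tv k) = (1, 0, 0, 1) := by decide +kernel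

theorem D2 : ∀ m m' : M4, mm m m' = (1, 0, 0, 1) → m.2.1 ≠ 0 →
    ∃ t k, mm (mm (tv k) (mm (mm m (tv t)) m')) (tv (-k)) = (1, -1, 0, 1) := by decide +kernel

def psf (a b c : K) (v : V) : V := ![v 0 + a * v 5, v 1 + b * v 5, v 2 + c * v 5, v 3, v 4, v 5]

def ps (a b c : K) : GL6 :=
  mkL (psf a b c) (psf (-a) (-b) (-c)) (fun v w => by funext i; fin_cases i <;> simp [psf] <;> ring)
    (fun v => by funext i; fin_cases i <;> simp [psf])
    (fun v => by funext i; fin_cases i <;> simp [psf])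

theorem L6 : ∀ v : V, (InW (v - e 3) → d3 v = -v → v = e 3) ∧ (InW (v - e 4) → d3 v = -v → v = e 4) ∧
    ((v - e 5) 5 = 0 → d3 v = v → v = ![v 0, v 1, v 2, 0, 0, 1]) := by
  rw [forall_V]; decide +kernel

theorem L7 : d3 (e 3) = -e 3 ∧ d3 (e 4) = -e 4 ∧ d3 (e 5) = e 5 ∧ InW (e 0) ∧ InW (e 1) ∧
    InW (e 2) ∧ e 3 5 = 0 ∧ e 4 5 = 0 := by decide +kernel

theorem L8 : ∀ a b c : K, ps a b c (e 0) = e 0 ∧ ps a b c (e 1) = e 1 ∧
    ps a b c (e 2) = e 2 ∧ ps a b c (e 3) = e 3 ∧ ps a b c (e 4) = e 4 ∧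
    ps a b c (e 5) = ![a, b, c, 0, 0, 1] := by decide +kernel

theorem exists_ps {k : GL6} (H : Act k (1, 0, 0, 1)) (h0 : Top k) (hd : d3 * k = k * d3) :
    ∃ a b c, k = ps a b c := by
  obtain ⟨h1, h2, h3⟩ := cen H h0
  have hc : ∀ v, d3 (k v) = k (d3 v) := fun v => congrArg (fun g : GL6 => g v) hd
  obtain ⟨e3, e4, e5, i0, i1, i2, i3, i4⟩ := L7
  obtain ⟨p0, p1, p2, p3, p4, p5⟩ := L8 (k (e 5) 0) (k (e 5) 1) (k (e 5) 2)
  refine ⟨k (e 5) 0, k (e 5) 1, k (e 5) 2, gl_ext fun i => ?_⟩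
  fin_cases i
  · exact (sub_eq_zero.1 (h1 _ i0)).trans p0.symm
  · exact (sub_eq_zero.1 (h1 _ i1)).trans p1.symm
  · exact (sub_eq_zero.1 (h1 _ i2)).trans p2.symm
  · exact ((L6 _).1 (h2 _ i3) (by rw [hc, e3, map_neg])).trans p3.symm
  · exact ((L6 _).2.1 (h2 _ i4) (by rw [hc, e4, map_neg])).trans p4.symm
  · exact ((L6 _).2.2 (h3 _) (by rw [hc, e5])).trans p5.symm

theorem D3 : ∀ a b c x y : K, (∀ i, (ps a b c * wa 0 * (ps a b c * wa 0)) (e i) = d3 (e i)) →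
    (∀ i, (ps a b c * wa 0 * u 1 0 0 * (ps a b c * wa 0 * u 1 0 0) *
      (ps a b c * wa 0 * u 1 0 0)) (e i) = u 0 x y (e i)) →
    ∀ i, (ps a b c * wa 0) (e i) = wa a (e i) := by decide +kernel

theorem D6 (a c : K) : u 0 a c * (u 0 a c * d3) * u 0 (-a) (-c) = d3 := by
  refine gl_ext fun i => ?_
  revert a c i
  decide +kernel

theorem norm_U {X : Subgroup GL6} (h : Syl X) {g : GL6} (hg : g ∈ X) {m m' : M4} (hm : Act g m)
    (hm' : Act g⁻¹ m') (h3 : m.2.1 = 0) : g ∈ normalizer (U : Set GL6) := by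
  obtain ⟨k, hk⟩ := D1 m m' ((hm.mul hm').uniq (by rw [mul_inv_cancel]; exact act_one)) h3
  obtain ⟨a, c, h4⟩ := k1 h (mul_mem (mul_mem (mul_mem hg (h.le (u_mem 1 0 0))) (inv_mem hg))
    (h.le (u_mem k 0 0))) (hk ▸ ((hm.mul (act_u _ _ _)).mul hm').mul (act_u _ _ _))
    ((hm.top _ _ _).mul (top_u _ _ _))
  have h5 : U ≤ U.comap (MulAut.conj g).toMonoidHom := U_le_of
    (by change g * _ * g⁻¹ ∈ U
        rw [eq_mul_inv_of_mul_eq h4]; exact mul_mem (u_mem ..) (inv_mem (u_mem ..)))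
    (by change g * _ * g⁻¹ ∈ U; rw [hm, mul_inv_cancel_right]; exact u_mem ..)
  exact mem_normalizer_fintype fun x hx => h5 hx

end Wa

open Wa in
theorem exists_wa {X : Subgroup GL6} (h : Syl X) (hd : d3 ∈ X) {g : GL6} (hg : g ∈ X)
    (h1 : g ∈ normalizer (Bb : Set GL6)) (h2 : g ∉ normalizer (U : Set GL6)) :
    ∃ l, wa l ∈ X := by
  have hu : ∀ a b c, u a b c ∈ X := fun a b c => h.le (u_mem a b c)
  obtain ⟨m, hm⟩ := exists_act h1
  obtain ⟨m', hm'⟩ := exists_act (inv_mem h1)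
  obtain ⟨t, k, hk⟩ := D2 m m' ((hm.mul hm').uniq (by rw [mul_inv_cancel]; exact act_one))
    fun h3 => h2 (norm_U h hg hm hm' h3)
  obtain ⟨y, y1, y2, y3⟩ : ∃ y ∈ X, Act y (1, -1, 0, 1) ∧ Top y :=
    ⟨_, mul_mem (mul_mem (hu k 0 0) (mul_mem (mul_mem hg (hu t 0 0)) (inv_mem hg))) (hu (-k) 0 0),
      hk ▸ ((act_u _ _ _).mul ((hm.mul (act_u _ _ _)).mul hm')).mul (act_u _ _ _),
      ((top_u _ _ _).mul (hm.top _ _ _)).mul (top_u _ _ _)⟩
  obtain ⟨z, z1, z2, z3⟩ : ∃ z ∈ X, Act z (0, -1, 1, 0) ∧ Top z :=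
    ⟨_, mul_mem (mul_mem y1 (hu 1 0 0)) y1, by
      convert (y2.mul (act_u _ _ _)).mul y2 using 1; decide, (y3.mul (top_u _ _ _)).mul y3⟩
  obtain ⟨a, c, z4⟩ := k1 h (mul_mem (mul_mem z1 z1) hd)
    (by convert (z2.mul z2).mul act_d3 using 1; decide) ((z3.mul z3).mul top_d3)
  have z5 : z * z = u 0 a c * d3 := by
    rw [← z4, mul_assoc (z * z), d3, tor_mul]; simp [tor_one]
  obtain ⟨w, w1, w2, w3, w4⟩ : ∃ w ∈ X, Act w (0, -1, 1, 0) ∧ Top w ∧ w * w = d3 :=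
    ⟨u 0 a c * z * u 0 (-a) (-c), mul_mem (mul_mem (hu ..) z1) (hu ..), by
      convert ((act_u _ _ _).mul z2).mul (act_u _ _ _) using 1; decide,
      ((top_u _ _ _).mul z3).mul (top_u _ _ _), by
      have e : u 0 (-a) (-c) * u 0 a c = 1 := by rw [u_mul, u_eq_one]; simp
      rw [← D6 a c, ← z5]
      calc _ = u 0 a c * z * (u 0 (-a) (-c) * u 0 a c) * z * u 0 (-a) (-c) := by group
        _ = _ := by rw [e]; group⟩
  obtain ⟨α, β, γ, hp⟩ := exists_ps (k := w * (wa 0)⁻¹)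
    (by convert w2.mul act_wa using 1; decide) (w3.mul top_wa.inv) (by
      rw [← mul_assoc, ← w4, mul_assoc w (wa 0)⁻¹, w4, ← wa_sq 0, inv_mul_cancel_left, wa_sq,
        mul_inv_eq_iff_eq_mul, mul_assoc w (wa 0), wa_sq, ← w4, mul_assoc])
  have v2 := w2.mul (act_u 1 0 0)
  have v1 := mul_mem w1 (hu 1 0 0)
  have v3 := w3.mul (top_u 1 0 0)
  obtain ⟨x, y, v4⟩ := k1 h (mul_mem (mul_mem v1 v1) v1)
    (by convert (v2.mul v2).mul v2 using 1; decide) ((v3.mul v3).mul v3)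
  obtain rfl := eq_mul_of_mul_inv_eq hp
  exact ⟨α, gl_ext (D3 α β γ x y (fun i => by rw [w4]) fun i => by rw [v4]) ▸ w1⟩

end Cfsg.Agent.C3
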