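import Mathlib
import Cfsg.Agent.C3.LW
import Cfsg.Agent.C3.OrbA
import Cfsg.Agent.C3.OrbB
import Cfsg.Agent.C3.Wa
import Cfsg.Agent.C3.Wb
import Cfsg.Agent.C3.Typ
import Cfsg.Agent.C3.Fin0
import Cfsg.Agent.C3.Fin1

set_option autoImplicit false
set_option linter.unusedVariables false

namespace Cfsg.Agent.C3

open Cfsg Cfsg.FusionSystem Cfsg.Agent.Fus Subgroup

theorem lin_I_add {v w : V} (hv : InI v) (hw : InI w) : InI (v + w) := by
  simp [InI, hv.1, hv.2.1, hv.2.2, hw.1, hw.2.1, hw.2.2]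

theorem lin_I_neg {v : V} (hv : InI v) : InI (-v) := by simp [InI, hv.1, hv.2.1, hv.2.2]

theorem lin_Z_iff {v : V} : InZ v ↔ ∃ k : K, v = k • e 0 := by
  constructor
  · rintro ⟨h1, h2, h3, h4, h5⟩
    refine ⟨v 0, funext fun i => ?_⟩
    fin_cases i <;> simp [e, h1, h2, h3, h4, h5]
  · rintro ⟨k, rfl⟩
    simp [InZ, e]

theorem lin_Z_add {v w : V} (hv : InZ v) (hw : InZ w) : InZ (v + w) := by
  obtain ⟨a, rfl⟩ := lin_Z_iff.1 hv
  obtain ⟨b, rfl⟩ := lin_Z_iff.1 hw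
  exact lin_Z_iff.2 ⟨a + b, (add_smul _ _ _).symm⟩

theorem lin_Z_neg {v : V} (hv : InZ v) : InZ (-v) := by
  obtain ⟨a, rfl⟩ := lin_Z_iff.1 hv
  exact lin_Z_iff.2 ⟨-a, (neg_smul _ _).symm⟩

theorem lin_pz_inv {g : GL6} (hz : Pz (g (e 0))) : Pz (g⁻¹ (e 0)) := by
  rcases hz with h | h
  · left; rw [← h, gl_inv_apply, h]
  · right; rw [← neg_eq_iff_eq_neg, ← map_neg, ← h, gl_inv_apply]

theorem lin_norm {B : Subgroup GL6} {g : GL6} (h1 : ∀ x ∈ B, g * x * g⁻¹ ∈ B) :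
    g ∈ normalizer (B : Set GL6) := mem_normalizer_fintype h1

/-- The elements trivial on `Z`, `I / Z`, `V / I`. -/
def linK (X : Subgroup GL6) : Subgroup GL6 where
  carrier := {k | k ∈ X ∧ (∀ v, InI (k v - v)) ∧ (∀ v, InI v → InZ (k v - v)) ∧ k (e 0) = e 0}
  one_mem' := ⟨one_mem _, fun v => by simp [InI], fun v _ => by simp [InZ], rfl⟩
  mul_mem' := by
    rintro a b ⟨h1, h2, h3, h4⟩ ⟨k1, k2, k3, k4⟩
    refine ⟨mul_mem h1 k1, fun v => ?_, fun v hv => ?_, by rw [gl_mul_apply, k4, h4]⟩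
    · rw [gl_mul_apply, ← sub_add_sub_cancel _ (b v)]
      exact lin_I_add (h2 _) (k2 _)
    · rw [gl_mul_apply, ← sub_add_sub_cancel _ (b v)]
      exact lin_Z_add (h3 _ (by simpa using lin_I_add (k2 v) hv)) (k3 _ hv)
  inv_mem' := by
    rintro a ⟨h1, h2, h3, h4⟩
    have k2 : ∀ v, InI (a⁻¹ v - v) := fun v => by
      simpa [gl_apply_inv] using lin_I_neg (h2 (a⁻¹ v))
    refine ⟨inv_mem h1, k2, fun v hv => ?_, by rw [← h4, gl_inv_apply, h4]⟩
    simpa [gl_apply_inv] using lin_Z_neg (h3 (a⁻¹ v) (by simpa using lin_I_add (k2 v) hv))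

theorem Syl.norm_Ba {X : Subgroup GL6} (h : Syl X)
    (hI : ∀ g ∈ X, Pz (g (e 0)) → ∀ v, InI v → InI (g v)) {g : GL6} (hg : g ∈ X)
    (hz : Pz (g (e 0))) : g ∈ normalizer (Ba : Set GL6) := by
  have hn : ∀ y ∈ X, Pz (y (e 0)) → y ∈ normalizer (linK X : Set GL6) := fun y hy hz =>
    lin_norm fun k ⟨h1, h2, h3, h4⟩ => by
      have e1 : ∀ v, (y * k * y⁻¹) v - v = y (k (y⁻¹ v) - y⁻¹ v) := fun v => by
        rw [map_sub, gl_apply_inv]; rfl
      refine ⟨mul_mem (mul_mem hy h1) (inv_mem hy), fun v => e1 v ▸ hI y hy hz _ (h2 _),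
        fun v hv => ?_, ?_⟩
      · obtain ⟨c, hc⟩ := lin_Z_iff.1 (h3 _ (hI _ (inv_mem hy) (lin_pz_inv hz) v hv))
        rw [e1, hc, map_smul]
        rcases hz with e2 | e2
        · exact lin_Z_iff.2 ⟨c, by rw [e2]⟩
        · exact lin_Z_iff.2 ⟨-c, by rw [e2, smul_neg, neg_smul]⟩
      · rw [← sub_eq_zero, e1]
        rcases lin_pz_inv hz with e2 | e2 <;> simp [e2, h4]
  have hp : IsPGroup 3 (linK X) := by
    refine isPGroup_of_flag (fun i v => (1 ≤ i → InI v) ∧ (2 ≤ i → InZ v) ∧ (3 ≤ i → v = 0)) 3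
      (by simp) (fun v hv => hv.2.2 le_rfl) fun k ⟨_, h2, h3, h4⟩ i _ v hv =>
        ⟨fun _ => h2 v, fun hi => h3 v (hv.1 (by omega)), fun hi => ?_⟩
    obtain ⟨c, rfl⟩ := lin_Z_iff.1 (hv.2.1 (by omega))
    rw [map_smul, h4, sub_self]
  have hU := h.le_of_norm (P := linK X) (fun k hk => hk.1) hp (by
    rintro _ ⟨a, b, c, rfl⟩
    refine hn _ (h.le (u_mem ..)) (Or.inl (funext fun i => ?_))
    fin_cases i <;> simp [u_apply, uf, e])
  have e1 : linK X = Ba := by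
    refine le_antisymm (fun k hk => ?_) ?_
    · obtain ⟨a, b, c, rfl⟩ := hU hk
      have := (hk.2.2.1 (e 3) (by decide)).1
      simpa [u_mem_Bl, u_apply, uf, e] using this
    · rintro _ ⟨a, b, c, hb, rfl⟩
      obtain rfl : b = 0 := by simpa using hb
      refine ⟨h.le (u_mem ..), fun v => by simp [InI, u_apply, uf], fun v hv => ?_,
        funext fun i => ?_⟩
      · simp [InZ, u_apply, uf, hv.1, hv.2.1, hv.2.2]
      · fin_cases i <;> simp [u_apply, uf, e]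
  exact e1 ▸ hn g hg hz

theorem lin_mem {X : Subgroup GL6} (h : Syl X) (ht : Tor X) {l : K} (hX : X1 l ≤ X)
    (ho : orb X ⊆ orb (X1 l)) (hI : ∀ g ∈ X, Pz (g (e 0)) → ∀ v, InI v → InI (g v)) {g : GL6}
    (hg : g ∈ X) : g ∈ X1 l ∨ (sg ∈ X ∧ g ∈ X1 l ⊔ zpowers sg) := by
  have hb : wb 0 ∈ X1 l := subset_closure (by simp)
  have ha : wa l ∈ X1 l := subset_closure (by simp)
  obtain ⟨k, hk, e1⟩ := ho ⟨g, hg, Or.inl rfl⟩
  have h1 : k⁻¹ * g ∈ X := mul_mem (inv_mem (hX hk)) hg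
  have h2 := h.norm_Ba hI h1 (by
    rcases e1 with e1 | e1
    · left; rw [gl_mul_apply, e1, gl_inv_apply]
    · right; rw [gl_mul_apply, e1, map_neg, gl_inv_apply])
  obtain ⟨a, b, c, hb0, e2⟩ := (mem_normalizer_iff.1 h2 (u 0 0 1)).1 (u_mem_Bl.2 (by simp))
  obtain rfl : b = 0 := by simpa using hb0
  obtain ⟨n, hn, hn', c', e3⟩ : ∃ n ∈ X1 l, n ∈ normalizer (Ba : Set GL6) ∧
      ∃ c', n * u a 0 c * n⁻¹ = u 0 0 c' := by
    by_cases a0 : a = 0
    · exact ⟨1, one_mem _, one_mem _, c, by simp [a0]⟩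
    have e4 : ∀ b a c : K, u 0 b 0 * u a 0 c * (u 0 b 0)⁻¹ = u a 0 (c - a * b) := fun b a c => by
      rw [u_inv, u_mul, u_mul, u_inj]; exact ⟨by ring, by ring, by ring⟩
    have e5 : ∀ a c : K, a ≠ 0 → c - a * (a * c) = 0 := by decide
    refine ⟨wb 0 * u 0 (a * c) 0, mul_mem hb (U_le_X1 l (u_mem ..)),
      mul_mem (lin_norm ?_) (lin_norm ?_), -a, ?_⟩
    · rintro _ ⟨a, b, c, hb, rfl⟩
      obtain rfl : b = 0 := by simpa using hb
      rw [wb_u]; exact u_mem_Bl.2 (by simp)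
    · rintro _ ⟨a', b, c', hb, rfl⟩
      obtain rfl : b = 0 := by simpa using hb
      rw [e4]; exact u_mem_Bl.2 (by simp)
    · have := e4 (a * c) a c
      rw [e5 a c a0] at this
      rw [← wb_u 0 a 0, ← this]; group
  have h3 := mul_mem (hX hn) h1
  obtain ⟨a', b', c'', p, r, s, e4⟩ := ht _ h3 (h.norm_U_of_a h3 (mul_mem hn' h2) (c := c')
    (by rw [← e3, ← e2]; group))
  have pm : ∀ p : Kˣ, p = 1 ∨ p = -1 := by decide
  have h4 : tor p 1 1 ∈ X1 l := by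
    rcases pm p with rfl | rfl
    · rw [tor_one]; exact one_mem _
    · exact show d1 ∈ _ from wb_sq 0 ▸ mul_mem hb hb
  have h5 : tor 1 r 1 ∈ X1 l := by
    rcases pm r with rfl | rfl
    · rw [tor_one]; exact one_mem _
    · exact show d3 ∈ _ from wa_sq l ▸ mul_mem ha ha
  have h6 := mul_mem (mul_mem (mul_mem hk (inv_mem hn)) (U_le_X1 l (u_mem a' b' c'')))
    (mul_mem h4 h5)
  have e5 : g = k * n⁻¹ * u a' b' c'' * (tor p 1 1 * tor 1 r 1) * tor 1 1 s := by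
    rw [tor_mul, mul_assoc, tor_mul, mul_assoc]
    simp only [mul_one, one_mul]
    rw [← e4]; group
  rcases pm s with rfl | rfl
  · left; rwa [e5, tor_one, mul_one]
  · exact Or.inr ⟨(X.mul_mem_cancel_left (hX h6)).1 (e5 ▸ hg),
      e5 ▸ mul_mem_sup h6 (mem_zpowers sg)⟩

theorem lin_zero {X : Subgroup GL6} (h : Syl X) (ht : Tor X) (hb : wb 0 ∈ X) {l : K}
    (ha : wa l ∈ X) : ∃ i, X = Xs i := by
  have hX : X1 l ≤ X := (closure_le _).2 (by
    rintro _ (rfl | rfl | rfl | rfl)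
    exacts [h.le (u_mem ..), h.le (u_mem ..), hb, ha])
  have hl : ∀ l : K, l = 0 ∨ l = 1 ∨ l = 2 := by decide
  rcases hl l with rfl | rfl | rfl
  · obtain ⟨h1, h2⟩ := fin0 hX fun v => h.conic
    by_cases hs : sg ∈ X
    · exact ⟨1, le_antisymm (fun g hg => (lin_mem h ht hX h1 h2 hg).elim mem_sup_left And.right)
        (sup_le hX (zpowers_le.2 hs))⟩
    · exact ⟨0, le_antisymm (fun g hg => (lin_mem h ht hX h1 h2 hg).resolve_right fun e => hs e.1) hX⟩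
  · obtain ⟨h1, h2⟩ := fin1 hX fun v => h.conic
    exact ⟨2, le_antisymm (fun g hg => (lin_mem h ht hX h1 h2 hg).elim id fun e =>
      sup_le le_rfl (zpowers_le.2 sg_mem_X1) e.2) hX⟩
  · exact (h.not_two hb ha).elim

theorem lin {X : Subgroup GL6} (h : Syl X) (ht : Tor X) (hd : d3 ∈ X) (ho : ∃ v ∈ orb X, ¬ InW v) :
    ∃ m i, cjX (ph m) X = Xs i := by
  obtain ⟨v, hv, hW⟩ := ho
  obtain ⟨l, ha⟩ : ∃ l, wa l ∈ X := by
    by_contra hn
    obtain ⟨h1, h2⟩ := h.pz_of_b fun g hg h1 => by_contra fun h2 => hn (exists_wa h hd hg h1 h2)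
    rcases orbA h.le hd h1 h2 v hv with rfl | rfl <;> exact hW (by decide)
  obtain ⟨m, hb⟩ : ∃ m, wb m ∈ X := by
    by_contra hn
    exact hW (orbB h.le ha (fun v => h.conic)
      (h.pz_of_a fun g hg h1 => by_contra fun h2 => hn (exists_wb h ht hg h1 h2)) v hv)
  refine ⟨-m, lin_zero (h.cjX (ph_mem_norm _)) (fun g hg hn => ?_) ?_ (l := -m + l) ?_⟩
  · obtain ⟨a, b, c, p, r, s, e1⟩ := ht _ (mem_cjX.1 hg)
      (mul_mem (mul_mem (inv_mem (ph_mem_norm _)) hn) (ph_mem_norm _))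
    refine ⟨a, b, c, p, r, s, ?_⟩
    rw [← ph_u (-m) a b c, ← ph_tor (-m) p r s, conj_mul, ← e1]; group
  · rw [← neg_add_cancel m, ← ph_wb]; exact mem_map_of_mem _ hb
  · rw [← ph_wa]; exact mem_map_of_mem _ ha

end Cfsg.Agent.C3
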