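import Mathlib
import Cfsg.Agent.C3.Lift
import Cfsg.Agent.Cl.AutPSp
import Cfsg.Agent.Cl.SpOrder

set_option autoImplicit false
set_option linter.unusedVariables false

namespace Cfsg.Agent.C3

open Cfsg Cfsg.FusionSystem Cfsg.Agent.Fus Subgroup

section

open Matrix

abbrev SpM := Matrix (Fin 3 ⊕ Fin 3) (Fin 3 ⊕ Fin 3) K
abbrev SpG := symplecticGroup (Fin 3) K

/-- The symmetric matrix of a quadratic expression. -/
def spSym (v : V) : Matrix (Fin 3) (Fin 3) K :=
  !![v 0, -v 1, -v 3; -v 1, v 2, -v 4; -v 3, -v 4, v 5]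

theorem spSym_add (v w : V) : spSym (v + w) = spSym v + spSym w := by
  ext i j; fin_cases i <;> fin_cases j <;> simp [spSym, add_comm]

theorem spSym_neg (v : V) : spSym (-v) = -spSym v := by
  ext i j; fin_cases i <;> fin_cases j <;> simp [spSym]

theorem spSym_t (v : V) : (spSym v)ᵀ = spSym v := by
  ext i j; fin_cases i <;> fin_cases j <;> simp [spSym]

theorem spSym_zero : spSym 0 = 0 := by
  ext i j; fin_cases i <;> fin_cases j <;> simp [spSym]

def spT (v : V) : SpG := ⟨fromBlocks 1 (spSym v) 0 1, by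
  rw [SymplecticGroup.mem_iff, Matrix.J, fromBlocks_transpose, fromBlocks_multiply,
    fromBlocks_multiply, spSym_t]
  simp⟩

theorem spT_add (v w : V) : spT (v + w) = spT v * spT w := Subtype.ext (by
  simp [spT, fromBlocks_multiply, spSym_add, add_comm])

theorem spT_zero : spT 0 = 1 := Subtype.ext (by simp [spT, spSym_zero])

theorem spT_pow (v : V) (n : ℕ) : spT v ^ n = spT (n • v) := by
  induction n with
  | zero => rw [pow_zero, zero_smul, spT_zero]
  | succ n ih => rw [pow_succ, ih, ← spT_add, succ_nsmul]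

theorem sp_pw (v : V) : pw (fun i => spT (e i)) v = spT v := by
  simp only [pw, spT_pow, ← spT_add]
  congr 1
  funext i; fin_cases i <;> simp [e, -ZMod.natCast_val, ZMod.natCast_zmod_val]

/-- A block diagonal element. -/
def spD (m n : Matrix (Fin 3) (Fin 3) K) (h : m * nᵀ = 1) : SpG := ⟨fromBlocks m 0 0 n, by
  have h' : n * mᵀ = 1 := by simpa using congrArg transpose h
  rw [SymplecticGroup.mem_iff, Matrix.J, fromBlocks_transpose, fromBlocks_multiply,
    fromBlocks_multiply]
  simp [h, h']⟩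

def spA : SpG := spD !![1, 1, 0; 0, 1, 0; 0, 0, 1] !![1, 0, 0; -1, 1, 0; 0, 0, 1] (by decide)
def spB : SpG := spD !![1, 0, 0; 0, 1, 1; 0, 0, 1] !![1, 0, 0; 0, 1, 0; 0, -1, 1] (by decide)
def spC : SpG := spD !![1, 0, 1; 0, 1, 0; 0, 0, 1] !![1, 0, 0; 0, 1, 0; -1, 0, 1] (by decide)
def spP : SpG := spD !![0, 0, 1; 0, 1, 0; 1, 0, 0] !![0, 0, 1; 0, 1, 0; 1, 0, 0] (by decide)
def spW : SpG := ⟨fromBlocks !![1, 0, 0; 0, 1, 0; 0, 0, 0] !![0, 0, 0; 0, 0, 0; 0, 0, -1]
  !![0, 0, 0; 0, 0, 0; 0, 0, 1] !![1, 0, 0; 0, 1, 0; 0, 0, 0], by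
    rw [SymplecticGroup.mem_iff]; decide +kernel⟩

theorem sp_ext {x y z w : SpG} (h : (x : SpM) * y = (z : SpM) * w) : x * y = z * w := Subtype.ext h

theorem sp_cube {x : SpG} (h : (x : SpM) * x * x = 1) : x ^ 3 = 1 := by
  rw [pow_three']; exact Subtype.ext h

theorem sp_rel : Rel (fun i => spT (e i)) spA spB spC where
  comm i k := by rw [← spT_add, ← spT_add, add_comm]
  cube i := by
    rw [spT_pow, ← spT_zero]
    congr 1
    funext k
    simp [three]
  cA := sp_cube (by decide +kernel)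
  cB := sp_cube (by decide +kernel)
  cC := sp_cube (by decide +kernel)
  AB := Subtype.ext (show (spA : SpM) * spB = (spB : SpM) * spA * spC by decide +kernel)
  AC := sp_ext (by decide +kernel)
  BC := sp_ext (by decide +kernel)
  Ag i := by
    rw [sp_pw, u_apply]
    refine sp_ext ?_
    revert i; decide +kernel
  Bg i := by
    rw [sp_pw, u_apply]
    refine sp_ext ?_
    revert i; decide +kernel
  ne h := absurd (show ((spT (e 0) : SpG) : SpM) = 1 from congrArg Subtype.val h) (by decide +kernel)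

theorem sp_card : Nat.card SpG = 3 ^ 9 * 465920 := by
  rw [Cl.sp_card_std, Nat.card_zmod]; decide +kernel

theorem sp_emb : ∃ j : AG → SpG, Emb j ∧ ∀ v, j (jv v) = spT v := by
  obtain ⟨j, h1, h2, h3, -, -, h4⟩ := sp_rel.lift
  have h5 : ∀ v, j (jv v) = spT v := fun v => by rw [h3, sp_pw]
  refine ⟨j, ⟨h1, h2, fun h => ?_, ⟨spP, e 5, by decide, ?_⟩,
    ⟨spW, e 3, el 0 0 0 1, el_mem .., fun h => ?_, ?_⟩⟩, h5⟩
  · have c : Nat.card (img j S0) = 3 ^ 9 := by
      rw [h1.img_eq_range, ← card_S0]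
      exact (Nat.card_congr (MonoidHom.ofInjective (f := h1.hom)
        fun x y e => Subtype.ext (h2 x x.2 y y.2 e)).toEquiv).symm
    have := (img j S0).card_mul_index
    rw [c, sp_card] at this
    rw [Nat.eq_of_mul_eq_mul_left (by norm_num) this] at h
    exact absurd h (by norm_num)
  · rw [h5, h5, mul_inv_eq_iff_eq_mul]
    exact sp_ext (by decide +kernel)
  · simpa [u_eq_one] using mem_J.1 h
  · rw [h5, h4, mul_inv_eq_iff_eq_mul]
    exact sp_ext (by decide +kernel)

theorem sp_not_inv (g : SpG) : g * spT (e 0) ≠ spT (-e 0) * g := fun h => by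
  have h1 : (g : SpM) * (spT (e 0) : SpG) = ((spT (-e 0) : SpG) : SpM) * g := congrArg Subtype.val h
  have h2 := SymplecticGroup.mem_iff'.1 g.2
  have a := fun i => congrFun (congrFun h1 i) (.inr 0)
  have a0 := a (.inl 0)
  have a1 := a (.inl 1)
  have a2 := a (.inl 2)
  have b0 := a (.inr 0)
  have b1 := a (.inr 1)
  have b2 := a (.inr 2)
  have c := congrFun (congrFun h2 (.inl 0)) (.inr 0)
  simp [spT, spSym, e, Matrix.mul_apply, Fintype.sum_sum_type, Fin.sum_univ_three, one_apply]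
    at a0 a1 a2 b0 b1 b2
  simp [Matrix.J, Matrix.mul_apply, Fintype.sum_sum_type, Fin.sum_univ_three, a1, a2, b0, b1, b2,
    one_apply] at c
  have : ∀ x y z : K, x + z = z + -y → x * y ≠ 1 := by decide
  exact this _ _ _ a0 c

theorem Emb.comp {G G' : Type} [Group G] [Group G'] {j : AG → G} (h : Emb j) (f : G →* G')
    (hf : Function.Injective f) (h3 : ¬ 3 ∣ f.range.index) : Emb fun x => f (j x) where
  mulOn x hx y hy := (congrArg f (h.mulOn x hx y hy)).trans (map_mul f _ _)
  inj x hx y hy e := h.inj x hx y hy (hf e)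
  idx := by
    have : img (fun x => f (j x)) S0 = (img j S0).map f := by
      rw [img, img, MonoidHom.map_closure, Set.image_image]
    rw [this, index_map_of_injective _ hf]
    exact fun d => (Nat.prime_three.dvd_mul.1 d).elim h.idx h3
  zy := by
    obtain ⟨g, v, h1, h2⟩ := h.zy
    exact ⟨f g, v, h1, by rw [← h2, map_mul, map_mul, map_inv]⟩
  out := by
    obtain ⟨g, v, x, h1, h2, h4⟩ := h.out
    exact ⟨f g, v, x, h1, h2, by rw [← h4, map_mul, map_mul, map_inv]⟩

/-- The inclusion into the conformal group. -/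
def spI : SpG →* GSp 3 K := (Cl.Aut.spInc 3 K).codRestrict _ Cl.Aut.spInc_mem

theorem spI_inj : Function.Injective spI := fun _ _ h =>
  Cl.Aut.spInc_injective (congrArg Subtype.val h)

theorem spI_idx : spI.range.index ∣ 2 := by
  have h : (Cl.Aut.multSp (m := 3) (F := K) (by norm_num)).ker ≤ spI.range := fun g hg => by
    have := Cl.Aut.multSp_spec (by norm_num) g
    rw [MonoidHom.mem_ker.1 hg, Units.val_one, one_smul] at this
    obtain ⟨s, hs⟩ := Cl.Aut.exists_spInc_eq this
    exact ⟨s, Subtype.ext hs⟩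
  refine (index_dvd_of_le h).trans ?_
  rw [index_ker]
  refine (card_subgroup_dvd_card _).trans ?_
  rw [Nat.card_eq_fintype_card, ZMod.card_units]

def spS : GSp 3 K := ⟨⟨fromBlocks 1 0 0 (-1), fromBlocks 1 0 0 (-1),
  by simp [fromBlocks_multiply], by simp [fromBlocks_multiply]⟩, Cl.Aut.mem_GSp_iff.2 ⟨-1, by
    simp [Matrix.J, fromBlocks_transpose, fromBlocks_multiply, fromBlocks_neg]⟩⟩

theorem spS_conj (v : V) : spS * spI (spT v) = spI (spT (-v)) * spS :=
  Subtype.ext (Units.ext (show fromBlocks 1 0 0 (-1) * fromBlocks 1 (spSym v) 0 1 =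
      fromBlocks 1 (spSym (-v)) 0 1 * fromBlocks 1 0 0 (-1) by
    simp [fromBlocks_multiply, spSym_neg]))

end

/-- `Sp₆(3)`. -/
theorem exists_sp : ∃ (G : Type) (_ : Group G) (_ : Finite G) (j : AG → G),
    Emb j ∧ ¬ Ind j sg := by
  obtain ⟨j, h1, h2⟩ := sp_emb
  refine ⟨SpG, inferInstance, inferInstance, j, h1, fun ⟨g, hg⟩ => sp_not_inv g ?_⟩
  have := hg (e 0)
  rwa [h2, h2, sg_apply, mul_inv_eq_iff_eq_mul] at this

/-- The conformal symplectic group. -/
theorem exists_gsp : ∃ (G : Type) (_ : Group G) (_ : Finite G) (j : AG → G),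
    Emb j ∧ Ind j sg ∧ ¬ 11 ∣ Nat.card G := by
  obtain ⟨j, h1, h2⟩ := sp_emb
  refine ⟨GSp 3 K, inferInstance, inferInstance, fun x => spI (j x),
    h1.comp spI spI_inj fun h => absurd (h.trans spI_idx) (by norm_num),
    ⟨spS, fun v => by simp only [h2, sg_apply, spS_conj, mul_inv_cancel_right]⟩, fun h => ?_⟩
  rw [← spI.range.card_mul_index, ← Nat.card_congr (MonoidHom.ofInjective spI_inj).toEquiv,
    sp_card] at h
  exact absurd (h.trans (mul_dvd_mul_left _ spI_idx)) (by norm_num)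

end Cfsg.Agent.C3
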