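import Mathlib
import Cfsg.Agent.C3.Basic
import Cfsg.Agent.Fus.ModelExists
import Cfsg.Agent.Fus.Free
import Cfsg.Agent.S0051

set_option autoImplicit false
set_option linter.unusedVariables false

namespace Cfsg.Agent.C3

open Cfsg Cfsg.FusionSystem Cfsg.Agent.Fus Subgroup

/-- The point stabilizer in `S0`. -/
def splitL : Subgroup AG where
  carrier := {x | x.v = 0 ∧ x.g ∈ U}
  one_mem' := ⟨rfl, one_mem _⟩
  mul_mem' := fun {x y} hx hy => ⟨by rw [mul_v, hx.1, hy.1, map_zero, add_zero], mul_mem hx.2 hy.2⟩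
  inv_mem' := fun {x} hx => ⟨by rw [inv_v, hx.1, map_zero, neg_zero], inv_mem hx.2⟩

theorem splitL_le : splitL ≤ S0 := fun _ hx => hx.2

/-- A group with Sylow subgroup `S0` in which `J` is normal and self-centralizing is affine. -/
theorem exists_affine {G : Type} [Group G] [Finite G] {j : AG → G} (hm : MulOn S0 j)
    (hi : ∀ x ∈ S0, ∀ y ∈ S0, j x = j y → x = y) (hn : (img j J).Normal)
    (hc : centralizer ((img j J : Subgroup G) : Set G) ≤ img j J)
    (hd : (Nat.card (img j J)).Coprime (img j S0).index) :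
    ∃ (ψ : G →* AG) (X : Subgroup GL6), Function.Injective ψ ∧ ψ.range = aff X ∧
      ∀ x ∈ S0, (ψ (j x)).g = x.g := by
  have hv : ∀ v, jv v ∈ S0 := fun v => J_le_S0 (jv_mem v)
  have hK : ∀ {y}, y ∈ img j J ↔ ∃ v, j (jv v) = y := fun {y} => by
    refine (hm.mem_img_of_le J_le_S0).trans ⟨fun ⟨x, hx, e⟩ => ?_, fun ⟨v, e⟩ => ⟨_, jv_mem v, e⟩⟩
    obtain ⟨v, rfl⟩ := exists_jv hx
    exact ⟨v, e⟩
  have hadd : ∀ v w, j (jv (v + w)) = j (jv v) * j (jv w) := fun v w => by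
    rw [← jv_mul, hm _ (hv v) _ (hv w)]
  have hinj : ∀ v w, j (jv v) = j (jv w) → v = w := fun v w e => jv_inj.1 (hi _ (hv v) _ (hv w) e)
  have h0 : j (jv 0) = 1 := hm.map_one
  choose r hr using fun g v => hK.1 (hn.conj_mem _ (hK.2 ⟨v, rfl⟩) g)
  have hrr : ∀ g h v, r g (r h v) = r (g * h) v := fun g h v =>
    hinj _ _ (by rw [hr, hr, hr]; group)
  have hr1 : ∀ v, r 1 v = v := fun v => hinj _ _ (by rw [hr]; group)
  let ρ : G →* GL6 := MonoidHom.mk' (fun g => mkL (r g) (r g⁻¹)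
    (fun v w => hinj _ _ (by rw [hadd (r g v), hr, hr, hr, hadd]; group))
    (fun v => by rw [hrr, inv_mul_cancel, hr1]) (fun v => by rw [hrr, mul_inv_cancel, hr1]))
    fun g h => LinearEquiv.ext fun v => (hrr g h v).symm
  have hρ : ∀ g v, j (jv (ρ g v)) = g * j (jv v) * g⁻¹ := hr
  have hρS : ∀ x ∈ S0, ρ (j x) = x.g := fun x hx => LinearEquiv.ext fun v => hinj _ _ (by
    rw [hρ, ← hm.map_conj hx (hv v), conj_jv])
  have hρJ : ∀ v, ρ (j (jv v)) = 1 := fun v => hρS _ (hv v)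
  have : IsMulCommutative (img j J) := ⟨⟨fun a b => Subtype.ext (by
    obtain ⟨v, e⟩ := hK.1 a.2
    obtain ⟨w, e'⟩ := hK.1 b.2
    rw [coe_mul, coe_mul, ← e, ← e', ← hadd, ← hadd, add_comm])⟩⟩
  obtain ⟨H, hH⟩ := Cfsg.Agent.S0051.result (img j J) (img j S0) (img_mono J_le_S0) hd
    (img j splitL) (img_mono splitL_le) (le_bot_iff.1 fun y hy => by
      obtain ⟨x, hx, rfl⟩ := (hm.mem_img_of_le splitL_le).1 hy.1
      obtain ⟨v, e⟩ := hK.1 hy.2
      have h1 := hi _ (hv v) _ hx.2 e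
      have h2 : v = 0 := (congrArg AG.v h1).trans hx.1
      rw [mem_bot, ← e, h2, h0])
    (le_antisymm (sup_le (img_mono J_le_S0) (img_mono splitL_le)) (img_le_iff.2 fun x hx => by
      have h1 : gl x.g ∈ splitL := ⟨rfl, hx⟩
      have h2 : x = jv x.v * gl x.g := AG.ext (by simp) (by simp)
      rw [h2, hm _ (hv _) _ (splitL_le h1)]
      exact mul_mem_sup (mem_img_of_mem (jv_mem _)) (mem_img_of_mem h1)))
  have hex : ∀ g : G, ∃ v, (j (jv v))⁻¹ * g ∈ H := fun g => by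
    obtain ⟨⟨k, h⟩, e, -⟩ := hH.existsUnique g
    obtain ⟨v, hv⟩ := hK.1 k.2
    refine ⟨v, ?_⟩
    rw [hv, ← e, inv_mul_cancel_left]
    exact h.2
  have huq : ∀ g v w, (j (jv v))⁻¹ * g ∈ H → (j (jv w))⁻¹ * g ∈ H → v = w := fun g v w h1 h2 => by
    have h3 : (j (jv v))⁻¹ * j (jv w) ∈ img j J ⊓ H :=
      ⟨(img j J).mul_mem ((img j J).inv_mem (hK.2 ⟨v, rfl⟩)) (hK.2 ⟨w, rfl⟩), by
        have := H.mul_mem h1 (H.inv_mem h2)
        rwa [show (j (jv v))⁻¹ * g * ((j (jv w))⁻¹ * g)⁻¹ = (j (jv v))⁻¹ * j (jv w) by group] at this⟩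
    rw [hH.disjoint.eq_bot, mem_bot, inv_mul_eq_one] at h3
    exact hinj _ _ h3
  choose t ht using hex
  have htm : ∀ g h, t (g * h) = t g + ρ g (t h) := fun g h => by
    refine huq (g * h) _ _ (ht _) ?_
    have := mul_mem (ht g) (ht h)
    have e : j (jv (t g)) * j (jv (ρ g (t h))) = j (jv (ρ g (t h))) * j (jv (t g)) := by
      rw [← hadd, ← hadd, add_comm]
    rw [hadd, e, hρ]
    convert this using 1
    group
  let ψ : G →* AG := MonoidHom.mk' (fun g => ⟨t g, ρ g⟩) fun g h => AG.ext (htm g h) (map_mul ρ g h)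
  have hψ : ∀ v, ψ (j (jv v)) = jv v := fun v =>
    AG.ext (huq _ _ _ (ht _) (by rw [jv_v, inv_mul_cancel]; exact one_mem _)) (hρJ v)
  refine ⟨ψ, ρ.range, (injective_iff_map_eq_one ψ).2 fun g hg => ?_,
    le_antisymm ?_ fun x hx => ?_, hρS⟩
  · have h1 : ρ g = 1 := congrArg AG.g hg
    obtain ⟨v, rfl⟩ := hK.1 (hc (mem_centralizer_iff.2 fun y hy => by
      obtain ⟨v, rfl⟩ := hK.1 hy
      have := hρ g v
      rw [h1, gl_one_apply] at this
      exact eq_mul_inv_iff_mul_eq.1 this))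
    rw [hψ, ← jv_zero, jv_inj] at hg
    rw [hg, h0]
  · rintro _ ⟨g, rfl⟩
    exact ⟨g, rfl⟩
  · obtain ⟨g, e⟩ := hx
    refine ⟨j (jv (x.v - t g)) * g, ?_⟩
    rw [map_mul, hψ]
    exact AG.ext (sub_add_cancel _ _) ((one_mul _).trans e)

theorem exists_real {F : FS} (hF : F.IsSaturated 3) :
    ∃ (F' : FS) (θ η : AG → AG) (X : Subgroup GL6), F.IsIsoVia F' θ η ∧ Syl X ∧ Real F' X := by
  have hn : S0 ≤ normalizer (J : Set AG) := by rw [normalizer_eq_top]; exact le_top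
  obtain ⟨N, hN⟩ := F.exists_isKNormalizer J_le_S0 ⊤
    (by rw [preAut_top, normalizerIn_eq_of_le hn] : S0 = _)
  have hNs := hN.isSaturated hF isPGroup_S0
    (hF.kFull_top isPGroup_S0 (F.isFullyNormalized_of_le_normalizer J_le_S0 hn))
  have hJ := hN.isNormal J_le_S0
  have hc : centralizerIn S0 J ≤ J := fun x hx =>
    mem_J_of_comm fun v => (mem_centralizer_iff.1 hx.2 _ (jv_mem v)).symm
  obtain ⟨G, _, _, j, h⟩ :=
    IsConstrained.exists_isModelVia ⟨hNs, J, hJ, hJ.isCentric hc⟩ isPGroup_S0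
  obtain ⟨ψ, X, hψ, hX, hg⟩ := exists_affine h.mulOn h.inj (h.normal_img hJ)
    (h.centralizer_img_le hJ hc) (h.coprime_index (h.isPGroup_img J_le_S0))
  have hm : MulOn S0 fun x => ψ (j x) := fun x hx y hy => by
    beta_reduce; rw [h.mulOn x hx y hy, map_mul]
  have hi : Set.InjOn (fun x => ψ (j x)) S0 := fun x hx y hy e => h.inj x hx y hy (hψ e)
  have hS : ∀ x ∈ S0, ψ (j x) ∈ S0 := fun x hx => by rw [mem_S0, hg x hx]; exact hx
  have himg : img (fun x => ψ (j x)) S0 = S0 := by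
    refine eq_of_le_of_card_ge (img_le_iff.2 hS) (Nat.card_le_card_of_injective
      (fun x => ⟨ψ (j x), mem_img_of_mem (f := fun x => ψ (j x)) x.2⟩) fun x y e => ?_)
    exact Subtype.ext (hi x.2 y.2 (congrArg Subtype.val e))
  have : Nonempty AG := ⟨1⟩
  obtain ⟨F', hF'⟩ := F.exists_isIsoVia hm himg fun x hx => hi.leftInvOn_invFunOn hx
  refine ⟨F', _, _, X, hF', ⟨fun u hu => ?_, fun hd => h.not_dvd ?_⟩, fun P f hP => ⟨fun hf => ?_, ?_⟩⟩
  · have : gl u ∈ aff X := hX ▸ ?_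
    · exact this
    obtain ⟨x, -, e⟩ := hm.mem_img.1 (himg.ge (show gl u ∈ S0 from hu))
    exact ⟨_, e⟩
  · have h1 : (img j S0).map ψ = S0 := by rw [← img_eq_map, ← h.mulOn.img_comp, himg]
    have h2 : (aff X).map proj = X :=
      map_comap_eq_self_of_surjective (fun g => ⟨gl g, rfl⟩) X
    rw [← relIndex_top_right, ← relIndex_map_map_of_injective _ _ hψ, h1, ← MonoidHom.range_eq_map,
      hX, S0, aff, relIndex_comap, h2]
    exact hd
  · have hk := hF'.pull hf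
    have hJP : J ≤ img (Function.invFunOn (fun x => ψ (j x)) S0) P := fun x hx => by
      rw [← hF'.left x (J_le_S0 hx)]
      exact mem_img_of_mem (hP (mem_J.2 ((hg x (J_le_S0 hx)).trans (mem_J.1 hx))))
    obtain ⟨α, -, e⟩ := ((hk.mono hJP).iso_self fun x hx => mor_J hk hJP hx).exists_aut
    obtain ⟨g, -, eg⟩ := h.exists_conj (hN.mor_of hk.le hk le_rfl hJP (fun _ _ => rfl) (mem_top α)
      fun x hx => (e x hx).symm)
    refine ⟨hf.le, fun x hx => hf.mem hx, ψ g, hX ▸ ⟨g, rfl⟩, fun y hy => ?_⟩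
    have := congrArg ψ (eg _ (mem_img_of_mem hy))
    rw [map_mul, map_mul, map_inv] at this
    have r1 := hF'.right y (hf.le hy)
    have r2 := hF'.right _ (hf.mem hy)
    beta_reduce at r1 r2 this
    rwa [r1, r2] at this
  · rintro ⟨h1, h2, g, hgX, e⟩
    obtain ⟨g, rfl⟩ := hX.ge hgX
    refine (hF'.symm.mor_iff_of_compat h1 h2 (f' := fun x =>
      Function.invFunOn (fun x => ψ (j x)) S0 (f (ψ (j x)))) fun y hy => ?_).1 ?_
    · have r1 := hF'.right y (h1 hy)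
      beta_reduce at r1 ⊢
      rw [r1]
    have hmem : ∀ x ∈ img (Function.invFunOn (fun x => ψ (j x)) S0) P, ψ (j x) ∈ P :=
      fun x hx => ((hF'.symm.mem_img h1).1 hx).2
    refine hN.isSubsystemOf.mor (h.mor_iff.2 ⟨hF'.symm.img_le h1,
      fun x hx => hF'.maps' _ (h2 _ (hmem x hx)), g, trivial, fun x hx => hψ ?_⟩)
    have r2 := hF'.right _ (h2 _ (hmem x hx))
    beta_reduce at r2 ⊢
    rw [r2, e _ (hmem x hx), map_mul, map_mul, map_inv]

end Cfsg.Agent.C3
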