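import Mathlib
import Cfsg.Agent.C3.Basic

/-!
# The characteristic series `Ec ≥ R ≥ Φ` and its `SL₂(3)`-section
-/

set_option autoImplicit false
set_option linter.unusedVariables false

namespace Cfsg.Agent.C3.WcA

open Cfsg Cfsg.FusionSystem Cfsg.Agent.Fus Subgroup
open scoped commutatorElement

section
variable (a b c : K) (v : V)
theorem uf0 : uf a b c v 0 = v 0 + a * v 1 + a * a * v 2 + c * v 3 + a * c * v 4 + c * c * v 5 := rfl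
theorem uf1 : uf a b c v 1 = v 1 + 2 * a * v 2 + b * v 3 + (c + a * b) * v 4 + 2 * b * c * v 5 := rfl
theorem uf2 : uf a b c v 2 = v 2 + b * v 4 + b * b * v 5 := rfl
theorem uf3 : uf a b c v 3 = v 3 + a * v 4 + 2 * c * v 5 := rfl
theorem uf4 : uf a b c v 4 = v 4 + 2 * b * v 5 := rfl
theorem uf5 : uf a b c v 5 = v 5 := rfl
end

theorem V_ext {v w : V} : v = w ↔ v 0 = w 0 ∧ v 1 = w 1 ∧ v 2 = w 2 ∧ v 3 = w 3 ∧ v 4 = w 4 ∧ v 5 = w 5 :=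
  ⟨fun h => h ▸ ⟨rfl, rfl, rfl, rfl, rfl, rfl⟩, fun ⟨h0, h1, h2, h3, h4, h5⟩ => by
    funext i; fin_cases i <;> assumption⟩

/-- The Frattini subgroup of `Ec`. -/
def Ph : Subgroup AG where
  carrier := {x | ∃ v c, v 4 = 0 ∧ v 5 = 0 ∧ x = el v 0 0 c}
  one_mem' := ⟨0, 0, rfl, rfl, by rw [el_zero, jv_zero]⟩
  mul_mem' := by
    rintro _ _ ⟨v, c, h1, h2, rfl⟩ ⟨w, d, h3, h4, rfl⟩
    exact ⟨v + uf 0 0 c w, c + d, by simp [uf, h1, h3], by simp [uf, h2, h4], by rw [el_mul]; simp⟩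
  inv_mem' := by
    rintro _ ⟨v, c, h1, h2, rfl⟩
    exact ⟨-uf 0 0 (-c) v, -c, by simp [uf, h1], by simp [uf, h2], by rw [el_inv]; simp⟩

theorem el_Ph {v : V} {a b c : K} : el v a b c ∈ Ph ↔ a = 0 ∧ b = 0 ∧ v 4 = 0 ∧ v 5 = 0 := by
  refine ⟨?_, ?_⟩
  · rintro ⟨w, d, h1, h2, h⟩
    obtain ⟨rfl, rfl, rfl, -⟩ := el_inj.1 h
    exact ⟨rfl, rfl, h1, h2⟩
  · rintro ⟨rfl, rfl, h1, h2⟩
    exact ⟨v, c, h1, h2, rfl⟩

theorem el_Ec {v : V} {a b c : K} : el v a b c ∈ Ec ↔ v 5 = 0 :=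
  ⟨fun h => h.2, fun h => ⟨⟨u_mem .., u_mem ..⟩, h⟩⟩

theorem el_R {v : V} {a b c : K} : el v a b c ∈ R ↔ a = 0 ∧ v 5 = 0 := by
  rw [mem_hy, el_g, u_mem_Bl]; simp [u_mem]

theorem jv_Ph {v : V} : jv v ∈ Ph ↔ v 4 = 0 ∧ v 5 = 0 := by rw [← el_zero, el_Ph]; simp
theorem jv_Ec {v : V} : jv v ∈ Ec ↔ v 5 = 0 := by rw [← el_zero, el_Ec]
theorem jv_R {v : V} : jv v ∈ R ↔ v 5 = 0 := by rw [← el_zero, el_R]; simp

theorem Ec_le : Ec ≤ S0 := fun _ h => h.1.1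
theorem R_le : R ≤ Ec := fun _ h => ⟨⟨h.1.2, h.1.2⟩, h.2⟩
theorem Ph_le : Ph ≤ R := by
  rintro _ ⟨v, c, h1, h2, rfl⟩
  exact el_R.2 ⟨rfl, h2⟩

theorem ex_Ec {x : AG} (hx : x ∈ Ec) : ∃ v a b c, v 5 = 0 ∧ x = el v a b c := by
  obtain ⟨v, a, b, c, rfl⟩ := exists_el (Ec_le hx)
  exact ⟨v, a, b, c, el_Ec.1 hx, rfl⟩

theorem ex_R {x : AG} (hx : x ∈ R) : ∃ v b c, v 5 = 0 ∧ x = el v 0 b c := by
  obtain ⟨v, a, b, c, rfl⟩ := exists_el (Ec_le (R_le hx))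
  obtain ⟨rfl, h⟩ := el_R.1 hx
  exact ⟨v, b, c, h, rfl⟩

theorem comm_jv (x : AG) (v : V) : ⁅x, jv v⁆ = jv (x.g v - v) := by
  rw [commutatorElement_def, conj_jv, jv_inv, jv_mul, sub_eq_add_neg]

theorem Ph_eq : Ph = ⁅Ec, Ec⁆ := by
  refine le_antisymm ?_ (commutator_le.2 fun x hx y hy => ?_)
  · rintro _ ⟨v, c, h1, h2, rfl⟩
    have e1 : el v 0 0 c = ⁅el 0 1 0 0, jv ![0, v 0, 0, 0, v 3, 0]⁆ * ⁅el 0 0 1 0, jv ![0, 0, 0, v 1, v 2, 0]⁆ *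
        ⁅el 0 c 0 0, el 0 0 1 0⁆ := by
      rw [comm_jv, comm_jv, jv_mul, ← el_zero, commutatorElement_def, el_inv, el_inv, el_mul, el_mul, el_mul,
        el_mul, el_inj]
      refine ⟨?_, by simp, by simp, by simp⟩
      funext i; fin_cases i <;> simp [u_apply, uf, h1, h2]
    rw [e1]
    exact mul_mem (mul_mem (commutator_mem_commutator (el_Ec.2 rfl) (jv_Ec.2 rfl))
      (commutator_mem_commutator (el_Ec.2 rfl) (jv_Ec.2 rfl)))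
      (commutator_mem_commutator (el_Ec.2 rfl) (el_Ec.2 rfl))
  · obtain ⟨v, a, b, c, h1, rfl⟩ := ex_Ec hx
    obtain ⟨w, a', b', c', h2, rfl⟩ := ex_Ec hy
    rw [commutatorElement_def, el_inv, el_inv, el_mul, el_mul, el_mul, el_Ph]
    simp [uf4, uf5, h1, h2]

theorem R_eq : R = Ec ⊓ centralizer ((Ph ⊓ centralizer (Ph : Set AG) : Subgroup AG) : Set AG) := by
  refine le_antisymm (le_inf R_le fun x hx => mem_centralizer_iff.2 ?_) fun x hx => ?_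
  · rintro _ ⟨⟨w, d, h1, h2, rfl⟩, hz⟩
    obtain ⟨v, b, c, h3, rfl⟩ := ex_R hx
    have k1 := mem_centralizer_iff.1 hz _ (el_Ph.2 ⟨rfl, rfl, rfl, rfl⟩ : el (e 3) 0 0 0 ∈ Ph)
    have k2 := mem_centralizer_iff.1 hz _ (el_Ph.2 ⟨rfl, rfl, rfl, rfl⟩ : el 0 0 0 1 ∈ Ph)
    rw [el_mul, el_mul, el_inj] at k1 k2 ⊢
    have k3 := congrFun k1.1 0
    have k4 := congrFun k2.1 0
    simp [uf, e, h1, h2] at k3 k4
    refine ⟨?_, by simp, by simp, by simp [k3]⟩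
    simp [V_ext, uf0, uf1, uf2, uf3, uf4, uf5, h1, h2, h3, k3, k4, add_comm]
  · obtain ⟨v, a, b, c, h1, rfl⟩ := ex_Ec hx.1
    have k1 : el (e 1) 0 0 0 ∈ Ph ⊓ centralizer (Ph : Set AG) := by
      refine ⟨el_Ph.2 ⟨rfl, rfl, rfl, rfl⟩, mem_centralizer_iff.2 ?_⟩
      rintro _ ⟨w, d, h2, h3, rfl⟩
      rw [el_mul, el_mul, el_inj]
      refine ⟨?_, by simp, by simp, by simp⟩
      funext i; fin_cases i <;> simp [uf, e, add_comm]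
    have k2 := mem_centralizer_iff.1 hx.2 _ k1
    rw [el_mul, el_mul, el_inj] at k2
    have k3 := congrFun k2.1 0
    simp [uf, e] at k3
    exact el_R.2 ⟨k3, h1⟩

theorem inv_Ph (A : Subgroup (MulAut Ec)) : InvA A Ph := Ph_eq ▸ (invA_top A).commutator (invA_top A)

theorem inv_R (A : Subgroup (MulAut Ec)) : InvA A R :=
  R_eq ▸ (invA_top A).inf_centralizer ((inv_Ph A).inf_centralizer (inv_Ph A))

/-- Coordinates on `R / Φ`. -/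
def c0 (x : AG) : Fin 2 → ZMod 3 := ![x.g (e 3) 1, x.v 4]

theorem c0_el (v : V) (a b c : K) : c0 (el v a b c) = ![b, v 4] := by simp [c0, u_apply, uf, e]

theorem coord : Coord R Ph c0 where
  le := Ph_le
  add x hx y hy := by
    obtain ⟨v, b, c, h1, rfl⟩ := ex_R hx
    obtain ⟨w, b', c', h2, rfl⟩ := ex_R hy
    rw [el_mul, c0_el, c0_el, c0_el]; simp [uf, h2]
  surj t := ⟨el (t 1 • e 4) 0 (t 0) 0, el_R.2 ⟨rfl, by simp [e]⟩, by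
    rw [c0_el]; funext i; fin_cases i <;> simp [e]⟩
  ker x hx := by
    obtain ⟨v, b, c, h1, rfl⟩ := ex_R hx
    rw [c0_el, el_Ph]; simp [h1]

theorem mem_norm {g : AG} (h : ∀ v a b c, v 5 = 0 → g * el v a b c * g⁻¹ ∈ Ec) :
    g ∈ normalizer (Ec : Set AG) :=
  mem_normalizer_fintype fun x hx => by
    obtain ⟨v, a, b, c, h1, rfl⟩ := ex_Ec hx
    exact h v a b c h1

theorem S0_le_norm : S0 ≤ normalizer (Ec : Set AG) := fun g hg => mem_norm fun v a b c h => by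
  obtain ⟨w, a', b', c', rfl⟩ := exists_el hg
  rw [el_inv, el_mul, el_mul, el_Ec]; simp [uf5, h]

theorem y_mem : jv (e 5) ∈ normalizerIn S0 Ec := ⟨J_le_S0 (jv_mem _), S0_le_norm (J_le_S0 (jv_mem _))⟩

theorem y_not : jv (e 5) ∉ Ec := fun h => absurd (jv_Ec.1 h) (by decide)

/-- The group acting on the section. -/
abbrev Gm (F : FS) : Subgroup (MulAut Ec) := secStab Ec Ec R ⊓ secStab Ec Ph Ph ⊓ F.autGroup Ec

theorem mem_Gm {F : FS} {α : MulAut Ec} (h1 : α ∈ F.autGroup Ec) (h2 : ∀ x ∈ Ec, x⁻¹ * totA α x ∈ R) :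
    α ∈ Gm F :=
  ⟨⟨mem_secStab_of le_rfl R_le h2, mem_secStab_of (Ph_le.trans R_le) le_rfl fun x hx =>
    mul_mem (inv_mem hx) ((inv_Ph ⊤).mem (mem_top _) hx)⟩, h1⟩

theorem exists_sec {F : FS} (hF : F.IsSaturated 3) (hE : F.IsEssential 3 Ec) :
    (∃ c : AG → Fin 2 → ZMod 3, SL2Sec (Gm F) (cAut Ec (jv (e 5))) R Ph c) ∧ Ec ⊔ zpowers (jv (e 5)) = S0 := by
  obtain ⟨h1, h2, -⟩ := hE.exists_sl2Sec_chain hF isPGroup_S0 (inv_R _) (inv_Ph _) (inv_Ph _) Ph_le le_rfl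
    (Ph_eq.le.trans le_sup_left) coord.le_normalizer coord.relIndex_eq.dvd y_mem y_not (fun x hx => by
      obtain ⟨v, a, b, c, h1, rfl⟩ := ex_Ec hx
      rw [← el_zero, el_inv, el_inv, el_mul, el_mul, el_mul, el_R]; simp [uf5, h1])
    fun x hx => mul_mem (inv_mem hx) ((inv_Ph _).conj_mem (F := F) Ec_le y_mem hx)
  exact ⟨h1, h2 ▸ normalizerIn_eq_of_le S0_le_norm⟩

end Cfsg.Agent.C3.WcA
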