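import Mathlib
import Cfsg.Agent.C3.Basic
import Cfsg.Agent.C3.WcA

/-!
# The Weyl element on the essential subgroup `Ec`
-/

set_option autoImplicit false
set_option linter.unusedVariables false

namespace Cfsg.Agent.C3

open Cfsg Cfsg.FusionSystem Cfsg.Agent.Fus Subgroup WcA Matrix
open scoped commutatorElement MatrixGroups

theorem d3_mem {F : FS} (hF : F.IsSaturated 3) {X : Subgroup GL6} (hs : Syl X) (ht : Tor X)
    (hr : Real F X) (hE : F.IsEssential 3 Ec) : d3 ∈ X := by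
  obtain ⟨⟨c, hc⟩, hS⟩ := exists_sec hF hE
  obtain ⟨γ, -, h1, -, h2, β, h3, -, h4, h5⟩ := hc.exists_torus_ext (hE.receptive hF isPGroup_S0) hE.isCentric
    inf_le_right y_mem (K := ⊤) (fun _ _ => mem_top _) (l := -1) (by decide)
  obtain ⟨-, h6, g, hg, h7⟩ := (hr _ _ (hS ▸ J_le_S0)).1 (mor_totA hS.le h3)
  have hn : g.g ∈ normalizer (U : Set GL6) := mem_normalizer_fintype fun x hx => by
    have hx' : gl x ∈ Ec ⊔ zpowers (jv (e 5)) := hS ▸ hx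
    have := h6 _ hx'
    rw [h7 _ hx'] at this
    exact this
  obtain ⟨a, b, d, p, r, s, k⟩ := ht g.g hg hn
  have cj : ∀ x y z, g.g * u x y z * g.g⁻¹ = u a b d * u (p * x) (r * y) (p * r * z) * (u a b d)⁻¹ := fun x y z => by
    rw [← tor_u p r s, k]; group
  have ev : ∀ x ∈ Ec, totA γ x = g * x * g⁻¹ := fun x hx => by rw [← h4 x hx, h7 x (mem_sup_left hx)]
  have e1 : p = 1 := by
    have hx : el 0 1 0 0 ∈ Ec := el_Ec.2 rfl
    have k1 : _ ∈ Bb := ((mem_secStab.1 h1.1.1).2 _ hx hx).1.1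
    rw [ev _ hx, mul_g, mul_g, mul_g, inv_g, inv_g, el_g, cj, u_inv, u_inv, u_mul, u_mul, u_mul, u_mem_Bl] at k1
    exact Units.ext (by rw [Units.val_one]; linear_combination k1)
  have e2 : r = -1 := by
    have hx : el 0 0 1 0 ∈ R := el_R.2 ⟨rfl, rfl⟩
    have k1 : c (el 0 0 1 0)⁻¹ = c (totA γ (el 0 0 1 0)) := by
      rw [h2 _ hx, hc.toCoord.map_inv hx]
      generalize c (el 0 0 1 0) = t
      revert t; decide +kernel
    obtain ⟨v, x, -, -, k2⟩ := (hc.toCoord.eq_iff (inv_mem hx) (hc.invX.mem h1 hx)).1 k1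
    have k3 := congrArg AG.g k2
    rw [ev _ (R_le hx), inv_inv, mul_g, mul_g, mul_g, inv_g, el_g, el_g, cj, u_inv, u_mul, u_mul, u_mul,
      u_inj] at k3
    exact Units.ext (by rw [Units.val_neg, Units.val_one]; linear_combination k3.2.1)
  have e3 : s = 1 := by
    rw [h7 _ (mem_sup_right (mem_zpowers _)), show ((-1 : ZMod 3) ^ 2).val = 1 by decide, pow_one, conj_jv,
      jv_inv, jv_mul, jv_Ec, k, gl_mul_apply, u_apply, Pi.add_apply, uf5, tor_apply] at h5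
    exact Units.ext (by simpa [tf, e, add_neg_eq_zero] using h5)
  have := mul_mem (inv_mem (hs.le (u_mem a b d))) (show g.g ∈ X from hg)
  rwa [k, inv_mul_cancel_left, e1, e2, e3] at this

namespace Wc

theorem d3_conj (v : V) (a b c : K) :
    gl d3 * el v a b c * (gl d3)⁻¹ = el ![v 0, v 1, v 2, -v 3, -v 4, v 5] a (-b) (-c) := by
  refine AG.ext ?_ ?_
  · simp [d3, tor_apply, tf]
  · have := tor_u 1 (-1) 1 a b c
    simpa [d3] using this

theorem d3_norm : gl d3 ∈ normalizer (Ec : Set AG) := mem_norm fun v a b c h => by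
  rw [d3_conj]; exact el_Ec.2 h

/-- Conjugation by `d3`. -/
noncomputable def δ : MulAut Ec := cAut Ec (gl d3)

theorem δ_el {v : V} (h : v 5 = 0) (a b c : K) :
    totA δ (el v a b c) = el ![v 0, v 1, v 2, -v 3, -v 4, 0] a (-b) (-c) := by
  rw [δ, totA_cAut d3_norm (el_Ec.2 h), d3_conj, h]

theorem δ_sq : δ * δ = 1 := eq_one_of_forall_totA fun x hx => by
  obtain ⟨v, a, b, c, h, rfl⟩ := ex_Ec hx
  rw [totA_mul _ _ hx, δ_el h, δ_el rfl, el_inj]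
  simp [V_ext, h]

theorem δ_mem {F : FS} {X : Subgroup GL6} (hr : Real F X) (hd : d3 ∈ X) : δ ∈ Gm F := by
  have h : F.Mor S0 fun x => gl d3 * x * (gl d3)⁻¹ := (hr _ _ J_le_S0).2 ⟨le_rfl, fun x hx => by
    obtain ⟨v, a, b, c, rfl⟩ := exists_el hx
    rw [d3_conj]; exact el_mem .., gl d3, hd, fun _ _ => rfl⟩
  refine mem_Gm (mem_autGroup_of_mor (h.mono Ec_le) (coe_cAut d3_norm)) fun x hx => ?_
  obtain ⟨v, a, b, c, h, rfl⟩ := ex_Ec hx
  rw [δ_el h, el_inv, el_mul, el_R]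
  simp [uf5, h]

theorem δ_acts {c : AG → Fin 2 → ZMod 3} (hc : Coord R Ph c) : Acts R c δ (-1) := fun x hx => by
  rw [neg_mulVec, one_mulVec, ← hc.map_inv hx, eq_comm, hc.eq_iff (inv_mem hx) ((inv_R ⊤).mem (mem_top _) hx)]
  obtain ⟨v, b, c, h, rfl⟩ := ex_R hx
  rw [δ_el h, inv_inv, el_mul, el_Ph]
  simp [uf4, uf5, h]

theorem inn_acts {c : AG → Fin 2 → ZMod 3} (hc : Coord R Ph c) {t : MulAut Ec} (ht : t ∈ Inn Ec) :
    Acts R c t 1 := fun x hx => by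
  obtain ⟨g, rfl⟩ := ht
  rw [one_mulVec, eq_comm, hc.eq_iff hx ((inv_R ⊤).mem (mem_top _) hx), ← cAut_coe,
    totA_cAut (le_normalizer g.2) (R_le hx), comm_mem_iff_conj, Ph_eq]
  exact commutator_mem_commutator (inv_mem (R_le hx)) g.2

theorem exists_mat : ∀ P Q : Fin 2 → ZMod 3, P ≠ 0 → Q ≠ 0 → P ≠ Q → P ≠ -Q → ∃ a b c d : ZMod 3,
    a * d - b * c = 1 ∧ !![a, b; c, d] *ᵥ P = Q ∧ !![a, b; c, d] *ᵥ Q = -P ∧
      !![a, b; c, d] * !![a, b; c, d] = -1 := by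
  decide +kernel

/-- An involution and its conjugate in the same coset of a 3-group. -/
theorem exists_comm {G : Type*} [Group G] {N : Subgroup G} (hN : IsPGroup 3 N) {γ d : G} (hd : d * d = 1)
    (h : γ * d * (d * γ)⁻¹ ∈ N) : ∃ t ∈ N, Commute (t * γ) d := by
  obtain ⟨k, hk⟩ := hN ⟨_, h⟩
  have h1 : (γ * d * (d * γ)⁻¹) ^ 3 ^ k = 1 := congrArg Subtype.val hk
  obtain ⟨j, hj⟩ : Odd (3 ^ k) := Odd.pow (by decide)
  have di : d⁻¹ = d := inv_eq_of_mul_eq_one_right hd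
  generalize hm : γ * d * (d * γ)⁻¹ = m at h h1
  have h2 : γ * d = m * d * γ := by rw [← hm]; group
  have h3 : SemiconjBy d m⁻¹ m := by
    have : γ * d * γ⁻¹ * (γ * d * γ⁻¹) = 1 := by rw [conj_mul, hd]; group
    rw [h2, mul_inv_cancel_right] at this
    change d * m⁻¹ = m * d
    rw [eq_inv_of_mul_eq_one_left this, _root_.mul_inv_rev, di]
  refine ⟨m ^ j, pow_mem h j, ?_⟩
  have h4 : m ^ j * m = (m⁻¹) ^ j := by
    rw [inv_pow, eq_inv_iff_mul_eq_one, ← h1, hj]; group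
  change m ^ j * γ * d = d * (m ^ j * γ)
  rw [mul_assoc, h2, ← mul_assoc, ← mul_assoc, h4, ← mul_assoc]
  exact congrArg (· * γ) ((h3.inv_right.pow_right j).eq.symm.trans (by rw [inv_inv]))

theorem exists_w {F : FS} (hF : F.IsSaturated 3) {X : Subgroup GL6} (hr : Real F X) (hd : d3 ∈ X)
    (hE : F.IsEssential 3 Ec) : ∃ w ∈ Gm F, (orderOf w).Coprime 3 ∧ Commute w δ ∧
      (el (e 4) 0 0 0)⁻¹ * totA w (el 0 0 1 0) ∈ Ph ∧ el 0 0 1 0 * totA w (el (e 4) 0 0 0) ∈ Ph := by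
  obtain ⟨⟨c, hc⟩, -⟩ := exists_sec hF hE
  have hb : el 0 0 1 0 ∈ R := el_R.2 ⟨rfl, rfl⟩
  have h4 : el (e 4) 0 0 0 ∈ R := el_R.2 ⟨rfl, rfl⟩
  obtain ⟨a, b, c', d, m1, m2, m3, m4⟩ := exists_mat (c (el 0 0 1 0)) (c (el (e 4) 0 0 0))
    (fun h => absurd (el_Ph.1 ((hc.ker _ hb).1 h)).2.1 (by decide))
    (fun h => absurd (el_Ph.1 ((hc.ker _ h4).1 h)).2.2.1 (by decide))
    (fun h => by
      rw [hc.toCoord.eq_iff hb h4, el_inv, el_mul, el_Ph] at h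
      exact absurd h.2.1 (by decide))
    (fun h => by
      rw [← hc.toCoord.map_inv h4, hc.toCoord.eq_iff hb (inv_mem h4), el_inv, el_inv, el_mul, el_Ph] at h
      exact absurd h.2.1 (by decide))
  obtain ⟨γ, g1, g2⟩ := hc.exists_acts ⟨!![a, b; c', d], by rw [det_fin_two_of, m1]⟩
  replace g2 : Acts R c γ !![a, b; c', d] := g2
  generalize !![a, b; c', d] = M at m2 m3 m4 g2
  have d1 := δ_mem hr hd
  have d2 := δ_acts hc.toCoord
  obtain ⟨t, t1, t2⟩ := exists_comm (isPGroup_inn (isPGroup_S0.to_le Ec_le)) δ_sq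
    (hc.ker_inn _ (mul_mem (mul_mem g1 d1) (inv_mem (mul_mem d1 g1))) (Acts.mul_inv_mem hc.toCoord hc.invX
      (mul_mem g1 d1) (mul_mem d1 g1) (g2.mul hc.invX d1 d2) (by simpa using d2.mul hc.invX g1 g2)))
  have t3 : t ∈ Gm F := by
    refine mem_Gm (F.inn_le_autGroup Ec_le t1) fun x hx => ?_
    obtain ⟨g, rfl⟩ := t1
    rw [← cAut_coe, totA_cAut (le_normalizer g.2) hx, comm_mem_iff_conj]
    exact Ph_le (Ph_eq ▸ commutator_mem_commutator (inv_mem hx) g.2)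
  have t4 := (inn_acts hc.toCoord t1).mul hc.invX g1 g2
  obtain ⟨n, n1, n2⟩ := exists_pow_coprime 3 (t * γ) (k := 4) (by decide)
  have t5 := t4.pow hc.invX (mul_mem t3 g1) n
  have m5 : M ^ 4 = 1 := by rw [show M ^ 4 = M * M * (M * M) by noncomm_ring, m4]; simp
  rw [one_mul, pow_eq_pow_mod n m5, n2, show 1 % 4 = 1 from rfl, pow_one] at t5
  have w1 := pow_mem (mul_mem t3 g1) n
  refine ⟨_, w1, n1, t2.pow_left n, ?_, ?_⟩
  · rw [← hc.toCoord.eq_iff h4 (hc.invX.mem w1 hb), t5 _ hb, m2]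
  · rw [← inv_inv (el 0 0 1 0), ← hc.toCoord.eq_iff (inv_mem hb) (hc.invX.mem w1 h4), t5 _ h4, m3,
      hc.toCoord.map_inv hb]

theorem step {w : MulAut Ec} (hw : (orderOf w).Coprime 3) {x : AG} (hx : x ∈ Ec)
    (h : x⁻¹ * totA w x ∈ fixA (zpowers w)) : x ∈ fixA (zpowers w) := by
  obtain ⟨h1, h2⟩ := mem_fixA_zpowers.1 h
  have h3 : ∀ n : ℕ, totA (w ^ n) x = x * (x⁻¹ * totA w x) ^ n := fun n => by
    induction n with
    | zero => rw [pow_zero, pow_zero, totA_one hx, mul_one]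
    | succ n ih =>
      rw [totA_pow_succ _ _ hx, ih, (mulOn_totA w).map_mul hx (pow_mem h1 n), (mulOn_totA w).map_pow h1, h2, pow_succ',
        ← mul_assoc, mul_inv_cancel_left]
  have h4 := h3 (orderOf w)
  rw [pow_orderOf_eq_one, totA_one hx, left_eq_mul] at h4
  obtain ⟨k, hk⟩ := isPGroup_S0 ⟨_, Ec_le h1⟩
  have h5 : (x⁻¹ * totA w x) ^ 3 ^ k = 1 := congrArg Subtype.val hk
  have h6 := pow_gcd_eq_one.2 ⟨h4, h5⟩
  rw [hw.pow_right k, pow_one, inv_mul_eq_one] at h6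
  exact mem_fixA_zpowers.2 ⟨hx, h6.symm⟩

theorem jv_smul {H : Subgroup AG} {n : V} (h : jv n ∈ H) (k : K) : jv (k • n) ∈ H := by
  have : k = 0 ∨ k = 1 ∨ k = -1 := by revert k; decide
  rcases this with rfl | rfl | rfl
  · rw [zero_smul, jv_zero]; exact one_mem _
  · rwa [one_smul]
  · rw [neg_smul, one_smul, ← jv_inv]; exact inv_mem h

end Wc

open Wc

set_option synthInstance.maxSize 2000 in
theorem exists_wc {F : FS} (hF : F.IsSaturated 3) {X : Subgroup GL6} (hr : Real F X) (hd : d3 ∈ X)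
    (hE : F.IsEssential 3 Ec) : Wc F := by
  obtain ⟨w, w1, w2, w3, ⟨v', c', p1, p2, hp⟩, t', d', q1, q2, hq⟩ := exists_w hF hr hd hE
  have hm := mulOn_totA w
  have ha : el 0 1 0 0 ∈ Ec := el_Ec.2 rfl
  have hb : el 0 0 1 0 ∈ Ec := el_Ec.2 rfl
  have h4 : el (e 4) 0 0 0 ∈ Ec := el_Ec.2 rfl
  have cm : ∀ x ∈ Ec, totA δ (totA w x) = totA w (totA δ x) := fun x hx => by
    rw [← totA_mul _ _ hx, ← w3.eq, totA_mul _ _ hx]
  obtain ⟨v, c, p4, p5, hp⟩ : ∃ v c, v 4 = 1 ∧ v 5 = 0 ∧ totA w (el 0 0 1 0) = el v 0 0 c :=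
    ⟨e 4 + uf 0 0 0 v', c', by simp [uf4, e, p1], by simp [uf5, e, p2], by
      rw [inv_mul_eq_iff_eq_mul.1 hp, el_mul]; simp⟩
  obtain ⟨t, d, q4, q5, hq⟩ : ∃ t d, t 4 = 0 ∧ t 5 = 0 ∧ totA w (el (e 4) 0 0 0) = el t 0 (-1) d :=
    ⟨uf 0 (-1) 0 t', d', by simp [uf4, q1, q2], by simp [uf5, q2], by
      rw [eq_inv_mul_iff_mul_eq.2 hq, el_inv, el_mul, el_inj]; simp [V_ext, uf0, uf1, uf2, uf3, uf4, uf5]⟩
  obtain ⟨n, hn, hA⟩ : ∃ n, InW n ∧ totA w (el 0 1 0 0) = el n 1 0 0 := by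
    have k1 := (mem_secStab.1 w1.1.1).2 _ ha ha
    have k2 := cm _ ha
    obtain ⟨n, x, y, z, n5, hA⟩ := ex_Ec (totA_mem w ha)
    rw [δ_el rfl, show el ![(0 : V) 0, (0 : V) 1, (0 : V) 2, -(0 : V) 3, -(0 : V) 4, 0] 1 (-0) (-0) = el 0 1 0 0 by
      rw [el_inj]; decide, hA, δ_el n5, el_inj, V_ext] at k2
    rw [hA, el_inv, el_mul, el_R] at k1
    have k3 : ∀ s : K, -s = s → s = 0 := by decide
    obtain rfl : x = 1 := by linear_combination k1.1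
    rw [k3 y k2.2.2.1, k3 z k2.2.2.2] at hA
    exact ⟨n, ⟨k3 _ k2.1.2.2.2.1, k3 _ k2.1.2.2.2.2.1, n5⟩, hA⟩
  have cA : ∀ {m m' : V}, m 5 = 0 → totA w (jv m) = jv m' →
      totA w (jv (uf 1 0 0 m - m)) = jv (uf 1 0 0 m' - m') := fun {m m'} h5 h => by
    have k := hm.map_commutatorElement ha (jv_Ec.2 h5)
    rwa [hA, h, comm_jv, comm_jv] at k
  obtain ⟨α, β, h2⟩ : ∃ α β, totA w (jv (e 2)) = jv ![α, β, 1, 0, 0, 0] := by
    have k := hm.map_commutatorElement hb h4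
    rw [hp, hq, el_zero, comm_jv, show (el 0 0 1 0).g (e 4) - e 4 = e 2 by decide] at k
    refine ⟨(⁅el v 0 0 c, el t 0 (-1) d⁆).v 0, (⁅el v 0 0 c, el t 0 (-1) d⁆).v 1, k.trans ?_⟩
    rw [commutatorElement_def, el_inv, el_inv, el_mul, el_mul, el_mul, ← el_zero, el_inj]
    simp [V_ext, uf2, uf3, uf4, uf5, p4, p5, q4, q5]
    ring
  have h1 := cA rfl h2
  rw [show uf 1 0 0 (e 2) - e 2 = ![1, -1, 0, 0, 0, 0] by decide] at h1
  have h0 := cA rfl h1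
  have f0 : jv ![-1, 0, 0, 0, 0, 0] ∈ fixA (zpowers w) := mem_fixA_zpowers.2 ⟨jv_Ec.2 rfl, by
    rw [show uf 1 0 0 ![1, -1, 0, 0, 0, 0] - ![1, -1, 0, 0, 0, 0] = ![-1, 0, 0, 0, 0, 0] by decide] at h0
    rw [h0, jv_inj]; clear * -; revert α β; decide⟩
  have f1 : jv ![1, -1, 0, 0, 0, 0] ∈ fixA (zpowers w) := step w2 (jv_Ec.2 rfl) (by
    rw [h1, jv_inv, jv_mul]
    convert jv_smul f0 (-β) using 2
    clear * -; revert α β; decide)
  have f2 : jv (e 2) ∈ fixA (zpowers w) := step w2 (jv_Ec.2 rfl) (by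
    rw [h2, jv_inv, jv_mul]
    convert mul_mem (jv_smul f0 (-α - β)) (jv_smul f1 (-β)) using 1
    rw [jv_mul, jv_inj]; clear * -; revert α β; decide)
  have fW : ∀ m, InW m → jv m ∈ fixA (zpowers w) := fun m ⟨m3, m4, m5⟩ => by
    convert mul_mem (mul_mem (jv_smul f0 (-m 0 - m 1)) (jv_smul f1 (-m 1))) (jv_smul f2 (m 2)) using 1
    rw [jv_mul, jv_mul, jv_inj, show e 2 = ![0, 0, 1, 0, 0, 0] by decide]; simp [V_ext, m3, m4, m5]
  have fA : el 0 1 0 0 ∈ fixA (zpowers w) := step w2 ha (by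
    rw [hA, el_inv, el_mul]
    convert fW (uf (-1) 0 0 n) (by simp [InW, uf3, uf4, uf5, hn.1, hn.2.1, hn.2.2]) using 1
    rw [← el_zero, el_inj]; simp [V_ext, uf0, uf1, uf2, uf3, uf4, uf5])
  replace hA := (mem_fixA_zpowers.1 fA).2
  have rel : ∀ {x y : AG}, x ∈ Ec → totA w x = y → x * (el 0 1 0 0 * x * (el 0 1 0 0)⁻¹) =
      el 0 1 0 0 * x * (el 0 1 0 0)⁻¹ * x → y * (el 0 1 0 0 * y * (el 0 1 0 0)⁻¹) =
      el 0 1 0 0 * y * (el 0 1 0 0)⁻¹ * y := fun {x y} hx h k => by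
    have hc := mul_mem (mul_mem ha hx) (inv_mem ha)
    have k1 := congrArg (totA w) k
    rwa [hm.map_mul hx hc, hm.map_mul hc hx, hm.map_conj ha hx, hA, h] at k1
  have r1 := rel hb hp (by simp only [el_inv, el_mul, el_inj]; decide)
  have r2 := rel h4 hq (by simp only [el_inv, el_mul, el_inj]; decide)
  have r4 := cm _ hb
  rw [hp, δ_el p5, δ_el rfl, show el ![(0 : V) 0, (0 : V) 1, (0 : V) 2, -(0 : V) 3, -(0 : V) 4, 0] 0 (-1) (-0) =
    (el 0 0 1 0)⁻¹ by rw [el_inv, el_inj]; decide, hm.map_inv hb, hp] at r4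
  have r5 := cm _ h4
  rw [hq, δ_el q5, δ_el rfl, show el ![e 4 0, e 4 1, e 4 2, -e 4 3, -e 4 4, 0] 0 (-0) (-0) =
    (el (e 4) 0 0 0)⁻¹ by rw [el_inv, el_inj]; decide, hm.map_inv h4, hq] at r5
  simp only [el_inv, el_mul, el_inj] at r1 r2 r4 r5
  replace r1 := r1.1
  replace r2 := r2.1
  replace r4 := r4.1
  replace r5 := r5.1
  obtain rfl : c = 0 := by
    clear * - r1 p4 p5; revert c p4 p5; revert v; rw [forall_V]; decide +kernel
  have r3 := hm.map_commutatorElement hb h4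
  rw [hp, hq, el_zero, comm_jv, show (el 0 0 1 0).g (e 4) - e 4 = e 2 by decide, (mem_fixA_zpowers.1 f2).2,
    el_zero, ← commutatorElement_inv, comm_jv, jv_inv, jv_inj, el_g, u_apply] at r3
  obtain ⟨rfl, rfl⟩ : d = 0 ∧ v = e 4 := by
    clear * - r3 r4 p4 p5; revert d p4 p5 r4; revert v; rw [forall_V]; decide +kernel
  obtain rfl : t = 0 := by
    clear * - r2 r5 q4 q5; revert t; rw [forall_V]; decide +kernel
  refine ⟨totA w, mor_totA Ec_le w1.2, fun m a hm => ?_, hp.trans (el_zero _), (el_zero (e 4)) ▸ hq⟩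
  have k : el 0 a 0 0 ∈ fixA (zpowers w) := by
    have : a = 0 ∨ a = 1 ∨ a = -1 := by clear * -; revert a; decide
    rcases this with rfl | rfl | rfl
    · rw [el_zero, jv_zero]; exact one_mem _
    · exact fA
    · convert inv_mem fA using 1
      rw [el_inv, el_inj]; decide
  refine (mem_fixA_zpowers.1 ?_).2
  convert mul_mem (fW m hm) k using 1
  rw [← el_zero, el_mul, el_inj]; simp [V_ext, uf0, uf1, uf2, uf3, uf4, uf5]

end Cfsg.Agent.C3
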